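import Cfsg.Agent.H6.GC5

/-! Inner products of the cuspidal functions. -/

open Cfsg Polynomial Module Finset H5 Submodule
open scoped Classical ComplexConjugate

namespace H6.GC

variable {F V : Type*} [Field F] [AddCommGroup V] [Module F V] [Module.Finite F V]

theorem isUnit_iff_coeff (g : End F V) : IsUnit g ↔ g.charpoly.coeff 0 ≠ 0 := by
  rw [LinearMap.isUnit_iff_isUnit_det, LinearMap.det_eq_sign_charpoly_coeff]; simp

variable [Finite V] {K : Type*} [Field K] [Algebra F K] [Fintype K] [Finite F]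

omit [Finite V] in
theorem Sg_pow (θ : K →*₀ ℂ) (x : K) (k : ℕ) : Sg θ (minpoly F x ^ k) =
    ∑ j ∈ range ((minpoly F x).natDegree * k), θ (x ^ Nat.card F ^ j) := by
  rw [Sg, rs, Polynomial.map_pow, roots_pow, ← aroots_def, H27.Sp.aroots_minpoly, H27.Sp.minPer_fr,
    ← H27.Sp.orb_mul ((H27.Sp.deg_dvd_iff x _).1 dvd_rfl), H27.Sp.orb, Multiset.map_map]
  simp only [Function.comp_def, H27.Sp.fr_iter]
  rfl

theorem inner_J (θ θ' : K →*₀ ℂ) [Nontrivial V] :
    (Nat.card V - 1 : ℂ) * ∑ g : End F V with IsUnit g, J (Sg θ) g ⊤ * conj (J (Sg θ') g ⊤) =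
      #{g : End F V | IsUnit g} * ∑ x : K with x ^ Nat.card F ^ finrank F V = x,
        θ x * conj (∑ j ∈ range (finrank F V), θ' (x ^ Nat.card F ^ j)) := by
  set P := (univ.filter fun g : End F V => IsUnit g).image LinearMap.charpoly with hP
  have h1 : ∀ d, d ∈ P ↔ d.Monic ∧ d.natDegree = finrank F V ∧ d.coeff 0 ≠ 0 := fun d => by
    simp only [hP, mem_image, mem_filter, mem_univ, true_and, isUnit_iff_coeff]
    refine ⟨fun ⟨g, h1, h2⟩ => h2 ▸ ⟨g.charpoly_monic, g.charpoly_natDegree, h1⟩, fun h => ?_⟩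
    obtain ⟨g, -, rfl, -⟩ := exists_cyc h.1 h.2.1
    exact ⟨g, h.2.2, rfl⟩
  rw [sum_J_J (ad_Sg θ) (ad_Sg θ'), ← sum_fiberwise_of_maps_to (t := P) (g := LinearMap.charpoly)
    fun g hg => mem_image_of_mem _ hg, mul_sum,
    sum_congr rfl (g := fun d => (#{g : End F V | IsUnit g} : ℂ) * (jj θ d * conj (Sg θ' d)))
      fun d hd => ?_, ← mul_sum]
  · congr 1
    simp only [jj, sum_mul]
    rw [sum_comm' (t' := univ) (s' := fun x : K => P.filter fun d => ∃ m, d = minpoly F x ^ (m + 1))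
      (by simp), sum_filter]
    refine sum_congr rfl fun x _ => ?_
    by_cases h0 : x = 0
    · simp [h0]
    have hi := H27.Sp.integ (F := F) x
    have hm := minpoly.monic hi
    rw [← H27.Sp.fr_iter, ← H27.Sp.deg_dvd_iff]
    split_ifs with h2
    · obtain ⟨k, hk⟩ := h2
      obtain ⟨m, rfl⟩ := Nat.exists_eq_succ_of_ne_zero (n := k) (by
        rintro rfl; exact finrank_pos.ne' hk)
      rw [sum_eq_single_of_mem (minpoly F x ^ (m + 1)) (mem_filter.2 ⟨(h1 _).2 ⟨hm.pow _,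
        by rw [hm.natDegree_pow, hk, mul_comm], ?_⟩, m, rfl⟩) fun d hd hne => (hne ?_).elim,
        Sg_pow, hk]
      · rw [coeff_zero_eq_eval_zero, eval_pow, ← coeff_zero_eq_eval_zero]
        exact pow_ne_zero _ (minpoly.coeff_zero_ne_zero hi h0)
      · obtain ⟨h3, l, rfl⟩ := mem_filter.1 hd
        have := ((h1 _).1 h3).2.1
        rw [hm.natDegree_pow, hk, mul_comm,
          mul_right_inj' (minpoly.natDegree_pos hi).ne'] at this
        rw [this]
    · refine sum_eq_zero fun d hd => (h2 ?_).elim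
      obtain ⟨h3, l, rfl⟩ := mem_filter.1 hd
      rw [← ((h1 _).1 h3).2.1, hm.natDegree_pow]
      exact dvd_mul_left _ _
  · obtain ⟨d1, d2, d3⟩ := (h1 d).1 hd
    rw [← mul_assoc, ← sum_charpoly θ d1 d2, mul_assoc, sum_mul, filter_filter]
    congr 1
    refine sum_congr (filter_congr fun g _ => and_iff_right_of_imp fun h => ?_) fun g hg => ?_
    · rwa [isUnit_iff_coeff, h]
    · rw [(mem_filter.1 hg).2]

omit [Finite F] in
theorem sum_chars {θ : K →*₀ ℂ} (hθ : Function.Injective θ) {N : ℕ} (hN : N ∣ Fintype.card K - 1)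
    {a b : ℕ} (ha : a ≠ 0) : ∑ x : K with x ^ (N + 1) = x, θ x ^ a * conj (θ x ^ b) =
      if a ≡ b [MOD N] then (N : ℂ) else 0 := by
  have h0 : 0 < N := Nat.pos_of_dvd_of_pos hN (Nat.sub_pos_of_lt Fintype.one_lt_card)
  have hω := Complex.isPrimitiveRoot_exp N h0.ne'
  set ω := Complex.exp (2 * Real.pi * Complex.I / N)
  obtain ⟨k, hk⟩ := hN
  obtain ⟨ζ, hζ⟩ := exists_pre hθ (z := ω) (by rw [hk, pow_mul, hω.pow_eq_one, one_pow])
  have hz : IsPrimitiveRoot ζ N := IsPrimitiveRoot.of_map_of_injective (f := θ) (hζ ▸ hω) hθ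
  have h1 : conj ω = ω⁻¹ := (Complex.inv_eq_conj (hω.norm'_eq_one h0.ne')).symm
  have hω0 : ω ≠ 0 := hω.ne_zero h0.ne'
  have e : ∑ x : K with x ^ (N + 1) = x, θ x ^ a * conj (θ x ^ b) =
      ∑ i ∈ range N, (ω ^ a * (ω ^ b)⁻¹) ^ i := by
    rw [← sum_filter_add_sum_filter_not _ (· = 0), sum_eq_zero fun x hx => by
      simp [(mem_filter.1 hx).2, ha], zero_add]
    refine (sum_bij (fun i _ => ζ ^ i) (fun i _ => ?_) (fun i hi j hj e =>
      hz.pow_inj (mem_range.1 hi) (mem_range.1 hj) e) (fun x hx => ?_) fun i _ => ?_).symm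
    · simp only [mem_filter, mem_univ, true_and]
      exact ⟨by rw [pow_succ, ← pow_mul, mul_comm i, pow_mul, hz.pow_eq_one, one_pow, one_mul],
        pow_ne_zero _ (hz.ne_zero h0.ne')⟩
    · simp only [mem_filter, mem_univ, true_and] at hx
      have : NeZero N := ⟨h0.ne'⟩
      obtain ⟨i, hi, e⟩ := hz.eq_pow_of_pow_eq_one (ξ := x)
        (mul_right_cancel₀ hx.2 (by rw [← pow_succ, hx.1, one_mul]))
      exact ⟨i, mem_range.2 hi, e⟩
    · simp only [map_pow, hζ, h1, mul_pow, inv_pow, ← pow_mul, mul_comm]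
  have h2 : ω ^ a * (ω ^ b)⁻¹ = 1 ↔ a ≡ b [MOD N] := by
    rw [mul_inv_eq_one₀ (pow_ne_zero _ hω0), hω.eq_orderOf,
      (isOfFinOrder_iff_pow_eq_one.2 ⟨N, h0, hω.pow_eq_one⟩).pow_eq_pow_iff_modEq]
  rw [e]
  split_ifs with h
  · simp [h2.2 h]
  · rw [geom_sum_eq (mt h2.1 h), mul_pow, inv_pow, ← pow_mul, ← pow_mul, mul_comm a, mul_comm b,
      pow_mul, pow_mul, hω.pow_eq_one]
    simp

/-- powers of `θ` -/
noncomputable def pw (θ : K →*₀ ℂ) (k : ℕ) : K →*₀ ℂ :=
  (powMonoidWithZeroHom k.succ_ne_zero).comp θ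

omit [Fintype K] in
theorem pw_apply (θ : K →*₀ ℂ) (k : ℕ) (x : K) : pw θ k x = θ x ^ (k + 1) := rfl

theorem pw_inj {θ : K →*₀ ℂ} (hθ : Function.Injective θ) {k : ℕ}
    (hk : (k + 1).Coprime (Fintype.card K - 1)) : Function.Injective (pw θ k) := fun x y e => by
  rw [pw_apply, pw_apply, ← map_pow, ← map_pow, hθ.eq_iff] at e
  by_cases hy : y = 0
  · simpa [hy] using e
  have hx : x ≠ 0 := fun h => pow_ne_zero (k + 1) hy (by simpa [h] using e.symm)
  have h1 : (x / y) ^ (k + 1) = 1 := by rw [div_pow, e, div_self (pow_ne_zero _ hy)]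
  have h2 := FiniteField.pow_card_sub_one_eq_one _ (div_ne_zero hx hy)
  have h3 := pow_gcd_eq_one.2 ⟨h1, h2⟩
  rwa [hk, pow_one, div_eq_one_iff_eq hy] at h3

theorem inner_pw {θ : K →*₀ ℂ} (hθ : Function.Injective θ) [Nontrivial V]
    (hN : Nat.card F ^ finrank F V - 1 ∣ Fintype.card K - 1) (k l : ℕ) :
    ∑ g : End F V with IsUnit g, J (Sg (pw θ k)) g ⊤ * conj (J (Sg (pw θ l)) g ⊤) =
      #{g : End F V | IsUnit g} * #{j ∈ range (finrank F V) |
        k + 1 ≡ Nat.card F ^ j * (l + 1) [MOD Nat.card F ^ finrank F V - 1]} := by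
  have h1 : 1 < Nat.card F ^ finrank F V := Nat.one_lt_pow finrank_pos.ne' Finite.one_lt_card
  have h2 : (Nat.card V - 1 : ℂ) = ((Nat.card F ^ finrank F V - 1 : ℕ) : ℂ) := by
    rw [Nat.cast_pred (by omega), ← Module.natCard_eq_pow_finrank]
  have h3 : (Nat.card V - 1 : ℂ) ≠ 0 := by rw [h2, Nat.cast_ne_zero]; omega
  refine mul_left_cancel₀ h3 ?_
  rw [inner_J, mul_left_comm, h2]
  congr 1
  simp only [map_sum, mul_sum, pw_apply, map_pow θ, ← pow_mul]
  rw [sum_comm, card_filter, Nat.cast_sum, mul_sum]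
  refine sum_congr rfl fun j _ => ?_
  have := sum_chars hθ hN (b := Nat.card F ^ j * (l + 1)) k.succ_ne_zero
  rw [Nat.sub_add_cancel h1.le] at this
  rw [this]
  split_ifs <;> simp

theorem exists_theta (K : Type*) [Field K] [Fintype K] :
    ∃ θ : K →*₀ ℂ, Function.Injective θ := by
  obtain ⟨g, hg⟩ := IsCyclic.exists_generator (α := Kˣ)
  have h0 : orderOf g ≠ 0 := (orderOf_pos g).ne'
  have hω := Complex.isPrimitiveRoot_exp _ h0
  let u := (hω.isUnit h0).unit
  have hu : orderOf u = orderOf g := by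
    rw [← orderOf_units, IsUnit.unit_spec, ← hω.eq_orderOf]
  let f := monoidHomOfForallMemZpowers hg hu.dvd
  have hf : Function.Injective f := (injective_iff_map_eq_one f).2 fun x hx => by
    obtain ⟨i, rfl⟩ := hg x
    rw [map_zpow, monoidHomOfForallMemZpowers_apply_gen, ← orderOf_dvd_iff_zpow_eq_one, hu] at hx
    exact orderOf_dvd_iff_zpow_eq_one.1 hx
  refine ⟨(MulChar.ofUnitHom f).toMonoidWithZeroHom, fun x y e => ?_⟩
  change MulChar.ofUnitHom f x = MulChar.ofUnitHom f y at e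
  by_cases hx : x = 0 <;> by_cases hy : y = 0
  · rw [hx, hy]
  · lift y to Kˣ using Ne.isUnit hy
    rw [hx, MulChar.map_zero, MulChar.ofUnitHom_coe] at e
    exact ((f y).ne_zero e.symm).elim
  · lift x to Kˣ using Ne.isUnit hx
    rw [hy, MulChar.map_zero, MulChar.ofUnitHom_coe] at e
    exact ((f x).ne_zero e).elim
  · lift x to Kˣ using Ne.isUnit hx
    lift y to Kˣ using Ne.isUnit hy
    rw [MulChar.ofUnitHom_coe, MulChar.ofUnitHom_coe, Units.val_inj] at e
    rw [hf e]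

end H6.GC
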