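import Cfsg.Agent.H17.FV0

/-! S5720, chunk `CR`: the cross-characteristic inequality. -/

set_option autoImplicit false
set_option linter.unusedSectionVars false

open Module H17.FV LinearMap

namespace H6.FV

universe v w

theorem fmap {K M : Type*} [Field K] [AddCommGroup M] [Module K M] [FiniteDimensional K M]
    (f : End K M) (V : Submodule K M) :
    finrank K (V.map f) + finrank K ↥(ker f ⊓ V) = finrank K V := by
  have := finrank_range_add_finrank_ker (f.domRestrict V)
  rw [range_domRestrict, ker_domRestrict] at this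
  rw [← this, ← Submodule.finrank_map_subtype_eq V (Submodule.comap _ _),
    Submodule.map_comap_subtype, inf_comm]

variable {K A M : Type*} [Field K] [Ring A] [Algebra K A] [AddCommGroup M] [Module K M] [Module A M]
  [IsScalarTower K A M] {p : ℕ} [Fact p.Prime] (D : Dat K A p)

theorem U_nat (n : ℕ) : D.U n = D.U 1 ^ n := by
  induction n with
  | zero => simp [D.U0]
  | succ n ih => rw [Nat.cast_succ, D.Uadd, ih, pow_succ]

theorem U_sub (c : ZMod p) (m : M) : D.U c • m - m ∈ range (act K M (D.U 1 - 1)) := by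
  rw [← ZMod.natCast_zmod_val c, U_nat]
  refine ⟨(∑ i ∈ Finset.range c.val, D.U 1 ^ i) • m, ?_⟩
  change (D.U 1 - 1) • (_ : A) • m = _
  rw [← mul_smul, mul_geom_sum, sub_smul, one_smul]

theorem U_sub' (b c : ZMod p) (m : M) : D.U b • m - D.U c • m ∈ range (act K M (D.U 1 - 1)) := by
  have := sub_mem (U_sub (K := K) D b m) (U_sub (K := K) D c m)
  rwa [sub_sub_sub_cancel_right] at this

theorem split (hp : (p : K) ≠ 0) (m : M) : ∃ v : M, D.U 1 • v = v ∧
    m - v ∈ range (act K M (D.U 1 - 1)) := by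
  refine ⟨(p : K)⁻¹ • ∑ c : ZMod p, D.U c • m, ?_, ?_⟩
  · rw [smul_comm, Finset.smul_sum]
    congr 1
    simp only [← mul_smul, ← D.Uadd]
    exact Fintype.sum_equiv (Equiv.addLeft 1) _ _ fun _ => rfl
  · have e : m = (p : K)⁻¹ • ∑ _c : ZMod p, m := by
      rw [Finset.sum_const, Finset.card_univ, ZMod.card, ← Nat.cast_smul_eq_nsmul K, smul_smul,
        inv_mul_cancel₀ hp, one_smul]
    rw [e, ← smul_sub, ← e, ← Finset.sum_sub_distrib]
    refine Submodule.smul_mem _ _ (Submodule.sum_mem _ fun c _ => ?_)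
    rw [← neg_sub (D.U c • m)]; exact neg_mem (U_sub D c m)

theorem cr (vd : VD.{v, w}) : CR.{v, w} := by
  intro K A M _ _ _ _ _ _ _ _ p _ D ν hp hν h0 hz
  have : SMulCommClass K A M := IsScalarTower.to_smulCommClass
  have v5 := vd K A M p D ν hp hν h0 hz
  set V := range (act K M (D.U 1 - 1)) with hV
  set I1 := range (act K M (D.N 1))
  set In := range (act K M (D.N ν))
  have r : ∀ l (m : M), D.R l • m ∈ range (act K M (D.N l)) := fun l m =>
    ⟨D.H l⁻¹ • m, (mul_smul _ _ _).symm⟩
  set S := (In ⊔ In.map (act K M (D.U 1))) ⊔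
    (I1 ⊔ I1.map (act K M (D.U ((ν⁻¹ : (ZMod p)ˣ) : ZMod p))))
  have dS : finrank K S ≤ 2 * (finrank K I1 + finrank K In) := by
    have a : finrank K S ≤ _ :=
      Submodule.finrank_add_le_finrank_add_finrank (In ⊔ In.map (act K M (D.U 1)))
      (I1 ⊔ I1.map (act K M (D.U ((ν⁻¹ : (ZMod p)ˣ) : ZMod p))))
    have b := Submodule.finrank_add_le_finrank_add_finrank In (In.map (act K M (D.U 1)))
    have c := Submodule.finrank_add_le_finrank_add_finrank I1
      (I1.map (act K M (D.U ((ν⁻¹ : (ZMod p)ˣ) : ZMod p))))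
    have d := Submodule.finrank_map_le (act K M (D.U 1)) In
    have e := Submodule.finrank_map_le (act K M (D.U ((ν⁻¹ : (ZMod p)ˣ) : ZMod p))) I1
    omega
  have y1 : ∀ m : M, D.Y ν • m ∈ S := fun m => by
    rw [D.Y_eq]
    simp only [sub_smul, add_smul, mul_smul, hz]
    exact sub_mem (sub_mem (add_mem (Submodule.mem_sup_left (Submodule.mem_sup_left (r _ _)))
      (neg_mem (Submodule.mem_sup_left (Submodule.mem_sup_right ⟨_, r _ _, rfl⟩))))
      (Submodule.mem_sup_right (Submodule.mem_sup_left (r _ _))))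
      (neg_mem (Submodule.mem_sup_right (Submodule.mem_sup_right ⟨_, r _ _, rfl⟩)))
  have hH : ∀ l, ∀ m ∈ V, D.H l • m ∈ V := by
    rintro l _ ⟨x, rfl⟩
    change D.H l • (D.U 1 - 1) • x ∈ V
    rw [sub_smul, one_smul, smul_sub, ← mul_smul, D.HU, mul_smul]
    exact U_sub D _ _
  have y2 : ∀ m : M, D.Y ν • m ∈ V := fun m => by
    rw [Dat.Y, sub_smul, mul_smul]
    simp only [add_smul, mul_smul, hz, ← sub_eq_add_neg]
    exact sub_mem (hH _ _ (U_sub' D _ _ _)) (U_sub' D _ _ _)
  have top : S ⊔ V = ⊤ := eq_top_iff.2 fun m _ => by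
    obtain ⟨x, a, b⟩ := split D h0 m
    have c : D.U (-1) • x = x := by rw [← a, ← mul_smul, D.Ucomm, D.UU, one_smul, a]
    have d : D.R 1 • x = x - (D.U 1 • D.w • x - D.w • x) := by
      rw [D.R_eq]
      simp only [add_smul, mul_smul, hz, inv_one, Units.val_one, D.H1, one_smul, c]
      abel
    have e : m = D.R 1 • x + ((D.U 1 • D.w • x - D.w • x) + (m - x)) := by rw [d]; abel
    rw [e]
    exact Submodule.add_mem_sup (Submodule.mem_sup_right (Submodule.mem_sup_left (r _ _)))
      (add_mem (U_sub D _ _) b)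
  have f1 := Submodule.finrank_sup_add_finrank_inf_eq S V
  rw [top, finrank_top] at f1
  have f2 := fmap (act K M (D.Y ν)) V
  have f3 : finrank K (V.map (act K M (D.Y ν))) ≤ finrank K ↥(S ⊓ V) :=
    Submodule.finrank_mono (by rintro _ ⟨x, -, rfl⟩; exact ⟨y1 x, y2 x⟩)
  have f4 := Submodule.finrank_le V
  change _ ≤ finrank K V at v5
  change _ ≤ 5 * (finrank K I1 + finrank K In)
  omega

end H6.FV
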