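import Cfsg.Agent.H6.BS15
import Cfsg.Agent.H2.Action
import Cfsg.Agent.H4.Basic
import Cfsg.Agent.H1.Frattini

/-! Base sizes of solvable linear groups XVI: coprime solvable operator groups (Dolfi). -/

set_option autoImplicit false
set_option linter.unusedSectionVars false

open Cfsg Subgroup Pointwise

namespace H6.BS
open H2

universe u v

open Classical in
theorem marks_aux {X L : Type*} [Finite X] [Fintype L] [PartialOrder L] (s : X → L) (B : L) :
    Nat.card {x // B ≤ s x} =
      Nat.card {x // s x = B} + ∑ C ∈ Finset.univ.filter (B < ·), Nat.card {x // s x = C} := by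
  have _ := Fintype.ofFinite X
  simp only [Nat.card_eq_fintype_card, Fintype.card_subtype]
  rw [Finset.card_eq_sum_card_fiberwise (f := s) (s := Finset.univ.filter fun x => B ≤ s x)
    (t := insert B (Finset.univ.filter (B < ·))) fun x hx => by
      simpa [le_iff_eq_or_lt, eq_comm] using hx, Finset.sum_insert (by simp)]
  congr 1
  · congr 1; ext x; simp +contextual [eq_comm]
  · refine Finset.sum_congr rfl fun C hC => ?_
    congr 1; ext x
    simp only [Finset.mem_filter, Finset.mem_univ, true_and, and_iff_right_iff_imp] at hC ⊢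
    exact fun e => e ▸ hC.le

theorem marks {X Y L : Type*} [Finite X] [Finite Y] [Finite L] [PartialOrder L] (s : X → L)
    (t : Y → L) (h : ∀ B, Nat.card {x // B ≤ s x} = Nat.card {y // B ≤ t y}) (B : L) :
    Nat.card {x // s x = B} = Nat.card {y // t y = B} := by
  classical
  have _ := Fintype.ofFinite L
  induction B using WellFoundedGT.induction with
  | ind B ih =>
    have h1 := h B
    rw [marks_aux s, marks_aux t,
      Finset.sum_congr rfl fun C hC => ih C (Finset.mem_filter.1 hC).2] at h1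
    exact Nat.add_right_cancel h1

variable {A : Type v} {K : Type u} [Group A] [Finite A] [Group.IsSolvable A] [Group K] [Finite K]

theorem two_pgroup (φ : A →* MulAut K) {p : ℕ} [hp : Fact p.Prime] (hK : IsPGroup p K)
    (hc : (Nat.card A).Coprime p) : ∃ x y : K, ∀ a, φ a x = x → φ a y = y → ∀ k, φ a k = k := by
  have hK' := hK.isNilpotent
  let _ : CommGroup (K ⧸ frattini K) := { (inferInstance : Group (K ⧸ frattini K)) with
    mul_comm := (Normal.quotient_commutative_iff_commutator_le.2
      (H1.commutator_le_frattini_of_isNilpotent hK')).is_comm.comm }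
  let ψ := quotAut φ (frattini K) (aInv_of_characteristic _)
  let _ : DistribMulAction A (Additive (K ⧸ frattini K)) :=
    { smul := fun a x => Additive.ofMul (ψ a x.toMul)
      one_smul := fun x => DFunLike.congr_fun ψ.map_one x.toMul
      mul_smul := fun a b x => DFunLike.congr_fun (ψ.map_mul a b) x.toMul
      smul_zero := fun a => (ψ a).map_one
      smul_add := fun a x y => (ψ a).map_mul _ _ }
  have h1 : ∀ v : Additive (K ⧸ frattini K), p • v = 0 := fun v => by
    obtain ⟨x, hx⟩ := QuotientGroup.mk_surjective v.toMul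
    change v.toMul ^ p = 1
    rw [← hx, ← QuotientGroup.mk_pow, QuotientGroup.eq_one_iff]
    exact H4.pow_mem_frattini hK x
  obtain ⟨j, hj⟩ := card_elem hp.out h1
  have h2 := hc.coprime_dvd_left (card_img.dvd.trans (ord_dvd (G := A)
    (V := Additive (K ⧸ frattini K))))
  have := img_solvable (G := A) (V := Additive (K ⧸ frattini K))
  obtain ⟨x, y, h⟩ := base_two (G := Img A (Additive (K ⧸ frattini K)))
    (cr_of_coprime (compl_of_prime hp.out h1) (hj ▸ h2.pow_right j)) (by
      by_cases p2 : p = 2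
      · exact Or.inr (Or.inl (Nat.coprime_two_right.1 (p2 ▸ h2)))
      have h3 := ((Nat.coprime_primes hp.out Nat.prime_two).2 p2).pow_left j
      by_cases p3 : p = 3
      · exact Or.inr (Or.inr ⟨p3 ▸ h2, hj ▸ Nat.coprime_two_right.1 h3⟩)
      · exact Or.inl (hj ▸ Nat.Coprime.mul_right (m := 2) (n := 3) h3
          (((Nat.coprime_primes hp.out Nat.prime_three).2 p3).pow_left j)))
  obtain ⟨x, rfl⟩ := QuotientGroup.mk_surjective (s := frattini K) x
  obtain ⟨y, rfl⟩ := QuotientGroup.mk_surjective (s := frattini K) y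
  refine ⟨x, y, fun a h3 h4 => autFixed_eq_top_of_frattini (φ := φ.comp (zpowers a).subtype)
    (coprime_card_of_isPGroup (hK.to_subgroup _)
      (hc.coprime_dvd_left (card_subgroup_dvd_card _))) ?_ ⟨a, mem_zpowers a⟩⟩
  rintro ⟨_, n, rfl⟩ k
  have h5 : a ∈ ker A (Additive (K ⧸ frattini K)) := mem_ker.2 (h (toImg _ _ a)
    (congrArg QuotientGroup.mk h3) (congrArg QuotientGroup.mk h4))
  exact QuotientGroup.eq.1 (mem_ker.1 (zpow_mem h5 n) (Additive.ofMul (k : K ⧸ frattini K))).symm

theorem card_inf_fixed (φ : A →* MulAut K) (hc : (Nat.card A).Coprime (Nat.card K)) {p : ℕ}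
    [hp : Fact p.Prime] (P : Sylow p K) (hP : AInv φ P) :
    Nat.card ↥((P : Subgroup K) ⊓ autFixed φ) = p ^ (Nat.card (autFixed φ)).factorization p := by
  obtain ⟨U, hU⟩ := Sylow.exists_subgroup_card_pow_prime p
    (Nat.ordProj_dvd (Nat.card (autFixed φ)) p)
  rw [← card_map_of_injective (autFixed φ).subtype_injective] at hU
  obtain ⟨c, hc', h1⟩ := aut_exists_fixed_conj_le_sylow aInv_top (by rwa [card_top])
    (Or.inl inferInstance) le_top (IsPGroup.of_card hU) (aInv_of_le_autFixed (map_subtype_le U))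
    le_top P.isPGroup' (by rw [relIndex_top_right]; exact P.not_dvd_index) hP
  obtain ⟨j, hj⟩ := IsPGroup.iff_card.1 (P.isPGroup'.to_inf_left (K := autFixed φ))
  refine Nat.dvd_antisymm ?_ ?_
  · rw [hj]
    exact pow_dvd_pow _ ((hp.out.pow_dvd_iff_le_factorization Nat.card_pos.ne').1
      (hj ▸ card_dvd_of_le inf_le_right))
  · rw [← hU, ← card_map_of_injective (K := _ ⊓ _) (f := (MulAut.conj c).toMonoidHom)
      (MulAut.conj c).injective]
    refine card_dvd_of_le fun x hx => ⟨c⁻¹ * x * c, mem_inf.2 ⟨?_, mul_mem (mul_mem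
      (inv_mem (mem_inf.1 hc').2) (map_subtype_le U hx)) (mem_inf.1 hc').2⟩, by simp [mul_assoc]⟩
    have := mem_pointwise_smul_iff_inv_smul_mem.1 (h1 hx)
    rwa [MulAut.smul_def, MulAut.conj_inv_apply] at this

/-- Dolfi: a solvable coprime operator group has a base of size two -/
theorem two_points (φ : A →* MulAut K) (hc : (Nat.card A).Coprime (Nat.card K)) :
    ∃ x y : K, ∀ a, φ a x = x → φ a y = y → ∀ k, φ a k = k := by
  classical
  let I := (Nat.card K).primeFactors
  have hI : ∀ r : I, Fact (r : ℕ).Prime := fun r => ⟨Nat.prime_of_mem_primeFactors r.2⟩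
  choose P hP using fun r : I => aut_exists_inv_Sylow (φ := φ) hc (Or.inl inferInstance) r
  choose x y hxy using fun r : I => two_pgroup (restrictAut φ (P r) (hP r)) (P r).isPGroup'
    (hc.coprime_dvd_right (Nat.dvd_of_mem_primeFactors r.2))
  let st : K → Subgroup A := fun k => (MulAction.stabilizer (MulAut K) k).comap φ
  have h1 : ∀ B : Subgroup A, Nat.card {k // B ≤ st k} =
      Nat.card {z : ∀ r : I, P r // B ≤ ⨅ r, st (z r)} := fun B => by
    have h1 : ∀ k, B ≤ st k ↔ k ∈ autFixed (φ.comp B.subtype) := fun k =>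
      ⟨fun h a => h a.2, fun h a ha => h ⟨a, ha⟩⟩
    simp only [le_iInf_iff, h1]
    rw [Nat.card_congr (Equiv.subtypePiEquivPi (p := fun (r : I) (z : P r) =>
      (z : K) ∈ autFixed (φ.comp B.subtype))), Nat.card_pi, Finset.prod_congr rfl fun r _ =>
      (show Nat.card {z : P r // (z : K) ∈ autFixed (φ.comp B.subtype)} = _ from
        (Nat.card_congr (Equiv.subtypeSubtypeEquivSubtypeInter _ _)).trans (card_inf_fixed _
        (hc.coprime_dvd_left B.card_subgroup_dvd_card) (P r) fun a => hP r a)),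
      Finset.prod_coe_sort I fun r => r ^ (Nat.card (autFixed (φ.comp B.subtype))).factorization r,
      ← Finsupp.prod_of_support_subset _ (Nat.primeFactors_mono (card_subgroup_dvd_card _)
        Nat.card_pos.ne') (fun r n => r ^ n) fun _ _ => pow_zero _,
      Nat.prod_factorization_pow_eq_self Nat.card_pos.ne']
  have h2 : ∀ z : ∀ r : I, P r, ∃ k, st k = ⨅ r, st (z r) := fun z => by
    have := marks st (fun z : ∀ r : I, P r => ⨅ r, st (z r)) h1 (⨅ r, st (z r))
    have h2 : Nonempty {w : ∀ r : I, P r // ⨅ r, st (w r) = ⨅ r, st (z r)} := ⟨⟨z, rfl⟩⟩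
    obtain ⟨k, hk⟩ := (Nat.card_pos_iff.1 (Nat.card_pos.trans_eq this.symm)).1
    exact ⟨k, hk⟩
  obtain ⟨k1, e1⟩ := h2 x
  obtain ⟨k2, e2⟩ := h2 y
  refine ⟨k1, k2, fun a h3 h4 k => ?_⟩
  have h5 := mem_iInf.1 (show a ∈ ⨅ r, st (x r) from e1 ▸ h3)
  have h6 := mem_iInf.1 (show a ∈ ⨅ r, st (y r) from e2 ▸ h4)
  refine le_of_forall_prime_relIndex (K := ⊤) (J := (φ a).toMonoidHom.eqLocus (MonoidHom.id K))
    (fun p hp => ?_) trivial
  by_cases h7 : p ∣ Nat.card K
  · let r : I := ⟨p, Nat.mem_primeFactors.2 ⟨hp, h7, Nat.card_pos.ne'⟩⟩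
    exact ⟨P r, fun z hz => congrArg Subtype.val (hxy r a (Subtype.ext (h5 r)) (Subtype.ext (h6 r))
      ⟨z, hz⟩), by rw [relIndex_top_right]; exact (P r).not_dvd_index⟩
  · exact ⟨⊥, bot_le, by rwa [relIndex_top_right, index_bot]⟩

end H6.BS
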