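import Cfsg.Agent.H13.Kb2
import Cfsg.Agent.S4550
import Cfsg.Agent.H4.Basic

/-! Galois-fixed characters of odd degree in the principal 2-block. -/

set_option autoImplicit false
set_option linter.unusedSectionVars false

namespace H6.GA

open _root_.Cfsg Finset H5 H7 H8
open scoped ComplexConjugate Classical

theorem sum_fix {α R : Type*} [CommRing R] [CharP R 2] (f : α → R) (n : ℕ) :
    ∀ (S : Finset α) (σ : α → α), (∀ x ∈ S, σ x ∈ S) → (∀ x ∈ S, σ^[2 ^ n] x = x) →
      (∀ x, f (σ x) = f x) → ∑ x ∈ S, f x = ∑ x ∈ S with σ x = x, f x := by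
  induction n with
  | zero => exact fun S σ _ h _ => by rw [filter_true_of_mem fun x hx => by simpa using h x hx]
  | succ n ih =>
    intro S σ h1 h2 h3
    rw [ih S (σ^[2]) (fun x hx => h1 _ (h1 _ hx)) (fun x hx => by
        rw [← Function.iterate_mul, ← pow_succ']; exact h2 x hx) (fun x => (h3 _).trans (h3 _)),
      ← sum_filter_add_sum_filter_not _ (fun x => σ x = x),
      sum_involution (s := (S.filter fun x => σ^[2] x = x).filter fun x => ¬ σ x = x)
        (fun x _ => σ x), add_zero, filter_filter]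
    · refine sum_congr (filter_congr fun x _ => ⟨fun h => h.2, fun h => ⟨?_, h⟩⟩) fun _ _ => rfl
      simp [h]
    · intro x _
      rw [h3, CharTwo.add_self_eq_zero]
    · exact fun x h _ => (mem_filter.1 h).2
    · intro x h
      obtain ⟨h4, h5⟩ := mem_filter.1 h
      obtain ⟨h4, h6⟩ := mem_filter.1 h4
      have h7 : σ (σ x) = x := h6
      exact mem_filter.2 ⟨mem_filter.2 ⟨h1 _ h4, congrArg σ h7⟩, fun e => h5 (e.symm.trans h7)⟩
    · intro x h
      simpa using (mem_filter.1 (mem_filter.1 h).1).2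

variable {G : Type*} [Group G] [Finite G] {M : Ideal AlgInt}

/-- an integer valued irreducible character without zeros is linear -/
theorem lin_of {ψ : IrrCharacter G} (h : ∀ g, ∃ n : ℤ, n ≠ 0 ∧ ψ.1 g = n) : charDegree ψ.1 = 1 := by
  have := Fintype.ofFinite G
  choose n h0 hn using h
  have e := ψ.2.classInner_self
  rw [classInner, inv_mul_eq_one₀ (by exact_mod_cast Nat.card_pos.ne')] at e
  simp only [hn, map_intCast] at e
  have e' : ∑ g, (n g * n g - 1) = 0 := by
    rw [sum_sub_distrib, sub_eq_zero, sum_const, card_univ, ← Nat.card_eq_fintype_card]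
    have : ((∑ g, n g * n g : ℤ) : ℂ) = (Nat.card G : ℤ) := by push_cast; exact e.symm
    simpa using (Int.cast_injective this)
  have h1 := (sum_eq_zero_iff_of_nonneg fun g _ => sub_nonneg.2 (mul_self_pos.2 (h0 g))).1 e' 1 (mem_univ _)
  have h2 : (charDegree ψ.1 : ℤ) = n 1 := by exact_mod_cast (H7.irr_apply_one ψ).symm.trans (hn 1)
  rw [← h2, sub_eq_zero] at h1
  exact Nat.eq_one_of_mul_eq_one_right (by exact_mod_cast h1)

variable (M) in
/-- the fixed characters -/
def Fx (k : ℕ) (χ : IrrCharacter G) : Prop :=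
  χ ∈ principalBlock M G ∧ Odd (charDegree χ.1) ∧ ∀ g : G, χ.1 (g ^ k) = χ.1 g

theorem fx_one (hM : IsPModular 2 M) (k : ℕ) : Fx M k (irrOne G) :=
  ⟨irrOne_mem_principalBlock hM, by simp [charDegree, irrOne], fun _ => rfl⟩

theorem fx_pow {k l : ℕ} (hl : l.Coprime (Nat.card G)) {χ : IrrCharacter G} (h : Fx M k χ) :
    Fx M k (irrPow hl χ) :=
  ⟨(irrPow_mem_principal_iff hl).2 h.1, by rw [charDegree_irrPow]; exact h.2.1, fun g => by
    rw [irrPow_apply, irrPow_apply, ← pow_mul, mul_comm, pow_mul, h.2.2]⟩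

theorem fx_sum (hM : IsPModular 2 M) (h2 : 2 ∣ Nat.card G) {k : ℕ}
    (hk : k.Coprime (Nat.card G)) {n : ℕ} (hn : ∀ g : G, g ^ k ^ 2 ^ n = g) {x : G}
    (hx : ¬ 2 ∣ orderOf x) (hx' : x ^ k = x) : ∑ χ with Fx M k χ, red M (χ.1 x) = 0 := by
  have := Fintype.ofFinite G
  have := charP_kk hM
  have : Fact (Nat.Prime 2) := ⟨Nat.prime_two⟩
  obtain ⟨t, ht⟩ := exists_prime_orderOf_dvd_card' 2 h2
  have e := congrArg (red M) (weak_block_orth hM isPBlock_principalBlock (y := t) hx ht.symm.dvd)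
  rw [red_sum _ _ fun χ _ => by
      rw [← irr_apply_inv]; exact mul_mem (irr_apply_mem_V _ _) (irr_apply_mem_V _ _), red_zero,
    sum_congr rfl (g := fun χ => if Odd (charDegree χ.1) then red M (χ.1 x) else 0) fun χ _ => by
      rw [← irr_apply_inv, red_mul (irr_apply_mem_V _ _) (irr_apply_mem_V _ _),
        red_char_of_isPElt hM χ.2.isCharacter (x := t⁻¹) ⟨1, by simpa⟩, H7.irr_apply_one, red_natCast]
      split_ifs with o
      · obtain ⟨c, hc⟩ := o
        rw [hc]; push_cast; rw [CharTwo.two_eq_zero]; simp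
      · rw [(CharP.cast_eq_zero_iff _ 2 _).2 (Nat.not_odd_iff_even.1 o).two_dvd, mul_zero]] at e
  rw [sum_fix _ n _ (irrPow hk), ← sum_filter, filter_filter, filter_filter] at e
  · rw [← e]
    refine sum_congr (ext fun χ => ?_) fun _ _ => rfl
    simp only [mem_filter, mem_univ, true_and]
    exact ⟨fun h => ⟨h.1, Subtype.ext (funext h.2.2), h.2.1⟩,
      fun h => ⟨h.1, h.2.2, fun g => congrArg (·.1 g) h.2.1⟩⟩
  · exact fun χ h => mem_filter.2 ⟨mem_univ _, (irrPow_mem_principal_iff hk).2 (mem_filter.1 h).2⟩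
  · intro θ _
    have : ∀ m (x : G), ((irrPow hk)^[m] θ).1 x = θ.1 (x ^ k ^ m) := fun m => by
      induction m with
      | zero => simp
      | succ m ih => intro x; rw [Function.iterate_succ_apply', irrPow_apply, ih, ← pow_mul, pow_succ']
    exact Subtype.ext (funext fun x => by rw [this, hn])
  · exact fun χ => by rw [charDegree_irrPow, irrPow_apply, hx']

theorem fx_lin (hM : IsPModular 2 M) (h2 : 2 ∣ Nat.card G) {k : ℕ}
    (hk : k.Coprime (Nat.card G)) {n : ℕ} (hn : ∀ g : G, g ^ k ^ 2 ^ n = g)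
    (hk₂ : ∀ g : G, Odd (orderOf g) → g ^ k = g) (hc : Nat.card {χ : IrrCharacter G // Fx M k χ} = 2)
    {ψ : IrrCharacter G} (hψ : Fx M k ψ) : charDegree ψ.1 = 1 := by
  have := Fintype.ofFinite G
  have := charP_kk hM
  have : Fact (Nat.Prime 2) := ⟨Nat.prime_two⟩
  by_cases h1 : ψ = irrOne G
  · simp [h1, charDegree, irrOne]
  obtain ⟨y, hy, hu⟩ := (Nat.card_eq_two_iff' ⟨irrOne G, fx_one hM k⟩).1 hc
  have u : ∀ χ, Fx M k χ → χ ≠ irrOne G → χ = ψ := fun χ h h' => congrArg Subtype.val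
    ((hu ⟨χ, h⟩ fun e => h' (congrArg Subtype.val e)).trans
      (hu ⟨ψ, hψ⟩ fun e => h1 (congrArg Subtype.val e)).symm)
  refine lin_of fun g => ?_
  obtain ⟨m, hm⟩ : ∃ m : ℤ, ψ.1 g = m := by
    refine exists_int_of_fixed (ψ.2.isCharacter.isIntegral_apply g) fun σ => ?_
    obtain ⟨l, hl, hσ⟩ := exists_pow_of_ringHom_char (G := G) σ.toRingHom
    refine (hσ _ ψ.2.isGeneralizedCharacter g).trans ?_
    exact congrArg (·.1 g) (u _ (fx_pow hl hψ) fun e => h1 (irrPow_injective hl e))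
  refine ⟨m, fun h0 => ?_, hm⟩
  obtain ⟨a, x, rfl, c, ha, hx⟩ := exists_isPPart (p := 2) g
  have e := fx_sum hM h2 hk hn hx (hk₂ x (Nat.odd_iff.2 (by omega)))
  rw [show (univ.filter fun χ => Fx M k χ) = {irrOne G, ψ} from ext fun χ => by
      simp only [mem_filter, mem_univ, true_and, mem_insert, mem_singleton]
      exact ⟨fun h => or_iff_not_imp_left.2 (u χ h), fun h => h.elim (· ▸ fx_one hM k) (· ▸ hψ)⟩,
    sum_pair (Ne.symm h1), ← red_char_mul_of_isPElt hM ψ.2.isCharacter ha c, hm, h0] at e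
  simp [irrOne] at e

/-- the sign character of a subgroup of index two -/
noncomputable def sg {Q : Type*} [Group Q] (H : Subgroup Q) (h : H.index = 2) : Q →* ℂˣ where
  toFun g := if g ∈ H then 1 else -1
  map_one' := if_pos H.one_mem
  map_mul' a b := by
    simp only [Subgroup.mul_mem_iff_of_index_two h]
    by_cases ha : a ∈ H <;> by_cases hb : b ∈ H <;> simp [ha, hb]

theorem fx_hom (hM : IsPModular 2 M) {k : ℕ} (hk : Odd k) (μ : G →* ℂˣ) (h : ∀ g, μ g = 1 ∨ μ g = -1) :
    Fx M k ⟨_, isIrrCharacter_unitsHom μ⟩ := by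
  refine ⟨fun g => ?_, by simp [charDegree], fun g => ?_⟩
  · have := hM.2.1
    rcases h g with e | e
    · simpa [centralChar, e] using memI_zero M
    · have := memI_mul_left (M := M) (natCast_mem _ (Subgroup.centralizer ({g} : Set G)).index) (memI_p hM)
      convert this using 1
      simp [centralChar, e]; ring
  · rcases h g with e | e <;> simp [map_pow, e, hk.neg_one_pow]

theorem cyc_of {Q : Type*} [Group Q] [Finite Q] (hQ : IsPGroup 2 Q)
    (h : ∀ H K : Subgroup Q, H.index = 2 → K.index = 2 → H = K) : IsCyclic Q := by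
  have : Fact (Nat.Prime 2) := ⟨Nat.prime_two⟩
  rcases eq_top_or_exists_le_coatom (⊥ : Subgroup Q) with e | ⟨H, hH, -⟩
  · have := Subgroup.subsingleton_iff.1 (subsingleton_of_bot_eq_top e)
    infer_instance
  obtain ⟨x, -, hx⟩ := SetLike.exists_of_lt hH.1.lt_top
  rcases eq_top_or_exists_le_coatom (Subgroup.zpowers x) with e | ⟨K, hK, k⟩
  · exact isCyclic_iff_exists_zpowers_eq_top.2 ⟨x, e⟩
  · exact absurd (h H K (H4.index_of_coatom hQ hH) (H4.index_of_coatom hQ hK) ▸
      k (Subgroup.mem_zpowers x)) hx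

theorem main (hM : IsPModular 2 M) (hev : Even (Nat.card G)) (P : Sylow 2 G) {k : ℕ}
    (hk₁ : ∀ g : G, (∃ j : ℕ, orderOf g = 2 ^ j) → g ^ k = g ^ 3)
    (hk₂ : ∀ g : G, Odd (orderOf g) → g ^ k = g) :
    IsCyclic P ↔ Nat.card {χ : IrrCharacter G // Fx M k χ} = 2 := by
  have : Fact (Nat.Prime 2) := ⟨Nat.prime_two⟩
  have hk := H13.Kb.cop3 hk₁ hk₂
  have np := H13.Kb.npc hk₁ hk₂ hM
  refine ⟨fun hc => ?_, fun hc => ?_⟩
  · have n1 : HasNormalPComplement 2 G := ⟨P, _, inferInstance, hc.isComplement'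
      ((Nat.minFac_eq_two_iff _).2 hev.two_dvd)⟩
    obtain ⟨u, hu⟩ := hc.exists_generator
    have h1 : ∀ χ : {χ : IrrCharacter G // Fx M k χ}, ∃ μ : G →* ℂˣ, (χ.1.1 = fun g => (μ g : ℂ)) ∧
        pResidual 2 G ≤ μ.ker ∧ (μ u = 1 ∨ μ u = -1) := fun χ => by
      have e1 : χ.1.1 1 = 1 := by rw [H7.irr_apply_one, np.1 n1 _ χ.2.1 χ.2.2.1 χ.2.2.2, Nat.cast_one]
      obtain ⟨μ, hμ⟩ := χ.1.2.isCharacter.exists_unitsHom e1
      refine ⟨μ, hμ, fun g hg => Units.ext ?_, ?_⟩
      · have := χ.1.2.mem_charKer_iff.1 (le_charKer_of_mem_principal hM (H3.hasNPC_iff_not_dvd.1 n1)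
          χ.2.1 hg)
        rw [e1, hμ] at this
        exact this
      · have e2 := χ.2.2.2 u
        obtain ⟨j, hj⟩ := IsPGroup.iff_orderOf.1 P.2 u
        rw [hk₁ u ⟨j, by rw [Subgroup.orderOf_coe, hj]⟩, hμ] at e2
        have e3 : μ u * μ u = 1 := by
          have : μ u ^ 3 = μ u := by rw [← map_pow]; exact Units.ext e2
          exact mul_left_cancel (a := μ u) (by rw [mul_one, ← mul_assoc, ← pow_three', this])
        have e4 : (μ u : ℂ) * μ u = 1 := congrArg Units.val e3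
        exact (mul_self_eq_one_iff.1 e4).imp Units.ext Units.ext
    choose μ h1 h2 h3 using h1
    have h4 : Nat.card {χ : IrrCharacter G // Fx M k χ} ≤ Nat.card Prop :=
      Nat.card_le_card_of_injective (fun χ => μ χ u = 1) fun χ ψ e => by
        have e1 : μ χ u = μ ψ u := by
          rcases h3 χ with a | a
          · exact a.trans (cast e a).symm
          · rcases h3 ψ with b | b
            · exact (cast e.symm b).trans b.symm
            · exact a.trans b.symm
        have e2 : (μ χ).eqLocus (μ ψ) = ⊤ := eq_top_iff.2 (H3.pResidual_sup_sylow P ▸ sup_le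
          (fun g hg => (h2 χ hg).trans (h2 ψ hg).symm) fun g hg => by
            obtain ⟨j, hj⟩ := hu ⟨g, hg⟩
            rw [show g = u ^ j from (congrArg Subtype.val hj).symm]
            exact zpow_mem (show (u : G) ∈ (μ χ).eqLocus (μ ψ) from e1) j)
        refine Subtype.ext (Subtype.ext ?_)
        rw [h1, h1]
        exact funext fun g => congrArg Units.val (e2.ge trivial)
    have h5 := Cfsg.Agent.S4550.result M hM hev k hk₁ hk₂
    have h6 : 0 < Nat.card {χ : IrrCharacter G // Fx M k χ} :=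
      Nat.card_pos_iff.2 ⟨⟨⟨_, fx_one hM k⟩⟩, inferInstance⟩
    rw [Nat.card_eq_fintype_card (α := Prop), Fintype.card_prop] at h4
    obtain ⟨c, hc⟩ := h5
    change Nat.card {χ : IrrCharacter G // Fx M k χ} = _ at hc
    omega
  obtain ⟨n, hn⟩ := H13.Kb.iter3 hk₁ hk₂
  have n1 := np.2 fun χ a b c => fx_lin hM hev.two_dvd hk hn hk₂ hc ⟨a, b, c⟩
  have ko : Odd k := Nat.coprime_two_right.1 (hk.coprime_dvd_right hev.two_dvd)
  have : IsCyclic (G ⧸ pResidual 2 G) := by
    refine cyc_of (H3.isPGroup_quotient_pResidual two_ne_zero) fun H K a b => ?_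
    obtain ⟨y, -, hu⟩ := (Nat.card_eq_two_iff' ⟨irrOne G, fx_one hM k⟩).1 hc
    let F : ∀ H : Subgroup (G ⧸ pResidual 2 G), H.index = 2 → {χ : IrrCharacter G // Fx M k χ} :=
      fun H a => ⟨_, fx_hom hM ko ((sg H a).comp (QuotientGroup.mk' _)) fun g => by
        by_cases h : (g : G ⧸ pResidual 2 G) ∈ H <;> simp [sg, h]⟩
    have f1 : ∀ H a (g : G), (F H a).1.1 g = 1 ↔ (g : G ⧸ pResidual 2 G) ∈ H := fun H a g => by
      by_cases h : (g : G ⧸ pResidual 2 G) ∈ H <;> simp [F, sg, h]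
      norm_num
    have f2 : ∀ H a, F H a = y := fun H a => hu _ fun e => by
      have : H = ⊤ := eq_top_iff.2 fun q _ => by
        obtain ⟨g, rfl⟩ := QuotientGroup.mk_surjective q
        exact (f1 H a g).1 (by rw [e]; rfl)
      rw [this, Subgroup.index_top] at a
      omega
    ext q
    obtain ⟨g, rfl⟩ := QuotientGroup.mk_surjective q
    rw [← f1 H a, ← f1 K b, f2, f2]
  refine isCyclic_of_injective ((QuotientGroup.mk' (pResidual 2 G)).comp (P : Subgroup G).subtype) ?_
  rw [injective_iff_map_eq_one]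
  intro a ha
  exact Subtype.ext (((H3.hasNPC_iff_inf_eq_bot P).1 n1).le ⟨(QuotientGroup.eq_one_iff _).1 ha, a.2⟩)

end H6.GA
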