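import Cfsg.Agent.H21.Mod3
import Cfsg.Agent.H0.Lift

/-! Brauer lift: the sum of `θ` over the eigenvalues is a generalized character. -/

open Cfsg Polynomial Module Finset H5
open scoped ComplexConjugate

namespace H6.GC

universe u v

variable {K : Type*} [Field K]

/-- sum of `θ` over the roots -/
noncomputable def rs (θ : K →*₀ ℂ) (P : K[X]) : ℂ := (P.roots.map θ).sum

theorem rs_mul (θ : K →*₀ ℂ) {P Q : K[X]} (hP : P ≠ 0) (hQ : Q ≠ 0) :
    rs θ (P * Q) = rs θ P + rs θ Q := by
  simp [rs, roots_mul (mul_ne_zero hP hQ)]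

theorem rs_eq_sum [Fintype K] (θ : K →*₀ ℂ) (P : K[X]) :
    rs θ P = ∑ x, (rootMultiplicity x P : ℂ) * θ x := by
  classical
  rw [rs, Finset.sum_multiset_map_count]
  refine sum_subset_zero_on_sdiff (subset_univ _) (fun x hx => ?_) fun x _ => ?_
  · have : x ∉ P.roots := by simpa using hx
    rw [← count_roots, Multiset.count_eq_zero.2 this]; simp
  · rw [count_roots, nsmul_eq_mul]

theorem rs_prod (θ : K →*₀ ℂ) {ι : Type*} [Fintype ι] (x : ι → K) :
    rs θ (∏ i, (X - C (x i))) = ∑ i, θ (x i) := by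
  have : (∏ i, (X - C (x i))) = ((univ.val.map x).map fun a => X - C a).prod := by
    rw [Multiset.map_map]; rfl
  rw [this, rs, roots_multiset_prod_X_sub_C, Multiset.map_map]; rfl

variable {W : Type*} [AddCommGroup W] [Module K W]

theorem mem_span_eig (g : End K W) (s : Finset K) :
    ∀ v, aeval g (∏ x ∈ s, (X - C x)) v = 0 →
      v ∈ Submodule.span K {w | ∃ x : K, g w = x • w} := by
  classical
  induction s using Finset.induction_on with
  | empty => intro v hv; simp at hv; simp [hv]
  | insert a t ha ih =>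
    intro v hv
    have hc : IsCoprime (X - C a) (∏ x ∈ t, (X - C x)) :=
      IsCoprime.prod_right fun x hx => isCoprime_X_sub_C_of_isUnit_sub
        (sub_ne_zero.2 fun e : a = x => ha (e ▸ hx)).isUnit
    rw [prod_insert ha] at hv
    have h1 : v ∈ LinearMap.ker (aeval g (X - C a)) ⊔
        LinearMap.ker (aeval g (∏ x ∈ t, (X - C x))) := by
      rw [sup_ker_aeval_eq_ker_aeval_mul_of_coprime g hc]; exact hv
    obtain ⟨y, hy, z, hz, rfl⟩ := Submodule.mem_sup.1 h1
    refine add_mem (Submodule.subset_span ⟨a, ?_⟩) (ih z hz)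
    simpa [sub_eq_zero] using hy

theorem prod_X_sub [Fintype K] : ∏ x : K, (X - C x) = X ^ Fintype.card K - X := by
  have h := prod_multiset_X_sub_C_of_monic_of_roots_card_eq
    (p := (X ^ Fintype.card K - X : K[X])) (monic_X_pow_sub (by simpa using Fintype.one_lt_card))
    (by rw [FiniteField.roots_X_pow_card_sub_X,
      FiniteField.X_pow_card_sub_X_natDegree_eq K Fintype.one_lt_card]; rfl)
  rwa [FiniteField.roots_X_pow_card_sub_X] at h

theorem exists_eigbasis [Fintype K] [Module.Finite K W] {g : End K W}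
    (h : g ^ Fintype.card K = g) :
    ∃ (n : ℕ) (b : Basis (Fin n) K W) (x : Fin n → K), ∀ i, g (b i) = x i • b i := by
  classical
  obtain ⟨t, ht, hs, hl⟩ := exists_linearIndependent K {w | ∃ x : K, g w = x • w}
  have h1 : ⊤ ≤ Submodule.span K (Set.range ((↑) : t → W)) := by
    rw [Subtype.range_coe, hs]
    intro v _
    refine mem_span_eig g univ v ?_
    rw [prod_X_sub]
    simp [h]
  let b := Basis.mk hl h1
  have := Module.Finite.finite_basis b
  obtain ⟨n, ⟨e⟩⟩ := Finite.exists_equiv_fin t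
  choose x hx using fun i : t => ht i.2
  exact ⟨n, b.reindex e, fun i => x (e.symm i), fun i => by simp [b, hx]⟩

theorem charpoly_diag [Module.Finite K W] {n : ℕ} (b : Basis (Fin n) K W) {x : Fin n → K}
    {g : End K W} (h : ∀ i, g (b i) = x i • b i) : g.charpoly = ∏ i, (X - C (x i)) := by
  rw [← LinearMap.charpoly_toMatrix g b, ← Matrix.charpoly_diagonal]
  congr 1
  ext i j
  rw [LinearMap.toMatrix_apply, h, Matrix.diagonal_apply]
  split_ifs with e
  · simp [e]
  · simp [Ne.symm e]

theorem pow_eig {g : End K W} {v : W} {x : K} (h : g v = x • v) (j : ℕ) :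
    (g ^ j) v = x ^ j • v := by
  induction j with
  | zero => simp
  | succ j ih => rw [pow_succ', End.mul_apply, ih, map_smul, h, smul_smul, pow_succ]

open Classical in
theorem card_fix [Fintype K] {n : ℕ} (b : Basis (Fin n) K W) {x : Fin n → K}
    {g : End K W} (h : ∀ i, g (b i) = x i • b i) :
    Nat.card {v // g v = v} = Fintype.card K ^ #{i | x i = 1} := by
  have h1 : ∀ v i, b.equivFun (g v) i = x i * b.equivFun v i := fun v i => by
    conv_lhs => rw [← b.sum_equivFun v, map_sum]
    simp [h, Finsupp.single_apply, mul_comm]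
  have e : {v // g v = v} ≃ {c : Fin n → K // ∀ i, x i * c i = c i} :=
    b.equivFun.toEquiv.subtypeEquiv fun v => by
      rw [← b.equivFun.injective.eq_iff, funext_iff]; simp only [h1]; rfl
  rw [Nat.card_congr (e.trans (Equiv.subtypePiEquivPi (p := fun i a => x i * a = a))), Nat.card_pi, ← prod_const,
    prod_filter]
  refine prod_congr rfl fun i _ => ?_
  split_ifs with e1
  · simp [e1]
  · have : ∀ a, x i * a = a ↔ a = 0 := fun a => by
      rw [← sub_eq_zero, ← sub_one_mul, mul_eq_zero, sub_eq_zero]; simp [e1]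
    simp [this]

theorem sum_zpowers {G : Type*} [Group G] [Finite G] (g : G) [Fintype (Subgroup.zpowers g)]
    (f : G → ℂ) : ∑ h : Subgroup.zpowers g, f h = ∑ j ∈ range (orderOf g), f (g ^ j) := by
  rw [← (finEquivZPowers (isOfFinOrder_of_finite g)).sum_comp, Finset.sum_range]
  rfl

/-- cyclic case of the Brauer lift -/
theorem sum_cyc [Fintype K] [Module.Finite K W] {θ : K →*₀ ℂ} (hθ : Function.Injective θ)
    {G : Type*} [Group G] [Finite G] (ρ : G →* End K W) (g : G)
    (hg : orderOf g ∣ Fintype.card K - 1) [Fintype (Subgroup.zpowers g)] :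
    ∃ e : ℕ, Nat.card {v // ∀ h ∈ Subgroup.zpowers g, ρ h v = v} = Fintype.card K ^ e ∧
      ∑ h : Subgroup.zpowers g, rs θ (ρ h).charpoly = orderOf g * e := by
  classical
  have h1 : ρ g ^ Fintype.card K = ρ g := by
    rw [← Nat.sub_add_cancel (Fintype.card_pos (α := K)), pow_succ, ← map_pow,
      orderOf_dvd_iff_pow_eq_one.1 hg, map_one, one_mul]
  obtain ⟨n, b, x, hx⟩ := exists_eigbasis h1
  refine ⟨#{i | x i = 1}, ?_, ?_⟩
  · rw [← card_fix b hx]
    refine Nat.card_congr (Equiv.subtypeEquivRight fun v =>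
      ⟨fun h => h g (Subgroup.mem_zpowers g), fun h y hy => ?_⟩)
    obtain ⟨j, rfl⟩ := (mem_powers_iff_mem_zpowers.2 hy)
    simpa using pow_eig (g := ρ g) (v := v) (x := (1 : K)) (by simpa using h) j
  · rw [sum_zpowers g fun h => rs θ (ρ h).charpoly]
    have h2 : ∀ j, rs θ (ρ (g ^ j)).charpoly = ∑ i, θ (x i) ^ j := fun j => by
      rw [charpoly_diag b (x := fun i => x i ^ j) fun i => by rw [map_pow, pow_eig (hx i)],
        rs_prod]
      simp
    simp only [h2]
    rw [sum_comm, card_filter, Nat.cast_sum, mul_sum]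
    refine sum_congr rfl fun i _ => ?_
    split_ifs with e
    · simp [e]
    · have h3 : x i ^ orderOf g = 1 := by
        have := pow_eig (hx i) (orderOf g)
        rw [← map_pow, pow_orderOf_eq_one, map_one, End.one_apply] at this
        have h4 : (x i ^ orderOf g - 1) • b i = 0 := by rw [sub_smul, ← this, one_smul, sub_self]
        exact sub_eq_zero.1 ((smul_eq_zero.1 h4).resolve_right (b.ne_zero i))
      have h4 : θ (x i) ≠ 1 := fun h => e (hθ (by rw [h, map_one]))
      rw [geom_sum_eq h4, ← map_pow, h3]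
      simp

theorem sum_eq_zero_of_cyc {G : Type*} [Group G] [Fintype G] {f : G → ℂ}
    (h : ∀ (g : G) [Fintype (Subgroup.zpowers g)], ∑ x : Subgroup.zpowers g, f x = 0) :
    ∑ x, f x = 0 := by
  classical
  have h1 : ∀ C : Subgroup G, ∑ x with Subgroup.zpowers x = C, f x = 0 := fun C => by
    induction C using WellFoundedLT.induction with
    | ind C ih =>
    by_cases hC : ∃ g, Subgroup.zpowers g = C
    · obtain ⟨g, rfl⟩ := hC
      have h2 := h g
      rw [← sum_subtype (univ.filter (· ∈ Subgroup.zpowers g)) (by simp) f,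
        ← sum_filter_add_sum_filter_not _ fun x => Subgroup.zpowers x = Subgroup.zpowers g,
        ← sum_fiberwise_of_maps_to (s := filter (fun x => ¬ _) (filter _ _))
          (g := Subgroup.zpowers)
          (t := univ.filter (· < Subgroup.zpowers g)) (fun x hx => by
            simp only [mem_filter, mem_univ, true_and] at hx ⊢
            exact lt_of_le_of_ne (Subgroup.zpowers_le.2 hx.1) hx.2),
        sum_eq_zero (s := univ.filter (· < Subgroup.zpowers g)) fun D hD => ?_, add_zero,
        filter_filter] at h2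
      · rw [← h2]
        refine sum_congr (filter_congr fun x _ => ⟨fun e => ⟨e ▸ Subgroup.mem_zpowers x, e⟩,
          fun e => e.2⟩) fun _ _ => rfl
      · have hD' : D < Subgroup.zpowers g := by simpa using hD
        rw [← ih D hD', filter_filter, filter_filter]
        refine sum_congr (filter_congr fun x _ => ⟨fun e => e.2.2, fun e => ?_⟩) fun _ _ => rfl
        exact ⟨hD'.le (e ▸ Subgroup.mem_zpowers x), e ▸ hD'.ne, e⟩
    · exact sum_eq_zero fun x hx => (hC ⟨x, (mem_filter.1 hx).2⟩).elim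
  rw [← sum_fiberwise_of_maps_to (g := Subgroup.zpowers) (t := univ) (fun _ _ => mem_univ _)]
  exact sum_eq_zero fun C _ => h1 C

variable [Fintype K] [Module.Finite K W] {θ : K →*₀ ℂ} {p : ℕ} [hp : Fact p.Prime] [CharP K p]

theorem sum_pp (hθ : Function.Injective θ) {G : Type*} [Group G] [Fintype G] (ρ : G →* End K W)
    (hG : (Nat.card G).Coprime p) (hg : ∀ g : G, orderOf g ∣ Fintype.card K - 1) :
    ∃ e : ℕ, ∑ g, rs θ (ρ g).charpoly = Nat.card G * e := by
  classical
  let _ : Module (ZMod p) W := AddCommGroup.zmodModule fun x => by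
    rw [← Nat.cast_smul_eq_nsmul K, CharP.cast_eq_zero, zero_smul]
  have : Finite W := Module.finite_of_finite K
  obtain ⟨χ, -, hχ⟩ := H0.exists_lift_add (p := p) hG (fun g => (ρ g).toAddMonoidHom)
    (fun v => by simp) (fun g h v => by simp)
  obtain ⟨f, -, hf⟩ := FiniteField.card K p
  have hs : ∀ (H : Subgroup G) [Fintype H] (e : ℕ),
      Nat.card {v // ∀ h ∈ H, ρ h v = v} = Fintype.card K ^ e →
        ∑ h : H, χ h = Nat.card H * (f * e) := fun H _ e he => by
    obtain ⟨d, hd, h⟩ := hχ H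
    have h1 : d = f * e := Nat.pow_right_injective hp.out.two_le
      (by simp only; rw [← hd, pow_mul, ← hf, ← he]; rfl)
    have h0 : (Nat.card H : ℂ) ≠ 0 := Nat.cast_ne_zero.2 Nat.card_pos.ne'
    rw [classInner_def, inv_mul_eq_iff_eq_mul₀ h0, h1] at h
    simpa using h
  have h1 := sum_eq_zero_of_cyc (f := fun g => (f : ℕ) * rs θ (ρ g).charpoly - χ g) fun g _ => by
    obtain ⟨e, he, h⟩ := sum_cyc hθ ρ g (hg g)
    rw [sum_sub_distrib, ← mul_sum, h, hs _ e he, Nat.card_zpowers]; ring
  let U : Submodule K W := ⨅ g, LinearMap.eqLocus (ρ g) LinearMap.id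
  have h2 := hs ⊤ (finrank K U) (by
    rw [← Nat.card_eq_fintype_card, ← Module.natCard_eq_pow_finrank]
    exact Nat.card_congr (Equiv.subtypeEquivRight fun v => by simp [U]))
  rw [← sum_subtype univ (by simp) χ, Subgroup.card_top] at h2
  rw [sum_sub_distrib, ← mul_sum, h2, sub_eq_zero] at h1
  refine ⟨finrank K U, mul_left_cancel₀ (a := ((f : ℕ) : ℂ)) (by simp) ?_⟩
  rw [h1]; ring

omit [Fintype K] in
theorem rootMult_smul (g : End K W) {c : K} (hc : c ≠ 0) (x : K) :
    rootMultiplicity (c * x) (c • g).charpoly = rootMultiplicity x g.charpoly := by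
  rw [← LinearMap.finrank_maxGenEigenspace_eq, ← LinearMap.finrank_maxGenEigenspace_eq]
  refine congrArg (fun U : Submodule K W => finrank K U) (Submodule.ext fun v => ?_)
  simp only [End.mem_maxGenEigenspace]
  refine exists_congr fun k => ?_
  rw [mul_smul, ← smul_sub, _root_.smul_pow, LinearMap.smul_apply, smul_eq_zero]
  simp [hc]

theorem rs_smul (g : End K W) {c : K} (hc : c ≠ 0) :
    rs θ (c • g).charpoly = θ c * rs θ g.charpoly := by
  rw [rs_eq_sum, rs_eq_sum, mul_sum, ← Equiv.sum_comp (Equiv.mulLeft₀ c hc)]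
  refine sum_congr rfl fun x _ => ?_
  rw [Equiv.mulLeft₀_apply, rootMult_smul g hc, map_mul]; ring

theorem exists_pre (hθ : Function.Injective θ) {z : ℂ} (hz : z ^ (Fintype.card K - 1) = 1) :
    ∃ c : K, θ c = z := by
  classical
  have h0 : 0 < Fintype.card K - 1 := Nat.sub_pos_of_lt Fintype.one_lt_card
  have h1 : (univ.erase (0 : K)).image θ = nthRootsFinset (Fintype.card K - 1) (1 : ℂ) := by
    refine eq_of_subset_of_card_le (fun y hy => ?_) ?_
    · obtain ⟨c, hc, rfl⟩ := mem_image.1 hy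
      rw [mem_nthRootsFinset h0, ← map_pow, FiniteField.pow_card_sub_one_eq_one c
        (ne_of_mem_erase hc), map_one]
    · rw [card_image_of_injective _ hθ, card_erase_of_mem (mem_univ _), card_univ]
      exact (Multiset.toFinset_card_le _).trans (card_nthRoots _ _)
  obtain ⟨c, -, hc⟩ := mem_image.1 (h1 ▸ (mem_nthRootsFinset h0 1).2 hz)
  exact ⟨c, hc⟩

omit [Fintype K] hp [CharP K p] in
theorem cf_rs {G : Type*} [Group G] (ρ : G →* End K W) :
    IsClassFunction G fun g => rs θ (ρ g).charpoly := fun g h => by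
  let e : W ≃ₗ[K] W := LinearEquiv.ofLinearMap (ρ h) (ρ h⁻¹)
    (by rw [← End.mul_eq_comp, ← map_mul, mul_inv_cancel, map_one]; rfl)
    (by rw [← End.mul_eq_comp, ← map_mul, inv_mul_cancel, map_one]; rfl)
  have : ρ (h * g * h⁻¹) = e.conj (ρ g) := by
    ext v; simp [e, LinearEquiv.conj_apply]
  simp only [this, LinearEquiv.charpoly_conj]

theorem inner_pp (hθ : Function.Injective θ) {G : Type*} [Group G] [Fintype G]
    (ρ : G →* End K W) (hG : (Nat.card G).Coprime p)
    (hg : ∀ g : G, orderOf g ∣ Fintype.card K - 1) (l : G →* ℂˣ) :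
    ∃ n : ℤ, classInner (fun g => rs θ (ρ g).charpoly) (fun g => (l g : ℂ)) = n := by
  have h1 : ∀ g, ∃ c : K, θ c = l g⁻¹ := fun g => exists_pre hθ (by
    rw [← Units.val_pow_eq_pow_val, ← map_pow, orderOf_dvd_iff_pow_eq_one.1 (hg _), map_one,
      Units.val_one])
  choose c hc using h1
  have h0 : ∀ g, c g ≠ 0 := fun g e => (l g⁻¹).ne_zero (by rw [← hc, e, map_zero])
  let ρ' : G →* End K W :=
    { toFun := fun g => c g • ρ g
      map_one' := by
        rw [show c 1 = 1 from hθ (by simp [hc]), one_smul, map_one]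
      map_mul' := fun g h => by
        rw [show c (g * h) = c g * c h from hθ (by simp [hc, mul_comm]), map_mul,
          smul_mul_smul_comm] }
  obtain ⟨e, he⟩ := sum_pp hθ ρ' hG hg
  refine ⟨e, ?_⟩
  have h2 : (Nat.card G : ℂ) ≠ 0 := Nat.cast_ne_zero.2 Nat.card_pos.ne'
  rw [classInner_def, inv_mul_eq_iff_eq_mul₀ h2, Int.cast_natCast, ← he]
  refine sum_congr rfl fun g _ => ?_
  change _ = rs θ (c g • ρ g).charpoly
  rw [rs_smul _ (h0 g), hc, mul_comm, (H6.char_hom l).apply_inv]

omit [Fintype K] in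
theorem rootMult_ppart {g s : End K W} {a : ℕ} (h : g ^ p ^ a = s ^ p ^ a) (x : K) :
    rootMultiplicity x g.charpoly = rootMultiplicity x s.charpoly := by
  have h1 : ∀ (g : End K W), (g - x • 1) ^ p ^ a = g ^ p ^ a - x ^ p ^ a • 1 := fun g => by
    have := congrArg (aeval g) (sub_pow_char_pow (R := K[X]) (p := p) X (C x) a)
    simpa [Algebra.algebraMap_eq_smul_one, _root_.smul_pow] using this
  have h2 : ∀ (g : End K W) v, v ∈ g.maxGenEigenspace x ↔
      ∃ k : ℕ, ((g ^ p ^ a - x ^ p ^ a • 1) ^ k : End K W) v = 0 := fun g v => by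
    rw [End.mem_maxGenEigenspace, ← h1]
    refine ⟨fun ⟨k, hk⟩ => ⟨k, ?_⟩, fun ⟨k, hk⟩ => ⟨p ^ a * k, by rwa [pow_mul]⟩⟩
    obtain ⟨m, hm⟩ := Nat.exists_eq_succ_of_ne_zero (pow_pos hp.out.pos a).ne'
    rw [← pow_mul, hm, Nat.succ_mul, pow_add, End.mul_apply, hk, map_zero]
  rw [← LinearMap.finrank_maxGenEigenspace_eq, ← LinearMap.finrank_maxGenEigenspace_eq]
  refine congrArg (fun U : Submodule K W => finrank K U) (Submodule.ext fun v => ?_)
  rw [h2, h2, h]

/-- the Brauer lift is a generalized character -/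
theorem gen_rs (hθ : Function.Injective θ) {G : Type*} [Group G] [Finite G] (ρ : G →* End K W)
    (hg : ∀ g : G, ¬ p ∣ orderOf g → orderOf g ∣ Fintype.card K - 1) :
    IsGeneralizedCharacter G fun g => rs θ (ρ g).charpoly := by
  refine H6.gen_of_elementary (cf_rs ρ) ?_
  rintro E ⟨q, hq, hE⟩
  have := H6.isNilpotent_of_isElementary hq hE
  obtain ⟨Q, f, hQ, hf⟩ := H21.exists_nilpotent_proj (E := E) (p := p)
  have := Fintype.ofFinite Q
  let ι := E.subtype.comp Q.subtype
  have h1 : IsGeneralizedCharacter Q fun y => rs θ (ρ (ι y)).charpoly := by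
    refine (cf_rs (ρ.comp ι)).isGeneralizedCharacter_of_classInner fun χ hχ => ?_
    refine (H6.inner_mem_of_elementary (Int.castAddHom ℂ).range (cf_rs (ρ.comp ι))
      (fun D _ _ l => ?_) hχ.isCharacter).imp fun n hn => hn.symm
    have hD : ¬ p ∣ Nat.card D := fun h => hQ (h.trans D.card_subgroup_dvd_card)
    obtain ⟨n, hn⟩ := inner_pp hθ ((ρ.comp ι).comp D.subtype)
      ((Nat.Prime.coprime_iff_not_dvd hp.out).2 hD).symm (fun y => by
        have h2 : orderOf (y.1.1.1 : G) = orderOf y := by simp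
        rw [← h2]
        exact hg _ fun h => hD ((h2 ▸ h).trans (orderOf_dvd_natCard y))) l
    exact ⟨n, hn.symm⟩
  convert h1.comp f using 2 with e
  obtain ⟨y, hy, hc, ⟨a, ha⟩, -⟩ := hf e
  have h2 : y = f e := by rwa [mul_assoc, mul_eq_left, inv_mul_eq_one, eq_comm] at hy
  have h3 : e ^ p ^ a = (f e : E) ^ p ^ a := by
    conv_lhs => rw [← hy, hc.mul_pow, ← ha, pow_orderOf_eq_one, one_mul, ha, h2]
  rw [rs_eq_sum, rs_eq_sum]
  refine sum_congr rfl fun x _ => ?_
  rw [rootMult_ppart (p := p) (a := a) (s := ρ (ι (f e)))]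
  rw [← map_pow, ← map_pow, ← Subgroup.coe_pow, h3]; rfl

end H6.GC
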