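import Cfsg.Agent.H6.GC1

/-! Möbius inversion over the lattice of invariant subspaces. -/

open Cfsg Polynomial Module Finset H5 Submodule
open scoped Classical

namespace H6.GC

section Mob

variable {α β : Type*} [PartialOrder α] [Fintype α] [PartialOrder β] [Fintype β]

theorem exists_mob (P : α → Prop) (s : α → ℂ) :
    ∃ f : α → ℂ, ∀ a, f a = s a - ∑ b with b < a ∧ P b, f b := by
  refine ⟨(wellFounded_lt (α := α)).fix fun a rec => s a -
    ∑ b ∈ (univ.filter fun b => b < a ∧ P b).attach, rec b.1 (mem_filter.1 b.2).2.1, fun a => ?_⟩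
  rw [WellFounded.fix_eq, ← sum_attach (univ.filter fun b => b < a ∧ P b)]

/-- Möbius inverse of `s` on the elements satisfying `P` -/
noncomputable def mob (P : α → Prop) (s : α → ℂ) : α → ℂ := (exists_mob P s).choose

theorem sum_le_eq {P : α → Prop} (f : α → ℂ) {a : α} (ha : P a) :
    ∑ b with b ≤ a ∧ P b, f b = f a + ∑ b with b < a ∧ P b, f b := by
  rw [← sum_insert (by simp)]
  refine sum_congr ?_ fun _ _ => rfl
  ext b
  simp only [mem_filter, mem_univ, true_and, mem_insert, le_iff_eq_or_lt]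
  exact ⟨fun h => h.1.imp id fun h' => ⟨h', h.2⟩, fun h => h.elim (fun e => ⟨.inl e, e ▸ ha⟩)
    fun h => ⟨.inr h.1, h.2⟩⟩

theorem mob_eq (P : α → Prop) (s : α → ℂ) (a : α) :
    mob P s a = s a - ∑ b with b < a ∧ P b, mob P s b := (exists_mob P s).choose_spec a

theorem mob_sum {P : α → Prop} (s : α → ℂ) {a : α} (ha : P a) :
    ∑ b with b ≤ a ∧ P b, mob P s b = s a := by
  rw [sum_le_eq _ ha, mob_eq P s a, sub_add_cancel]

theorem mob_unique {P : α → Prop} {s f : α → ℂ} {c : α}
    (h : ∀ a ≤ c, P a → ∑ b with b ≤ a ∧ P b, f b = s a) :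
    ∀ a ≤ c, P a → mob P s a = f a := fun a => by
  induction a using WellFoundedLT.induction with
  | ind a ih =>
  intro hc ha
  rw [mob_eq, ← h a hc ha, sum_le_eq _ ha, sum_congr rfl fun b hb => ih b (mem_filter.1 hb).2.1
    ((mem_filter.1 hb).2.1.le.trans hc) (mem_filter.1 hb).2.2, add_sub_cancel_right]

theorem mob_map {P : α → Prop} {s : α → ℂ} {Q : β → Prop} {t : β → ℂ} {c : α} (e : α → β)
    (hle : ∀ a ≤ c, ∀ b ≤ c, e a ≤ e b ↔ a ≤ b) (hP : ∀ a ≤ c, Q (e a) ↔ P a)
    (hs : ∀ y ≤ e c, ∃ a ≤ c, e a = y) (ht : ∀ a ≤ c, P a → t (e a) = s a) (hc : P c) :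
    mob Q t (e c) = mob P s c := by
  refine (mob_unique (f := fun a => mob Q t (e a)) (c := c) (fun a ha hp => ?_) c le_rfl hc).symm
  rw [← ht a ha hp, ← mob_sum t ((hP a ha).2 hp)]
  refine sum_bij (fun b _ => e b) (fun b hb => ?_) (fun b hb b' hb' h => ?_) (fun y hy => ?_)
    fun _ _ => rfl
  · simp only [mem_filter, mem_univ, true_and] at hb ⊢
    exact ⟨(hle b (hb.1.trans ha) a ha).2 hb.1, (hP b (hb.1.trans ha)).2 hb.2⟩
  · simp only [mem_filter, mem_univ, true_and] at hb hb'
    have h1 := hb.1.trans ha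
    have h2 := hb'.1.trans ha
    exact le_antisymm ((hle b h1 b' h2).1 h.le) ((hle b' h2 b h1).1 h.ge)
  · simp only [mem_filter, mem_univ, true_and] at hy ⊢
    obtain ⟨b, hb, rfl⟩ := hs y (hy.1.trans ((hle a ha c le_rfl).2 ha))
    exact ⟨b, ⟨(hle b hb a ha).1 hy.1, (hP b hb).1 hy.2⟩, rfl⟩

end Mob

variable {F V V' : Type*} [Field F] [AddCommGroup V] [Module F V] [AddCommGroup V'] [Module F V']

/-- invariant subspace -/
def Iv (g : End F V) (W : Submodule F V) : Prop := ∀ w ∈ W, g w ∈ W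

theorem Iv.inf {g : End F V} {A B : Submodule F V} (h : Iv g A) (h' : Iv g B) : Iv g (A ⊓ B) :=
  fun w hw => ⟨h w hw.1, h' w hw.2⟩

theorem iv_top (g : End F V) : Iv g ⊤ := fun _ _ => trivial

theorem iv_bot (g : End F V) : Iv g ⊥ := fun w hw => by simp [(mem_bot F).1 hw]

/-- restriction -/
def Iv.r {g : End F V} {W : Submodule F V} (h : Iv g W) : End F W := g.restrict h

@[simp] theorem Iv.r_apply {g : End F V} {W : Submodule F V} (h : Iv g W) (w : W) :
    (h.r w : V) = g w := rfl

/-- induced map on the quotient -/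
def Iv.q {g : End F V} {W : Submodule F V} (h : Iv g W) : End F (V ⧸ W) := W.mapQ W g h

@[simp] theorem Iv.q_mk {g : End F V} {W : Submodule F V} (h : Iv g W) (v : V) :
    h.q (Submodule.Quotient.mk v) = Submodule.Quotient.mk (g v) := rfl

theorem inj_of {ι : V' →ₗ[F] V} {W : Submodule F V'} (h : Disjoint W (LinearMap.ker ι)) {a b : V'}
    (ha : a ∈ W) (hb : b ∈ W) (e : ι a = ι b) : a = b :=
  LinearMap.disjoint_ker_iff_injOn.1 h ha hb e

variable [Module.Finite F V] [Module.Finite F V']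

/-- characteristic polynomial on an invariant subspace -/
noncomputable def cp (g : End F V) (W : Submodule F V) : F[X] :=
  if h : Iv g W then h.r.charpoly else 1

theorem cp_eq {g : End F V} {W : Submodule F V} (h : Iv g W) :
    cp g W = h.r.charpoly := dif_pos h

theorem cp_monic (g : End F V) (W : Submodule F V) : (cp g W).Monic := by
  unfold cp; split_ifs
  exacts [LinearMap.charpoly_monic _, monic_one]

theorem cp_natDegree {g : End F V} {W : Submodule F V} (h : Iv g W) :
    (cp g W).natDegree = finrank F W := by rw [cp_eq h, LinearMap.charpoly_natDegree]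

theorem cp_bot (g : End F V) : cp g ⊥ = 1 :=
  (cp_monic g ⊥).natDegree_eq_zero.1 (by rw [cp_natDegree (iv_bot g), finrank_bot])

theorem charpoly_eq_of_equiv {g : End F V} {g' : End F V'} (e : V ≃ₗ[F] V')
    (h : ∀ v, g' (e v) = e (g v)) : g'.charpoly = g.charpoly := by
  rw [← e.charpoly_conj g]
  congr 1
  ext v
  obtain ⟨v, rfl⟩ := e.surjective v
  simp [LinearEquiv.conj_apply, h]

theorem cp_top (g : End F V) : cp g ⊤ = g.charpoly := by
  rw [cp_eq (iv_top g)]
  exact (charpoly_eq_of_equiv Submodule.topEquiv fun _ => rfl).symm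

section Map

variable {g : End F V} {g' : End F V'} {ι : V' →ₗ[F] V} {W A B : Submodule F V'}

omit [Module.Finite F V] [Module.Finite F V'] in
theorem iv_map_iff (hι : Disjoint W (LinearMap.ker ι)) (hW : Iv g' W)
    (h : ∀ w ∈ W, g (ι w) = ι (g' w)) (hA : A ≤ W) : Iv g (A.map ι) ↔ Iv g' A := by
  refine ⟨fun h1 a ha => ?_, fun h1 => ?_⟩
  · obtain ⟨b, hb, e⟩ := h1 _ (mem_map_of_mem ha)
    rw [h a (hA ha)] at e
    rwa [← inj_of hι (hA hb) (hW a (hA ha)) e]
  · rintro _ ⟨a, ha, rfl⟩
    rw [h a (hA ha)]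
    exact mem_map_of_mem (h1 a ha)

theorem cp_map (hι : Disjoint W (LinearMap.ker ι)) (hW : Iv g' W)
    (h : ∀ w ∈ W, g (ι w) = ι (g' w)) : cp g (W.map ι) = cp g' W := by
  rw [cp_eq hW, cp_eq ((iv_map_iff hι hW h le_rfl).2 hW)]
  refine charpoly_eq_of_equiv (LinearEquiv.ofBijective (ι.submoduleMap W)
    ⟨fun a b e => Subtype.ext (inj_of hι a.2 b.2 (congrArg Subtype.val e)),
      ι.submoduleMap_surjective W⟩) fun v => Subtype.ext (h v v.2)

end Map

open Module.Basis in
theorem charpoly_quot (W : Submodule F V) (e : End F V) (he : Iv e W) :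
    e.charpoly = he.r.charpoly * he.q.charpoly := by
  let m := Module.Free.ChooseBasisIndex F W
  let bW : Basis m F W := Module.Free.chooseBasis F W
  let n := Module.Free.ChooseBasisIndex F (V ⧸ W)
  let bQ : Basis n F (V ⧸ W) := Module.Free.chooseBasis F (V ⧸ W)
  let b := sumQuot bW bQ
  let A : Matrix m m F := LinearMap.toMatrix bW bW he.r
  let B : Matrix m n F := Matrix.of fun i l ↦
    ((sumQuot bW bQ).repr (e ((sumQuot bW bQ) (Sum.inr l)))) (Sum.inl i)
  let D : Matrix n n F := LinearMap.toMatrix bQ bQ he.q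
  suffices LinearMap.toMatrix b b e = Matrix.fromBlocks A B 0 D by
    rw [← LinearMap.charpoly_toMatrix _ b, this, ← LinearMap.charpoly_toMatrix _ bW,
      ← LinearMap.charpoly_toMatrix _ bQ, Matrix.charpoly_fromBlocks_zero₂₁]
  ext u v
  cases u with
  | inl i =>
    cases v with
    | inl k =>
      simp only [b, sumQuot_inl, Matrix.fromBlocks_apply₁₁, A, LinearMap.toMatrix_apply]
      apply sumQuot_repr_inl_of_mem
    | inr l => simp [b, LinearMap.toMatrix_apply, Matrix.fromBlocks_apply₁₂, B]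
  | inr j =>
    cases v with
    | inl k =>
      suffices W.mkQ (e (bW k)) = 0 by simp [LinearMap.toMatrix_apply, b, this]
      rw [← LinearMap.mem_ker, Submodule.ker_mkQ]
      exact he _ (Submodule.coe_mem (bW k))
    | inr l =>
      simp only [LinearMap.toMatrix_apply, sumQuot_repr_inr,
        Matrix.fromBlocks_apply₂₂, b, D]
      rw [← sumQuot_inr bW bQ l, he.q_mk]
      simp

theorem cp_mul {g : End F V} {W B : Submodule F V} (hW : Iv g W) (hB : Iv g B) :
    cp g W = cp g (W ⊓ B) * cp hB.q (W.map B.mkQ) := by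
  have hA : Iv hW.r (B.comap W.subtype) := fun w hw => hB _ hw
  rw [cp_eq hW, charpoly_quot _ _ hA, ← cp_eq hA, ← cp_top,
    ← cp_map (g := g) (ι := W.subtype) (by simp) hA fun _ _ => rfl, map_comap_subtype,
    ← cp_map (g := hB.q) (ι := (B.comap W.subtype).mapQ B W.subtype le_rfl)
      (by rw [ker_mapQ, disjoint_iff, top_inf_eq, mkQ_map_self]) (iv_top _) fun w _ => ?_]
  · congr 2
    rw [Submodule.map_top, range_mapQ, range_subtype]
  · obtain ⟨w, rfl⟩ := Submodule.mkQ_surjective _ w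
    rfl

theorem charpoly_add_eq {g φ : End F V} {B : Submodule F V} (hB : Iv g B) (h1 : ∀ v, φ v ∈ B)
    (h2 : ∀ v ∈ B, φ v = 0) : (g + φ).charpoly = g.charpoly := by
  have hB' : Iv (g + φ) B := fun v hv => add_mem (hB v hv) (h1 v)
  rw [charpoly_quot B _ hB, charpoly_quot B _ hB']
  congr 2
  · ext v; simp [h2]
  · ext v; simp [(Submodule.Quotient.mk_eq_zero B).2 (h1 v)]

variable [Finite V] [Finite V']

noncomputable instance (priority := low) fintSub : Fintype (Submodule F V) :=
  @Fintype.ofFinite _ (Finite.of_injective _ SetLike.coe_injective)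

/-- the Möbius inverse of `W ↦ S (charpoly (g|W))` -/
noncomputable def J (S : F[X] → ℂ) (g : End F V) : Submodule F V → ℂ :=
  mob (Iv g) fun W => S (cp g W)

variable {S : F[X] → ℂ}

theorem J_sum {g : End F V} {W : Submodule F V} (h : Iv g W) :
    ∑ A with A ≤ W ∧ Iv g A, J S g A = S (cp g W) := mob_sum _ h

theorem J_eq (g : End F V) (W : Submodule F V) :
    J S g W = S (cp g W) - ∑ A with A < W ∧ Iv g A, J S g A := mob_eq _ _ _

theorem J_bot (hS : S 1 = 0) (g : End F V) : J S g ⊥ = 0 := by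
  rw [J_eq, cp_bot, hS]; simp

theorem J_map {g : End F V} {g' : End F V'} {ι : V' →ₗ[F] V} {W : Submodule F V'}
    (hι : Disjoint W (LinearMap.ker ι)) (hW : Iv g' W)
    (h : ∀ w ∈ W, g (ι w) = ι (g' w)) : J S g (W.map ι) = J S g' W := by
  refine mob_map (Submodule.map ι) (fun A hA B hB => ⟨fun e a ha => ?_, map_mono⟩)
    (fun A hA => iv_map_iff hι hW h hA) (fun Y hY => ⟨W ⊓ Y.comap ι, inf_le_left, ?_⟩)
    (fun A hA h1 => by rw [cp_map (hι.mono_left hA) h1 fun w hw => h w (hA hw)]) hW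
  · obtain ⟨b, hb, e⟩ := e (mem_map_of_mem ha)
    rwa [← inj_of hι (hB hb) (hA ha) e]
  · refine le_antisymm (map_le_iff_le_comap.2 inf_le_right) fun y hy => ?_
    obtain ⟨w, hw, rfl⟩ := hY hy
    exact mem_map_of_mem ⟨hw, hy⟩

theorem J_congr {g g' : End F V} {W : Submodule F V} (hW : Iv g' W) (h : ∀ w ∈ W, g w = g' w) :
    J S g W = J S g' W := by
  simpa using J_map (S := S) (ι := LinearMap.id) (by simp) hW h

theorem J_restrict {g : End F V} {W : Submodule F V} (hW : Iv g W) :
    J S g W = J S hW.r ⊤ := by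
  simpa using J_map (S := S) (g := g) (ι := W.subtype) (by simp) (iv_top hW.r)
    fun _ _ => rfl

end H6.GC
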