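import Cfsg.Agent.H6.GC2

/-! Cuspidality of the Möbius inverse. -/

open Cfsg Polynomial Module Finset H5 Submodule
open scoped Classical

namespace H6.GC

section Avg

variable {α : Type*} [AddCommGroup α] [Fintype α]

theorem sum_avg (K : AddSubgroup α) {T : Finset α} {f : α → ℂ}
    (hT : ∀ x ∈ T, ∀ u ∈ K, x + u ∈ T) (h : ∀ x ∈ T, ∑ u with u ∈ K, f (x + u) = 0) :
    ∑ x ∈ T, f x = 0 := by
  have h1 : ∀ u ∈ K, ∑ x ∈ T, f (x + u) = ∑ x ∈ T, f x := fun u hu =>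
    sum_nbij' (· + u) (· + -u) (fun x hx => hT x hx u hu) (fun x hx => hT x hx _ (K.neg_mem hu))
      (by simp) (by simp) fun _ _ => rfl
  have h2 : ∑ u with u ∈ K, ∑ x ∈ T, f (x + u) = 0 := by
    rw [sum_comm]; exact sum_eq_zero h
  rw [sum_congr rfl fun u hu => h1 u (mem_filter.1 hu).2, sum_const, nsmul_eq_mul,
    mul_eq_zero] at h2
  exact h2.resolve_left (Nat.cast_ne_zero.2 (card_ne_zero.2 ⟨0, by simp⟩))

theorem card_coset (K : AddSubgroup α) {T : Finset α} (x₀ : α) (h : ∀ x, x ∈ T ↔ x - x₀ ∈ K) :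
    #T = #{u | u ∈ K} :=
  card_nbij' (· - x₀) (· + x₀) (fun x hx => by simpa using (h x).1 hx)
    (fun x hx => (h _).2 (by simpa using hx)) (fun _ _ => by simp) fun _ _ => by simp

end Avg

variable {F V : Type*} [Field F] [AddCommGroup V] [Module F V]

/-- maps into `A` killing `B` -/
def U (A B : Submodule F V) : AddSubgroup (End F V) where
  carrier := {φ | (∀ v, φ v ∈ A) ∧ ∀ v ∈ B, φ v = 0}
  add_mem' h h' := ⟨fun v => add_mem (h.1 v) (h'.1 v), fun v hv => by simp [h.2 v hv, h'.2 v hv]⟩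
  zero_mem' := ⟨fun _ => zero_mem _, fun _ _ => rfl⟩
  neg_mem' h := ⟨fun v => neg_mem (h.1 v), fun v hv => by simp [h.2 v hv]⟩

theorem mem_U {A B : Submodule F V} {φ : End F V} :
    φ ∈ U A B ↔ (∀ v, φ v ∈ A) ∧ ∀ v ∈ B, φ v = 0 := Iff.rfl

theorem exists_proj {X B : Submodule F V} (h : Disjoint X B) :
    ∃ pr : End F V, (∀ v, pr v ∈ X) ∧ (∀ w ∈ X, pr w = w) ∧ ∀ b ∈ B, pr b = 0 := by
  obtain ⟨C, hC, hc⟩ := h.symm.exists_isCompl
  refine ⟨X.subtype ∘ₗ X.projectionOnto C hc.symm, fun v => by simp, fun w hw => ?_,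
    fun b hb => ?_⟩
  · exact congrArg Subtype.val (projectionOnto_apply_left hc.symm ⟨w, hw⟩)
  · simpa using projectionOnto_apply_of_mem_right hc.symm (hC hb)

theorem Iv.add {g φ : End F V} {A B W : Submodule F V} (h : Iv g W) (hφ : φ ∈ U A B)
    (hA : A ≤ W) : Iv (g + φ) W := fun w hw => add_mem (h w hw) (hA (hφ.1 w))

theorem q_add {g φ : End F V} {A B : Submodule F V} (h : Iv g B) (hφ : φ ∈ U A B) (hA : A ≤ B) :
    (h.add hφ hA).q = h.q := by
  ext v; simp [(Submodule.Quotient.mk_eq_zero B).2 (hA (hφ.1 v))]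

variable [Finite V]

noncomputable instance (priority := low) fintEnd : Fintype (End F V) :=
  @Fintype.ofFinite _ (Finite.of_injective _ DFunLike.coe_injective)

theorem card_into {W B X Y : Submodule F V} {h : End F V} (hX : Disjoint X B) (hY : Disjoint Y B)
    (hYW : Y ≤ W) (h1 : ∀ w ∈ X, h w ∈ W) (h2 : ∀ w ∈ X, h w ∈ Y ⊔ B) :
    #{φ | φ ∈ U (W ⊓ B) B ∧ ∀ w ∈ X, (h + φ) w ∈ Y} = #{φ | φ ∈ U (W ⊓ B) (X ⊔ B)} := by
  obtain ⟨p, p1, p2, p3⟩ := exists_proj hX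
  obtain ⟨r, r1, r2, r3⟩ := exists_proj hY
  have h3 : (r * h - h) * p ∈ U (W ⊓ B) B := by
    refine ⟨fun v => ⟨sub_mem (hYW (r1 _)) (h1 _ (p1 v)), ?_⟩, fun v hv => by simp [p3 v hv]⟩
    obtain ⟨y, hy, b, hb, e⟩ := Submodule.mem_sup.1 (h2 _ (p1 v))
    simp [← e, r2 y hy, r3 b hb, hb]
  have h4 : ∀ w ∈ X, (h + (r * h - h) * p) w ∈ Y := fun w hw => by simp [p2 w hw, r1]
  refine card_coset _ ((r * h - h) * p) fun φ => ?_
  generalize (r * h - h) * p = φ₀ at h3 h4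
  simp only [mem_filter, mem_univ, true_and]
  refine ⟨fun ⟨hφ, h5⟩ => ⟨(sub_mem hφ h3).1, fun v hv => ?_⟩, fun hφ => ?_⟩
  · obtain ⟨x, hx, b, hb, rfl⟩ := Submodule.mem_sup.1 hv
    rw [map_add, (sub_mem hφ h3).2 b hb, add_zero]
    refine Submodule.disjoint_def.1 hY _ ?_ ((sub_mem hφ h3).1 x).2
    simpa using sub_mem (h5 x hx) (h4 x hx)
  · have h6 : φ - φ₀ ∈ U (W ⊓ B) B := ⟨hφ.1, fun v hv => hφ.2 v (mem_sup_right hv)⟩
    refine ⟨by simpa using add_mem h6 h3, fun w hw => ?_⟩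
    have := hφ.2 w (mem_sup_left hw)
    rw [LinearMap.sub_apply, sub_eq_zero] at this
    simpa [this] using h4 w hw

omit [Finite V] in
theorem sup_eq_of_map {X B : Submodule F V} {Z : Submodule F (V ⧸ B)} (h : X.map B.mkQ = Z) :
    X ⊔ B = Z.comap B.mkQ := by rw [← h, comap_map_mkQ, sup_comm]

theorem sum_lifts {g : End F V} {W B : Submodule F V} (hW : Iv g W) (hB : Iv g B)
    {Z : Submodule F (V ⧸ B)} (hZ : Z ≤ W.map B.mkQ) (hi : Iv hB.q Z) :
    ∑ X with X ≤ W ∧ Disjoint X B ∧ X.map B.mkQ = Z, #{φ | φ ∈ U (W ⊓ B) B ∧ Iv (g + φ) X} =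
      #{φ | φ ∈ U (W ⊓ B) B} := by
  obtain ⟨X₀, h1, h2⟩ := IsModularLattice.exists_disjoint_and_sup_eq
    (a := W ⊓ Z.comap B.mkQ ⊓ B) (b := W ⊓ Z.comap B.mkQ) inf_le_left
  have h3 : X₀ ≤ W ⊓ Z.comap B.mkQ := h2 ▸ le_sup_right
  have h4 : Disjoint X₀ B := Submodule.disjoint_def.2 fun x hx hb =>
    Submodule.disjoint_def.1 h1 x ⟨h3 hx, hb⟩ hx
  have h5 : X₀.map B.mkQ = Z := by
    refine le_antisymm (map_le_iff_le_comap.2 (h3.trans inf_le_right)) fun z hz => ?_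
    obtain ⟨w, hw, rfl⟩ := hZ hz
    obtain ⟨a, ha, x, hx, rfl⟩ := Submodule.mem_sup.1 (h2.ge ⟨hw, hz⟩)
    exact ⟨x, hx, by simp [(Submodule.Quotient.mk_eq_zero B).2 ha.2]⟩
  have h6 : ∀ ψ ∈ U (W ⊓ B) B, X₀.map (1 + ψ) ≤ W ∧ Disjoint (X₀.map (1 + ψ)) B ∧
      (X₀.map (1 + ψ)).map B.mkQ = Z := fun ψ hψ => by
    refine ⟨?_, Submodule.disjoint_def.2 ?_, ?_⟩
    · rintro _ ⟨x, hx, rfl⟩
      exact add_mem (h3 hx).1 (hψ.1 x).1
    · rintro _ ⟨x, hx, rfl⟩ hb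
      rw [Submodule.disjoint_def.1 h4 x hx (by simpa using sub_mem hb (hψ.1 x).2), map_zero]
    · rw [← h5, ← Submodule.map_comp]
      congr 1
      ext v; simp [(Submodule.Quotient.mk_eq_zero B).2 (hψ.1 v).2]
  rw [card_eq_sum_card_fiberwise (f := fun ψ : End F V => X₀.map (1 + ψ))
    (t := univ.filter fun X => X ≤ W ∧ Disjoint X B ∧ X.map B.mkQ = Z)
    fun ψ hψ => by simpa using h6 ψ (by simpa using hψ)]
  refine sum_congr rfl fun X hX => ?_
  obtain ⟨x1, x2, x3⟩ := (mem_filter.1 hX).2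
  have e1 := sup_eq_of_map x3
  have e2 := sup_eq_of_map h5
  refine (card_into x2 x2 x1 (fun w hw => hW w (x1 hw)) fun w hw => ?_).trans ?_
  · rw [e1]; exact hi _ (x3 ▸ mem_map_of_mem hw)
  rw [e1, ← e2, ← card_into (h := 1) h4 x2 x1 (fun w hw => (h3 hw).1)
    (fun w hw => by rw [e1, ← e2]; exact mem_sup_left hw), filter_filter]
  refine congrArg card (filter_congr fun ψ _ => and_congr_right fun hψ => ⟨fun h => ?_,
    fun h w hw => h ▸ mem_map_of_mem hw⟩)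
  have h7 : X₀.map (1 + ψ) ≤ X := by
    rintro _ ⟨x, hx, rfl⟩
    exact h x hx
  refine le_antisymm h7 fun x hx => ?_
  obtain ⟨y, hy, e⟩ := (h6 ψ hψ).2.2.ge (x3 ▸ mem_map_of_mem hx)
  rwa [← inj_of (ι := B.mkQ) (by rwa [ker_mkQ]) (h7 hy) hx e]

variable [Module.Finite F V] {S : F[X] → ℂ}

/-- additive functions on monic polynomials -/
def Ad (S : F[X] → ℂ) : Prop := ∀ a b : F[X], a.Monic → b.Monic → S (a * b) = S a + S b

theorem Ad.one (hS : Ad S) : S 1 = 0 := by simpa using hS 1 1 monic_one monic_one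

theorem cusp (hS : Ad S) (B W : Submodule F V) : ∀ g : End F V, Iv g W → Iv g B → W ⊓ B ≠ ⊥ →
    ¬ W ≤ B → ∑ φ with φ ∈ U (W ⊓ B) B, J S (g + φ) W = 0 := by
  induction W using WellFoundedLT.induction with
  | ind W ih =>
  intro g hW hB h0 h1
  have : Finite (V ⧸ B) := Finite.of_surjective _ B.mkQ_surjective
  set N : ℂ := ((#{φ | φ ∈ U (W ⊓ B) B} : ℕ) : ℂ) with hN
  let x : Submodule F V → ℂ := fun X =>
    ∑ φ with φ ∈ U (W ⊓ B) B ∧ Iv (g + φ) X, J S (g + φ) X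
  have e1 : ∑ X with X ≤ W, x X = N * (S (cp g (W ⊓ B)) + S (cp hB.q (W.map B.mkQ))) := by
    rw [hN, ← nsmul_eq_mul, ← sum_const,
      sum_comm' (t' := univ.filter (· ∈ U (W ⊓ B) B))
        (s' := fun φ => univ.filter fun X => X ≤ W ∧ Iv (g + φ) X) (by simp; tauto)]
    refine sum_congr rfl fun φ hφ => ?_
    have hφ := (mem_filter.1 hφ).2
    rw [J_sum (hW.add hφ inf_le_left), cp_mul (hW.add hφ inf_le_left) (hB.add hφ inf_le_right),
      hS _ _ (cp_monic _ _) (cp_monic _ _), q_add hB hφ inf_le_right]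
    congr 2
    simpa using cp_map (ι := LinearMap.id) (g := g + φ) (by simp) (hW.inf hB)
      fun w hw => by simp [hφ.2 w hw.2]
  have e2 : ∑ X with X ≤ W, (if X ≤ B then x X else 0) = N * S (cp g (W ⊓ B)) := by
    rw [← J_sum (S := S) (hW.inf hB), mul_sum, ← sum_filter, filter_filter, sum_filter, sum_filter]
    refine sum_congr rfl fun X _ => ?_
    by_cases hX : X ≤ W ⊓ B
    · have h2 : ∀ φ ∈ U (W ⊓ B) B, ∀ w ∈ X, (g + φ) w = g w := fun φ hφ w hw => by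
        simp [hφ.2 w (hX hw).2]
      rw [if_pos (le_inf_iff.1 hX)]
      split_ifs with h3
      · rw [hN, ← nsmul_eq_mul, ← sum_const]
        refine sum_congr (filter_congr fun φ _ => and_iff_left_of_imp fun hφ w hw => ?_)
          fun φ hφ => J_congr h3.2 (h2 φ (mem_filter.1 hφ).2)
        rw [h2 φ hφ w hw]; exact h3.2 w hw
      · refine sum_eq_zero fun φ hφ => (h3 ⟨hX, fun w hw => ?_⟩).elim
        rw [← h2 φ (mem_filter.1 hφ).2.1 w hw]; exact (mem_filter.1 hφ).2.2 w hw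
    · rw [if_neg fun h => hX (le_inf_iff.2 h), if_neg fun h => hX h.1]
  have e3 : ∑ X with X ≤ W, (if Disjoint X B then x X else 0) =
      N * S (cp hB.q (W.map B.mkQ)) := by
    have hq : Iv hB.q (W.map B.mkQ) := by
      rintro _ ⟨w, hw, rfl⟩
      exact mem_map_of_mem (hW w hw)
    rw [← J_sum (S := S) hq, mul_sum, ← sum_filter, filter_filter,
      ← sum_fiberwise_of_maps_to (g := Submodule.map B.mkQ)
        (t := univ.filter (· ≤ W.map B.mkQ)) fun X hX => by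
          simpa using map_mono (mem_filter.1 hX).2.1,
      ← filter_filter (· ≤ W.map B.mkQ) (Iv hB.q),
      sum_filter (Iv hB.q)]
    refine sum_congr rfl fun Z hZ => ?_
    have h2 : ∀ (X : Submodule F V) φ, φ ∈ U (W ⊓ B) B → ∀ w ∈ X, hB.q (B.mkQ w) = B.mkQ ((g + φ) w) :=
      fun X φ hφ w _ => by simp [(Submodule.Quotient.mk_eq_zero B).2 (hφ.1 w).2]
    split_ifs with h3
    · rw [hN, ← sum_lifts hW hB (mem_filter.1 hZ).2 h3, Nat.cast_sum, sum_mul, filter_filter]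
      refine sum_congr (filter_congr fun _ _ => and_assoc) fun X hX => ?_
      obtain ⟨-, x2, x3⟩ := (mem_filter.1 hX).2
      rw [← nsmul_eq_mul, ← sum_const]
      refine sum_congr rfl fun φ hφ => ?_
      obtain ⟨h4, h5⟩ := (mem_filter.1 hφ).2
      rw [← x3, J_map (by rwa [ker_mkQ]) h5 (h2 X φ h4)]
    · refine sum_eq_zero fun X hX => sum_eq_zero fun φ hφ => (h3 ?_).elim
      obtain ⟨h4, h5⟩ := (mem_filter.1 hφ).2
      rw [← (mem_filter.1 hX).2]
      rintro _ ⟨w, hw, rfl⟩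
      rw [h2 X φ h4 w hw]
      exact mem_map_of_mem (h5 w hw)
  have e4 : ∑ X with X ≤ W, (if X = W then x X else 0) = x W := by simp
  have e5 : ∀ X ≤ W, x X = (if X ≤ B then x X else 0) + (if Disjoint X B then x X else 0) +
      (if X = W then x X else 0) := fun X hX => by
    by_cases a0 : X = ⊥
    · have : x X = 0 := sum_eq_zero fun φ _ => by rw [a0, J_bot hS.one]
      simp [this]
    by_cases a1 : X ≤ B
    · rw [if_pos a1, if_neg fun h => a0 (h.eq_bot_of_le a1), if_neg fun h : X = W => h1 (h ▸ a1)]; simp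
    by_cases a2 : Disjoint X B
    · rw [if_neg a1, if_pos a2, if_neg fun h : X = W => h0 (h ▸ a2).eq_bot]; simp
    by_cases a3 : X = W
    · simp [a1, a2, if_pos a3]
    rw [if_neg a1, if_neg a2, if_neg a3, add_zero, add_zero]
    refine sum_avg (U (X ⊓ B) B) (fun φ hφ ψ hψ => ?_) fun φ hφ => ?_
    · simp only [mem_filter, mem_univ, true_and] at hφ ⊢
      exact ⟨add_mem hφ.1 ⟨fun v => ⟨hX (hψ.1 v).1, (hψ.1 v).2⟩, hψ.2⟩,
        add_assoc g φ ψ ▸ hφ.2.add hψ inf_le_left⟩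
    · simp only [mem_filter, mem_univ, true_and, ← add_assoc] at hφ ⊢
      exact ih X (lt_of_le_of_ne hX a3) _ hφ.2 (hB.add hφ.1 inf_le_right)
        (fun h => a2 (disjoint_iff.2 h)) a1
  rw [sum_congr rfl fun X hX => e5 X (mem_filter.1 hX).2, sum_add_distrib, sum_add_distrib,
    e2, e3, e4, mul_add, add_eq_left] at e1
  rw [← e1]
  exact sum_congr (filter_congr fun φ _ => (and_iff_left_of_imp fun hφ =>
    hW.add hφ inf_le_left).symm) fun _ _ => rfl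

/-- weighted form of cuspidality -/
theorem cusp_wt (hS : Ad S) {B : Submodule F V} (h0 : B ≠ ⊥) (h1 : B ≠ ⊤) {T : Finset (End F V)}
    {w : End F V → ℂ} (hT : ∀ g ∈ T, Iv g B) (hU : ∀ g ∈ T, ∀ φ ∈ U B B, g + φ ∈ T)
    (hw : ∀ g ∈ T, ∀ φ ∈ U B B, w (g + φ) = w g) : ∑ g ∈ T, J S g ⊤ * w g = 0 := by
  refine sum_avg (U B B) hU fun g hg => ?_
  rw [sum_congr rfl fun φ hφ => by rw [hw g hg φ (mem_filter.1 hφ).2], ← sum_mul]
  have := cusp hS B ⊤ g (iv_top g) (hT g hg) (by simpa) (by simpa)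
  rw [top_inf_eq] at this
  rw [this, zero_mul]

end H6.GC
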