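import Cfsg.Agent.H6.GC3

/-! The Möbius inverse of the Brauer lift is a generalized character; its degree. -/

open Cfsg Polynomial Module Finset H5 Submodule MulAction
open scoped Classical TensorProduct

namespace H6.GC

theorem gen_sum_fixed {G X : Type*} [Group G] [Finite G] [MulAction G X] [Fintype X]
    {f : X → G → ℂ} (h0 : ∀ x g, g • x ≠ x → f x g = 0)
    (h1 : ∀ x g h, f (h • x) (h * g * h⁻¹) = f x g)
    (h2 : ∀ x, IsGeneralizedCharacter (stabilizer G x) fun s => f x s) :
    IsGeneralizedCharacter G fun g => ∑ x, f x g := by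
  have := Fintype.ofFinite G
  have := Fintype.ofFinite (orbitRel.Quotient G X)
  convert isGeneralizedCharacter_sum (univ : Finset (orbitRel.Quotient G X)) _
    fun ω _ => (h2 ω.out).ind using 1
  ext g
  rw [Finset.sum_apply, ← sum_fiberwise univ (Quotient.mk (orbitRel G X))]
  refine sum_congr rfl fun ω _ => ?_
  rw [indFun_apply_eq_sum_quotient _ (h2 _).isClassFunction]
  refine (sum_bij (fun q _ => q.out • ω.out) (fun q _ => ?_) (fun q _ q' _ e => ?_)
    (fun x hx => ?_) fun q _ => ?_).symm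
  · rw [mem_filter]
    refine ⟨mem_univ _, ?_⟩
    rw [Quotient.mk_eq_iff_out]
    exact ⟨_, rfl⟩
  · rw [← q.out_eq, ← q'.out_eq]
    refine QuotientGroup.eq.2 ?_
    rw [mem_stabilizer_iff, mul_smul, ← e, inv_smul_smul]
  · obtain ⟨h, hh⟩ := Quotient.mk_eq_iff_out.1 (mem_filter.1 hx).2
    obtain ⟨s, hs⟩ := QuotientGroup.mk_out_eq_mul (stabilizer G ω.out) h
    exact ⟨h, mem_univ _, by rw [hs, mul_smul, s.2]; exact hh⟩
  · rw [extendByZero_apply, show f (q.out • ω.out) g = f ω.out (q.out⁻¹ * g * q.out) by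
      rw [← h1 ω.out _ q.out]; congr 1; group]
    split_ifs with h
    · rfl
    · exact (h0 _ _ h).symm

variable {F V K : Type*} [Field F] [AddCommGroup V] [Module F V] [Module.Finite F V]
  [Field K] [Algebra F K]

/-- sum of `θ` over the roots in `K` -/
noncomputable def Sg (θ : K →*₀ ℂ) (P : F[X]) : ℂ := rs θ (P.map (algebraMap F K))

theorem ad_Sg (θ : K →*₀ ℂ) : Ad (Sg (F := F) θ) := fun a b ha hb => by
  rw [Sg, Polynomial.map_mul, rs_mul θ (ha.map _).ne_zero (hb.map _).ne_zero]; rfl

section Gen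

variable [Fintype K] {θ : K →*₀ ℂ} {p : ℕ} [Fact p.Prime] [CharP K p]

theorem gen_Sg (hθ : Function.Injective θ) {G : Type*} [Group G] [Finite G] (ρ : G →* End F V)
    (hg : ∀ g : G, ¬ p ∣ orderOf g → orderOf g ∣ Fintype.card K - 1) :
    IsGeneralizedCharacter G fun g => Sg θ (ρ g).charpoly := by
  let ρ' : G →* End K (K ⊗[F] V) :=
    { toFun := fun g => (ρ g).baseChange K
      map_one' := by rw [map_one, LinearMap.baseChange_one]
      map_mul' := fun g h => by rw [map_mul, LinearMap.baseChange_mul] }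
  convert gen_rs hθ ρ' hg using 2 with g
  exact congrArg (rs θ) (LinearMap.charpoly_baseChange _ K).symm

theorem gen_J [Finite V] (hθ : Function.Injective θ) (W : Submodule F V) :
    ∀ (G : Type*) [Group G] [Finite G] (ρ : G →* End F V),
      (∀ g : G, ¬ p ∣ orderOf g → orderOf g ∣ Fintype.card K - 1) → (∀ g, Iv (ρ g) W) →
        IsGeneralizedCharacter G fun g => J (Sg θ) (ρ g) W := by
  induction W using WellFoundedLT.induction with
  | ind W ih =>
  intro G _ _ ρ hg hW
  let ρ' : G →* End F W :=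
    { toFun := fun g => (hW g).r
      map_one' := by ext; simp
      map_mul' := fun g h => by ext; simp }
  let _ : MulAction G (Submodule F V) :=
    { smul := fun g A => A.map (ρ g)
      one_smul := fun A => by
        change Submodule.map (ρ 1) A = A; rw [map_one]; exact A.map_id
      mul_smul := fun g h A => by
        change Submodule.map (ρ (g * h)) A = Submodule.map (ρ g) (Submodule.map (ρ h) A)
        rw [map_mul]; exact Submodule.map_comp _ _ _ }
  have hs : ∀ g (A : Submodule F V), g • A = A.map (ρ g) := fun _ _ => rfl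
  have hi : ∀ g, Function.Injective (ρ g) := fun g a b e => by
    have := congrArg (ρ g⁻¹) e
    rwa [← End.mul_apply, ← End.mul_apply, ← map_mul, inv_mul_cancel, map_one] at this
  have h1 : ∀ g (A : Submodule F V), Iv (ρ g) A ↔ g • A = A := fun g A =>
    ⟨fun h => eq_of_le_of_finrank_eq (map_le_iff_le_comap.2 h)
      (A.equivMapOfInjective _ (hi g)).finrank_eq.symm,
      fun h a ha => h ▸ (mem_map_of_mem ha : ρ g a ∈ g • A)⟩
  have h2 : ∀ h (A : Submodule F V), h • A < W ↔ A < W := fun h A => by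
    conv_lhs => rw [← (h1 h W).1 (hW h)]
    exact map_lt_map_iff_of_injective (hi h)
  have h3 := gen_sum_fixed (G := G) (f := fun (A : Submodule F V) g =>
    if A < W ∧ Iv (ρ g) A then J (Sg θ) (ρ g) A else 0)
    (fun A g h => if_neg fun h' => h ((h1 g A).1 h'.2)) (fun A g h => ?_) fun A => ?_
  · convert (gen_Sg hθ ρ' hg).sub h3 using 2 with g
    rw [J_eq, Pi.sub_apply, sum_filter, cp_eq (hW g)]; rfl
  · have h4 : Iv (ρ (h * g * h⁻¹)) (h • A) ↔ Iv (ρ g) A := by
      rw [h1, h1, mul_smul, inv_smul_smul, mul_smul, smul_left_cancel_iff]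
    simp only [h2, h4]
    split_ifs with h5
    · refine J_map (by simp [LinearMap.ker_eq_bot.2 (hi h)]) h5.2 fun w _ => ?_
      rw [← End.mul_apply, ← End.mul_apply, ← map_mul, ← map_mul, inv_mul_cancel_right]
    · rfl
  · by_cases h4 : A < W
    · convert ih A h4 _ (ρ.comp (stabilizer G A).subtype) (fun g => by simpa using hg g)
        (fun g => (h1 _ _).2 g.2) using 2 with g
      exact if_pos ⟨h4, (h1 _ _).2 g.2⟩
    · simp only [h4, false_and, if_false]; exact isGeneralizedCharacter_zero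

end Gen

variable [Finite V]

theorem pascal [Fintype F] {H : Submodule F V} {v : V} (hv : v ∉ H) (f : ℕ → ℂ) :
    ∑ W with W ≤ H ⊔ F ∙ v, f (finrank F W) = ∑ W with W ≤ H, f (finrank F W) +
      ∑ W with W ≤ H, (Fintype.card F : ℂ) ^ finrank F H / Fintype.card F ^ finrank F W *
        f (finrank F W + 1) := by
  have := Fintype.ofFinite V
  have hc : ∀ W : Submodule F V, (#{x | x ∈ W} : ℂ) = (Fintype.card F : ℂ) ^ finrank F W :=
    fun W => by
      rw [← Nat.cast_pow, ← Nat.card_eq_fintype_card, ← Module.natCard_eq_pow_finrank,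
        Nat.card_eq_fintype_card, Fintype.card_subtype]
  have hq : ∀ n : ℕ, (Fintype.card F : ℂ) ^ n ≠ 0 := fun n => by simp
  have h1 : ∀ A ≤ H, ∀ h ∈ H, (A ⊔ F ∙ (v + h)) ⊓ H = A := fun A hA h hh => by
    rw [sup_inf_assoc_of_le _ hA, disjoint_iff.1 ((disjoint_span_singleton_of_notMem
      fun e => hv (by simpa using sub_mem e hh)).symm), sup_bot_eq]
  have h2 : ∀ A ≤ H, ∀ h ∈ H, finrank F ↥(A ⊔ F ∙ (v + h)) = finrank F A + 1 := fun A hA h hh =>
    finrank_sup_span_singleton fun e => hv (by simpa using sub_mem (hA e) hh)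
  have h3 : ∀ W ≤ H ⊔ F ∙ v, ∀ h ∈ H, v + h ∈ W → W ⊓ H ⊔ F ∙ (v + h) = W := fun W hW h hh e => by
    rw [inf_sup_assoc_of_le _ ((span_singleton_le_iff_mem _ _).2 e), inf_eq_left]
    refine hW.trans (sup_le le_sup_left ((span_singleton_le_iff_mem _ _).2 ?_))
    simpa using sub_mem (mem_sup_right (mem_span_singleton_self (v + h))) (mem_sup_left hh)
  rw [← sum_filter_add_sum_filter_not _ (· ≤ H), filter_filter, filter_filter]
  congr 1
  · exact sum_congr (filter_congr fun W _ => and_iff_right_of_imp (·.trans le_sup_left))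
      fun _ _ => rfl
  have e1 : ∀ W ≤ H ⊔ F ∙ v, ¬ W ≤ H → #{h | h ∈ H ∧ v + h ∈ W} = #{x | x ∈ W ⊓ H} :=
    fun W hW hn => by
      obtain ⟨w, hw, hw'⟩ := SetLike.not_le_iff_exists.1 hn
      obtain ⟨h, hh, y, hy, rfl⟩ := Submodule.mem_sup.1 (hW hw)
      obtain ⟨c, rfl⟩ := mem_span_singleton.1 hy
      have hc0 : c ≠ 0 := fun e => hw' (by simpa [e] using hh)
      have h4 : v + c⁻¹ • h ∈ W := by
        simpa [smul_smul, hc0, add_comm] using W.smul_mem c⁻¹ hw
      refine card_coset (W ⊓ H).toAddSubgroup (c⁻¹ • h) fun x => ?_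
      simp only [mem_filter, mem_univ, true_and, mem_toAddSubgroup, Submodule.mem_inf]
      exact ⟨fun e => ⟨by simpa using sub_mem e.2 h4, sub_mem e.1 (H.smul_mem _ hh)⟩, fun e =>
        ⟨by simpa using add_mem e.2 (H.smul_mem c⁻¹ hh), by
          convert add_mem h4 e.1 using 1; abel⟩⟩
  calc _ = ∑ W with W ≤ H ⊔ F ∙ v ∧ ¬ W ≤ H, ∑ h with h ∈ H ∧ v + h ∈ W,
        f (finrank F W) / Fintype.card F ^ finrank F ↥(W ⊓ H) := sum_congr rfl fun W hW => by
        rw [sum_const, nsmul_eq_mul, e1 W (mem_filter.1 hW).2.1 (mem_filter.1 hW).2.2, hc,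
          mul_div_cancel₀ _ (hq _)]
    _ = ∑ A with A ≤ H, ∑ h with h ∈ H, f (finrank F A + 1) / Fintype.card F ^ finrank F A := by
        rw [sum_sigma', sum_sigma']
        refine sum_nbij' (fun x => ⟨x.1 ⊓ H, x.2⟩) (fun x => ⟨x.1 ⊔ F ∙ (v + x.2), x.2⟩)
          ?_ ?_ ?_ ?_ ?_
        · simp +contextual
        · rintro ⟨A, h⟩ hx
          simp only [mem_sigma, mem_filter, mem_univ, true_and] at hx ⊢
          refine ⟨⟨sup_le (hx.1.trans le_sup_left) ((span_singleton_le_iff_mem _ _).2
            (add_mem (mem_sup_right (mem_span_singleton_self v)) (mem_sup_left hx.2))),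
            fun e => hv ?_⟩, hx.2, mem_sup_right (mem_span_singleton_self _)⟩
          simpa using sub_mem (e (mem_sup_right (mem_span_singleton_self _))) hx.2
        · rintro ⟨W, h⟩ hx
          simp only [mem_sigma, mem_filter, mem_univ, true_and] at hx ⊢
          rw [h3 W hx.1.1 h hx.2.1 hx.2.2]
        · rintro ⟨A, h⟩ hx
          simp only [mem_sigma, mem_filter, mem_univ, true_and] at hx ⊢
          rw [h1 A hx.1 h hx.2]
        · rintro ⟨W, h⟩ hx
          simp only [mem_sigma, mem_filter, mem_univ, true_and] at hx ⊢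
          rw [← h2 _ inf_le_right h hx.2.1, h3 W hx.1.1 h hx.2.1 hx.2.2]
    _ = _ := sum_congr rfl fun A _ => by rw [sum_const, nsmul_eq_mul, hc]; ring

omit [Finite V] in
theorem ind_sup {P : Submodule F V → Prop} (h0 : P ⊥)
    (h : ∀ H v, v ∉ H → P H → P (H ⊔ F ∙ v)) (W : Submodule F V) : P W := by
  obtain ⟨s, rfl⟩ := (IsNoetherian.noetherian W : W.FG)
  induction s using Finset.induction_on with
  | empty => simpa using h0
  | insert v s _ ih =>
    rw [coe_insert, span_insert, sup_comm]
    by_cases hv : v ∈ span F (s : Set V)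
    · rwa [sup_eq_left.2 ((span_singleton_le_iff_mem _ _).2 hv)]
    · exact h _ v hv ih

theorem sum_pp' [Fintype F] (W : Submodule F V) : ∀ x : ℂ,
    ∑ A with A ≤ W, ∏ i ∈ range (finrank F A), (x - (Fintype.card F : ℂ) ^ i) = x ^ finrank F W := by
  have hq : (Fintype.card F : ℂ) ≠ 0 := by simp
  induction W using ind_sup with
  | h0 => simp [filter_eq']
  | h H v hv ih =>
  intro x
  rw [pascal hv fun n => ∏ i ∈ range n, (x - (Fintype.card F : ℂ) ^ i), ih,
    finrank_sup_span_singleton hv, sum_congr rfl (g := fun A : Submodule F V =>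
      (Fintype.card F : ℂ) ^ finrank F H *
      (x - 1) * ∏ i ∈ range (finrank F A), (x / Fintype.card F - (Fintype.card F : ℂ) ^ i))
      fun A _ => ?_, ← mul_sum, ih, div_pow]
  · field_simp; ring
  · rw [prod_range_succ', prod_congr rfl (g := fun i => Fintype.card F *
      (x / Fintype.card F - (Fintype.card F : ℂ) ^ i)) fun i _ => by field_simp; ring,
      prod_mul_distrib, prod_const, card_range]
    field_simp

/-- degree of the cuspidal function -/
noncomputable def dg (q : ℂ) (n : ℕ) : ℂ := if n = 0 then 0 else ∏ i ∈ Ico 1 n, (1 - q ^ i)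

theorem sum_dg [Fintype F] (W : Submodule F V) :
    ∑ A with A ≤ W, dg (Fintype.card F) (finrank F A) = finrank F W := by
  have hq : (Fintype.card F : ℂ) ≠ 0 := by simp
  induction W using ind_sup with
  | h0 => simp [filter_eq', dg]
  | h H v hv ih =>
  rw [pascal hv, ih, finrank_sup_span_singleton hv, sum_congr rfl
    (g := fun A : Submodule F V => (Fintype.card F : ℂ) ^ finrank F H *
      ∏ i ∈ range (finrank F A), ((Fintype.card F : ℂ)⁻¹ - (Fintype.card F : ℂ) ^ i))
      fun A _ => ?_, ← mul_sum, sum_pp']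
  · simp [hq]
  · rw [dg, if_neg (Nat.succ_ne_zero _), prod_Ico_eq_prod_range, Nat.add_sub_cancel,
      prod_congr rfl (g := fun i => Fintype.card F *
      ((Fintype.card F : ℂ)⁻¹ - (Fintype.card F : ℂ) ^ i)) fun i _ => by field_simp; ring,
      prod_mul_distrib, prod_const, card_range]
    field_simp

theorem J_one [Fintype F] {S : F[X] → ℂ} (hS : Ad S) (W : Submodule F V) :
    J S 1 W = dg (Fintype.card F) (finrank F W) * S (X - 1) := by
  refine mob_unique (c := W) (f := fun A : Submodule F V => dg (Fintype.card F) (finrank F A) * S (X - 1))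
    (fun A _ hA => ?_) W le_rfl fun _ h => h
  have h1 : ∀ n : ℕ, S ((X - 1) ^ n) = n * S (X - 1) := fun n => by
    have hm : (X - 1 : F[X]).Monic := monic_X_sub_C 1
    induction n with
    | zero => simp [hS.one]
    | succ n ih => rw [pow_succ, hS _ _ (hm.pow n) hm, ih]; push_cast; ring
  rw [← sum_mul, cp_eq hA, show hA.r = 1 from rfl, LinearMap.charpoly_one, h1, ← sum_dg]
  congr 2
  exact filter_congr fun B _ => and_iff_left fun _ h => h

end H6.GC
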