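import Cfsg.Agent.H6.GC4
import Cfsg.Agent.H27.Spec1

/-! Values on cyclic endomorphisms and inner products of the cuspidal functions. -/

open Cfsg Polynomial Module Finset H5 Submodule
open scoped Classical ComplexConjugate

namespace H6.GC

variable {F V V' : Type*} [Field F] [AddCommGroup V] [Module F V] [AddCommGroup V'] [Module F V']

theorem aeval_comm {g : End F V} {g' : End F V'} {ι : V' →ₗ[F] V} (h : ∀ w, g (ι w) = ι (g' w))
    (p : F[X]) : ∀ w, aeval g p (ι w) = ι (aeval g' p w) := by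
  induction p using Polynomial.induction_on with
  | C a => simp
  | add p q hp hq => intro w; simp [hp, hq]
  | monomial n a ih =>
    intro w
    rw [pow_succ, ← mul_assoc, map_mul _ _ X, map_mul _ _ X, End.mul_apply, End.mul_apply, aeval_X,
      aeval_X, h, ih]

/-- evaluation of polynomials in `g` at `v` -/
noncomputable def ev (g : End F V) (v : V) : F[X] →ₗ[F] V :=
  LinearMap.applyₗ v ∘ₗ (aeval g).toLinearMap

theorem ev_apply (g : End F V) (v : V) (p : F[X]) : ev g v p = aeval g p v := rfl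

/-- cyclic subspace -/
noncomputable def cyc (g : End F V) (v : V) : Submodule F V := LinearMap.range (ev g v)

theorem mem_cyc {g : End F V} {v w : V} : w ∈ cyc g v ↔ ∃ p : F[X], aeval g p v = w := Iff.rfl

theorem self_mem_cyc (g : End F V) (v : V) : v ∈ cyc g v := ⟨1, by simp [ev_apply]⟩

theorem iv_cyc (g : End F V) (v : V) : Iv g (cyc g v) := by
  rintro _ ⟨p, rfl⟩
  exact ⟨X * p, by simp [ev_apply]⟩

theorem Iv.aeval {g : End F V} {W : Submodule F V} (h : Iv g W) (p : F[X]) {w : V} (hw : w ∈ W) :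
    aeval g p w ∈ W := by
  have := aeval_comm (ι := W.subtype) (g := g) (g' := h.r) (fun _ => rfl) p ⟨w, hw⟩
  exact this ▸ Submodule.coe_mem _

theorem cyc_congr {g g' : End F V} {v : V} (h : ∀ w ∈ cyc g v, g' w = g w) :
    cyc g' v = cyc g v := by
  have : ev g' v = ev g v := LinearMap.ext fun p =>
    (aeval_comm (ι := (cyc g v).subtype) (g' := (iv_cyc g v).r) (fun w => h w w.2) p
      ⟨v, self_mem_cyc g v⟩).trans
    (aeval_comm (ι := (cyc g v).subtype) (g' := (iv_cyc g v).r) (fun _ => rfl) p _).symm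
  rw [cyc, this, cyc]

/-- `d` is the monic annihilator of `v` -/
def CD (g : End F V) (v : V) (d : F[X]) : Prop := d.Monic ∧ ∀ p, aeval g p v = 0 ↔ d ∣ p

theorem exists_gen {g : End F V} {v : V} {B : Submodule F V} (hB : Iv g B) {d : F[X]} (hd : d ≠ 0)
    (h : aeval g d v ∈ B) : ∃ e : F[X], e.Monic ∧ ∀ p, aeval g p v ∈ B ↔ e ∣ p := by
  let I : Ideal F[X] :=
    { carrier := {p | aeval g p v ∈ B}
      add_mem' := fun h h' => by simpa using add_mem h h'
      zero_mem' := by simp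
      smul_mem' := fun c p hp => by simpa using hB.aeval c hp }
  have h1 : ∀ p, aeval g p v ∈ B ↔ IsPrincipal.generator I ∣ p := fun p =>
    IsPrincipal.mem_iff_generator_dvd I
  refine ⟨normalize (IsPrincipal.generator I), monic_normalize fun e => hd ?_, fun p => by
    rw [h1, normalize_dvd_iff]⟩
  simpa [e] using (h1 d).1 h

theorem CD.finrank {g : End F V} {v : V} {d : F[X]} (h : CD g v d) :
    finrank F (cyc g v) = d.natDegree := by
  have h1 : LinearMap.ker (ev g v) = (Ideal.span {d}).restrictScalars F := by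
    ext p; simp [ev_apply, h.2, Ideal.mem_span_singleton]
  rw [cyc, ← (ev g v).quotKerEquivRange.finrank_eq, (quotEquivOfEq _ _ h1).finrank_eq,
    (Submodule.Quotient.restrictScalarsEquiv F _).finrank_eq, finrank_quotient_span_eq_natDegree]

theorem CD.mul {g : End F V} {v : V} {e d : F[X]} (h : CD g v (e * d)) (he : e.Monic) :
    CD g (aeval g e v) d := ⟨he.of_mul_monic_left h.1, fun p => by
  rw [← End.mul_apply, ← map_mul, h.2, mul_comm p, mul_dvd_mul_iff_left he.ne_zero]⟩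

theorem CD.exists_equiv {g : End F V} {g' : End F V'} {v : V} {v' : V'} {d : F[X]} (h : CD g v d)
    (h' : CD g' v' d) (hc : cyc g v = ⊤) (hc' : cyc g' v' = ⊤) :
    ∃ e : V ≃ₗ[F] V', e v = v' ∧ ∀ w, e (g w) = g' (e w) := by
  have h1 : LinearMap.ker (ev g v) = LinearMap.ker (ev g' v') := by
    ext p; simp [ev_apply, h.2, h'.2]
  have s := LinearMap.range_eq_top.1 hc
  have s' := LinearMap.range_eq_top.1 hc'
  let e := ((ev g v).quotKerEquivOfSurjective s).symm ≪≫ₗ quotEquivOfEq _ _ h1 ≪≫ₗ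
    (ev g' v').quotKerEquivOfSurjective s'
  have h2 : ∀ p : F[X], e (aeval g p v) = aeval g' p v' := fun p => by
    simp only [e, ← ev_apply, LinearEquiv.trans_apply,
      LinearMap.quotKerEquivOfSurjective_symm_apply]
    rfl
  refine ⟨e, by simpa using h2 1, fun w => ?_⟩
  obtain ⟨p, rfl⟩ := s w
  have := h2 (X * p)
  rw [map_mul, map_mul, End.mul_apply, End.mul_apply, aeval_X, aeval_X] at this
  rw [ev_apply, this, h2]

variable [Module.Finite F V]

theorem exists_CD (g : End F V) (v : V) : ∃ d, CD g v d := by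
  simpa [CD] using exists_gen (v := v) (iv_bot g) g.charpoly_monic.ne_zero
    (by simp [g.aeval_self_charpoly])

theorem CD.cp {g : End F V} {v : V} {d : F[X]} (h : CD g v d) : cp g (cyc g v) = d := by
  refine (eq_of_monic_of_dvd_of_natDegree_le h.1 (cp_monic _ _) ((h.2 _).1 ?_)
    (by rw [cp_natDegree (iv_cyc g v), h.finrank]))
  rw [cp_eq (iv_cyc g v)]
  have := aeval_comm (ι := (cyc g v).subtype) (g := g) (g' := (iv_cyc g v).r) (fun _ => rfl)
    (iv_cyc g v).r.charpoly ⟨v, self_mem_cyc g v⟩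
  simpa [LinearMap.aeval_self_charpoly] using this

theorem CD.struct {g : End F V} {v : V} {d : F[X]} (h : CD g v d) {B : Submodule F V}
    (hB : Iv g B) (h1 : B ≤ cyc g v) :
    ∃ e : F[X], e.Monic ∧ e * GC.cp g B = d ∧ B = cyc g (aeval g e v) := by
  obtain ⟨e, he, h2⟩ := exists_gen (v := v) hB h.1.ne_zero (by simp [(h.2 d).2])
  obtain ⟨c, rfl⟩ := (h2 d).1 (by simp [(h.2 d).2])
  have h3 : B = cyc g (aeval g e v) := by
    refine le_antisymm (fun b hb => ?_) ?_
    · obtain ⟨p, rfl⟩ := h1 hb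
      obtain ⟨r, rfl⟩ := (h2 p).1 hb
      exact ⟨r, by simp [ev_apply, mul_comm e]⟩
    · rintro _ ⟨p, rfl⟩
      exact hB.aeval p ((h2 e).2 dvd_rfl)
  exact ⟨e, he, by rw [h3, (h.mul he).cp], h3⟩

theorem cd_of_top {g : End F V} {v : V} (h : cyc g v = ⊤) : CD g v g.charpoly := by
  obtain ⟨d, hd⟩ := exists_CD g v
  rwa [← cp_top, ← h, hd.cp]

theorem exists_cyc {d : F[X]} (hd : d.Monic) (h : d.natDegree = finrank F V) :
    ∃ (g : End F V) (v : V), g.charpoly = d ∧ cyc g v = ⊤ := by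
  have := hd.finite_adjoinRoot
  obtain ⟨e⟩ : Nonempty (AdjoinRoot d ≃ₗ[F] V) := FiniteDimensional.nonempty_linearEquiv_of_finrank_eq
    (by rw [← h]; exact finrank_quotient_span_eq_natDegree)
  let r : End F (AdjoinRoot d) := Algebra.lmul F _ (AdjoinRoot.root d)
  have h1 : ∀ p, aeval (e.conj r) p (e 1) = e (AdjoinRoot.mk d p) := fun p => by
    refine (aeval_comm (ι := e.toLinearMap) (g' := r) (fun w => by
      simp [LinearEquiv.conj_apply]) p 1).trans ?_
    rw [aeval_algHom_apply]; simp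
  have h2 : cyc (e.conj r) (e 1) = ⊤ := eq_top_iff.2 fun w _ => by
    obtain ⟨x, rfl⟩ := e.surjective w
    obtain ⟨p, rfl⟩ := AdjoinRoot.mk_surjective x
    exact ⟨p, h1 p⟩
  refine ⟨_, _, ?_, h2⟩
  rw [← cp_top, ← h2]
  exact CD.cp ⟨hd, fun p => by simp [h1]⟩

variable [Finite V] {K : Type*} [Field K] [Algebra F K] [Fintype K] [Finite F]

/-- value on cyclic endomorphisms -/
noncomputable def jj (θ : K →*₀ ℂ) (d : F[X]) : ℂ :=
  ∑ x with ∃ m, d = minpoly F x ^ (m + 1), θ x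

omit [Fintype K] in
theorem pow_dvd_iff [Algebra.IsAlgebraic F K] (x : K) {d : F[X]} (hd : d ≠ 0) (m : ℕ) :
    minpoly F x ^ m ∣ d ↔ m ≤ H27.Sp.mu x d := by
  have hi := minpoly.irreducible (H27.Sp.integ (F := F) x)
  have h1 := H27.Sp.mu_sep (H27.Sp.sep_minpoly (F := F) x) (minpoly.aeval F x)
  constructor
  · rintro ⟨c, rfl⟩
    rw [H27.Sp.mu_mul x (left_ne_zero_of_mul hd) (right_ne_zero_of_mul hd),
      H27.Sp.mu_pow x hi.ne_zero, h1]
    omega
  · obtain ⟨j, c, hc, rfl⟩ := WfDvdMonoid.max_power_factor hd hi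
    rw [H27.Sp.mu_mul x (left_ne_zero_of_mul hd) (right_ne_zero_of_mul hd),
      H27.Sp.mu_pow x hi.ne_zero, h1, H27.Sp.mu_eq_zero fun e => hc (minpoly.dvd F x e)]
    exact fun h => (pow_dvd_pow _ (by omega)).mul_right _

theorem CD.sum_jj (θ : K →*₀ ℂ) {g : End F V} {v : V} {d : F[X]} (h : CD g v d) :
    ∑ B with B ≤ cyc g v ∧ Iv g B, jj θ (GC.cp g B) = Sg θ d := by
  simp only [jj]
  rw [sum_comm' (t' := univ) (s' := fun x : K => univ.filter fun B => (B ≤ cyc g v ∧ Iv g B) ∧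
    ∃ m, GC.cp g B = minpoly F x ^ (m + 1)) (by simp), Sg, rs_eq_sum]
  refine sum_congr rfl fun x _ => ?_
  rw [sum_const, nsmul_eq_mul]
  congr 2
  have hm := minpoly.monic (H27.Sp.integ (F := F) x)
  have h1 : ∀ m < H27.Sp.mu x d, ∃ e : F[X], e.Monic ∧ d = e * minpoly F x ^ (m + 1) :=
    fun m hm' => by
      obtain ⟨e, he⟩ := (pow_dvd_iff x h.1.ne_zero (m + 1)).2 hm'
      exact ⟨e, (hm.pow _).of_mul_monic_left (he ▸ h.1), by rw [he, mul_comm]⟩
  choose e he he' using h1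
  have h2 : ∀ m hm', GC.cp g (cyc g (aeval g (e m hm') v)) = minpoly F x ^ (m + 1) :=
    fun m hm' => (CD.mul (he' m hm' ▸ h) (he m hm')).cp
  rw [← card_range (rootMultiplicity _ _)]
  refine (card_bij (fun m hm' => cyc g (aeval g (e m (mem_range.1 hm')) v)) (fun m hm' => ?_)
    (fun m hm' k hk e1 => ?_) fun B hB => ?_).symm
  · simp only [mem_filter, mem_univ, true_and]
    refine ⟨⟨?_, iv_cyc _ _⟩, m, h2 _ _⟩
    rintro _ ⟨p, rfl⟩
    exact (iv_cyc g v).aeval p ⟨_, rfl⟩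
  · have := congrArg (fun B => (GC.cp g B).natDegree) e1
    simp only [h2, hm.natDegree_pow] at this
    have h3 := minpoly.natDegree_pos (H27.Sp.integ (F := F) x)
    simpa [h3.ne'] using this
  · obtain ⟨⟨b1, b2⟩, m, b3⟩ := (mem_filter.1 hB).2
    obtain ⟨c, -, c2, rfl⟩ := h.struct b2 b1
    rw [b3] at c2
    have h3 : m < H27.Sp.mu x d := (pow_dvd_iff x h.1.ne_zero (m + 1)).1 ⟨c, by rw [← c2, mul_comm]⟩
    refine ⟨m, mem_range.2 h3, ?_⟩
    rw [mul_right_cancel₀ (hm.pow _).ne_zero (c2.trans (he' m h3))]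

theorem J_cyc (θ : K →*₀ ℂ) (g : End F V) (v : V) :
    J (Sg θ) g (cyc g v) = jj θ (cp g (cyc g v)) := by
  refine mob_unique (c := cyc g v) (f := fun B => jj θ (cp g B)) (fun A hA h1 => ?_) _ le_rfl
    (iv_cyc g v)
  obtain ⟨d, hd⟩ := exists_CD g v
  obtain ⟨e, he, rfl, h2⟩ := hd.struct h1 hA
  have h3 := (hd.mul he).sum_jj θ
  rwa [← h2] at h3

omit [Finite F] in
theorem card_cyc {d : F[X]} (hd : d.Monic) (h : d.natDegree = finrank F V) {s : Finset V}
    (hs : ∀ v, v ∈ s) : ∑ v ∈ s, #{g : End F V | g.charpoly = d ∧ cyc g v = ⊤} = #{g : End F V | IsUnit g} := by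
  obtain ⟨g₀, v₀, rfl, h0⟩ := exists_cyc hd h
  rw [← card_sigma]
  refine (card_bij (fun u _ => ⟨u v₀, u * g₀ * Ring.inverse u⟩) (fun u hu => ?_)
    (fun u hu u' hu' e => ?_) fun x hx => ?_).symm
  · obtain ⟨u, rfl⟩ := (mem_filter.1 hu).2
    simp only [mem_sigma, mem_filter, mem_univ, hs, true_and, Ring.inverse_unit]
    have h1 : ∀ w, ((u : End F V) * g₀ * (u⁻¹ :)) ((u : End F V) w) = (u : End F V) (g₀ w) :=
      fun w => by rw [← End.mul_apply, Units.inv_mul_cancel_right, End.mul_apply]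
    refine ⟨charpoly_eq_of_equiv (LinearMap.GeneralLinearGroup.toLinearEquiv u) h1,
      eq_top_iff.2 fun w _ => ?_⟩
    obtain ⟨w, rfl⟩ := (LinearMap.GeneralLinearGroup.toLinearEquiv u).surjective w
    obtain ⟨p, rfl⟩ := h0.ge (mem_top (x := w))
    exact ⟨p, aeval_comm h1 p v₀⟩
  · obtain ⟨u, rfl⟩ := (mem_filter.1 hu).2
    obtain ⟨u', rfl⟩ := (mem_filter.1 hu').2
    simp only [Ring.inverse_unit, Sigma.mk.injEq, heq_eq_eq] at e
    ext w
    obtain ⟨p, rfl⟩ := h0.ge (mem_top (x := w))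
    have h1 : ∀ u : (End F V)ˣ, ∀ w, ((u : End F V) * g₀ * (u⁻¹ :)) ((u : End F V) w) =
        (u : End F V) (g₀ w) :=
      fun u w => by rw [← End.mul_apply, Units.inv_mul_cancel_right, End.mul_apply]
    rw [ev_apply, ← aeval_comm (h1 u), ← aeval_comm (h1 u'), e.1, e.2]
  · obtain ⟨v, g⟩ := x
    simp only [mem_sigma, mem_filter, mem_univ, hs, true_and] at hx
    obtain ⟨e, e1, e2⟩ := (cd_of_top h0).exists_equiv (hx.1 ▸ cd_of_top hx.2) h0 hx.2
    let u := LinearMap.GeneralLinearGroup.ofLinearEquiv e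
    refine ⟨u, by simp, ?_⟩
    simp only [Ring.inverse_unit, Sigma.mk.injEq, heq_eq_eq]
    refine ⟨e1, ?_⟩
    rw [Units.mul_inv_eq_iff_eq_mul]
    exact LinearMap.ext e2

theorem sum_charpoly (θ : K →*₀ ℂ) [Nontrivial V] {d : F[X]} (hd : d.Monic)
    (h : d.natDegree = finrank F V) :
    (Nat.card V - 1 : ℂ) * ∑ g : End F V with g.charpoly = d, J (Sg θ) g ⊤ =
      #{g : End F V | IsUnit g} * jj θ d := by
  obtain ⟨s, hs, hs'⟩ : ∃ s : Finset V, (∀ v, v ∈ s) ∧ Nat.card V = #s := by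
    have := Fintype.ofFinite V
    exact ⟨univ, mem_univ, Nat.card_eq_fintype_card⟩
  have h1 : ∀ v ≠ (0 : V), ∑ g : End F V with g.charpoly = d, J (Sg θ) g ⊤ =
      #{g : End F V | g.charpoly = d ∧ cyc g v = ⊤} * jj θ d := fun v hv => by
    rw [← sum_fiberwise _ fun g => cyc g v, sum_eq_single ⊤ (fun W _ hW => ?_) (by simp),
      filter_filter, ← nsmul_eq_mul, ← sum_const]
    · refine sum_congr rfl fun g hg => ?_
      obtain ⟨h1, h2⟩ := (mem_filter.1 hg).2
      rw [← h2, J_cyc, h2, cp_top, h1]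
    by_cases h0 : W = ⊥
    · exact sum_eq_zero fun g hg => (hv (by
        simpa [(mem_filter.1 hg).2, h0] using self_mem_cyc g v)).elim
    simpa using cusp_wt (w := fun _ => 1) (T := (univ.filter fun g : End F V =>
      g.charpoly = d).filter fun g => cyc g v = W) (ad_Sg θ) h0 hW
      (fun g hg => (mem_filter.1 hg).2 ▸ iv_cyc g v) (fun g hg φ hφ => by
        simp only [mem_filter, mem_univ, true_and] at hg ⊢
        exact ⟨(charpoly_add_eq (hg.2 ▸ iv_cyc g v) hφ.1 hφ.2).trans hg.1,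
          (cyc_congr fun w hw => by simp [hφ.2 w (hg.2 ▸ hw)]).trans hg.2⟩) fun _ _ _ _ => rfl
  rw [← card_cyc hd h hs, ← add_sum_erase _ _ (hs 0), card_eq_zero.2 (filter_eq_empty_iff.2
    fun g _ hg => ?_), zero_add, Nat.cast_sum, sum_mul,
    ← sum_congr rfl fun v hv => h1 v (ne_of_mem_erase hv), sum_const, nsmul_eq_mul,
    card_erase_of_mem (hs _), Nat.cast_pred (card_pos.2 ⟨0, hs 0⟩), hs']
  obtain ⟨w, hw⟩ := exists_ne (0 : V)
  obtain ⟨p, rfl⟩ := hg.2.ge (mem_top (x := w))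
  exact hw (by simp [ev_apply])

omit [Finite F] in
theorem sum_J_J {S S' : F[X] → ℂ} (hS : Ad S) (hS' : Ad S') :
    ∑ g : End F V with IsUnit g, J S g ⊤ * conj (J S' g ⊤) =
      ∑ g : End F V with IsUnit g, J S g ⊤ * conj (S' g.charpoly) := by
  simp only [J_eq (S := S') _ ⊤, map_sub, mul_sub, sum_sub_distrib, cp_top, sub_eq_self, map_sum,
    mul_sum]
  rw [sum_comm' (t' := univ.filter (· < ⊤)) (s' := fun A => univ.filter fun g : End F V =>
    IsUnit g ∧ Iv g A) (by simp; tauto)]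
  refine sum_eq_zero fun A hA => ?_
  by_cases h0 : A = ⊥
  · simp [h0, J_bot hS'.one]
  refine cusp_wt hS h0 (mem_filter.1 hA).2.ne (fun g hg => (mem_filter.1 hg).2.2)
    (fun g hg φ hφ => ?_) fun g hg φ hφ => ?_
  · simp only [mem_filter, mem_univ, true_and] at hg ⊢
    refine ⟨?_, hg.2.add hφ le_rfl⟩
    have h1 : ∀ g : End F V, IsUnit g ↔ g.charpoly.coeff 0 ≠ 0 := fun g => by
      rw [LinearMap.isUnit_iff_isUnit_det, LinearMap.det_eq_sign_charpoly_coeff]; simp
    rw [h1, charpoly_add_eq hg.2 hφ.1 hφ.2, ← h1]; exact hg.1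
  · rw [J_congr (mem_filter.1 hg).2.2 fun w hw => by simp [hφ.2 w hw]]

end H6.GC
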