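/-
Hall numbers, part 2.
-/
import Cfsg.Agent.H6.HN1

set_option autoImplicit false
set_option linter.unusedSectionVars false

namespace H6.HN
open Cfsg Subgroup
open H19 hiding eq_bot_mono

/-- `m` is a Hall number -/
def HallN (m : ℕ) : Prop := ∀ (G : Type) [Group G] [Finite G], m ∣ Nat.card G → m.Coprime (Nat.card G / m) →
  ∃ H : Subgroup G, Nat.card H = m

variable {m l N s t i j a b : ℕ}

theorem dick [hl : Fact l.Prime] (h5 : 5 ≤ l) (H : Subgroup (H27.PS (ZMod l))) (h : ¬ l ∣ #H) :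
    #H ∣ l - 1 ∨ #H ∣ l + 1 ∨ #H = 12 ∨ #H = 24 ∨ #H = 60 := by
  have o := hl.out.eq_two_or_odd
  have key : ∀ c : H, 2 * orderOf c ∣ l - 1 ∨ 2 * orderOf c ∣ l + 1 := fun c => by
    have := H27.orderOf_PS l c.1.2
    rw [ZMod.card, Nat.gcd_eq_left (by omega), orderOf_coe, orderOf_coe] at this
    rcases this with e | e | e
    · have e : c ^ l = 1 := Subtype.ext (Subtype.ext e)
      rcases (Nat.dvd_prime hl.out).1 (orderOf_dvd_of_pow_eq_one e) with k | k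
      · left; rw [k]; omega
      · exact (h (k.symm.dvd.trans (_root_.orderOf_dvd_natCard c))).elim
    · exact .inl (Nat.mul_dvd_of_dvd_div (by omega) e)
    · exact .inr (Nat.mul_dvd_of_dvd_div (by omega) e)
  rcases H27.dickson_hom l ((H27.PS (ZMod l)).subtype.comp H.subtype)
    ((H27.PS (ZMod l)).subtype_injective.comp H.subtype_injective) with
    ⟨c, -⟩ | ⟨e, -⟩ | ⟨c, -, e, -⟩ | ⟨-, ⟨⟨e⟩⟩ | ⟨⟨e⟩⟩ | ⟨⟨e⟩⟩⟩ | ⟨e, -⟩ | ⟨-, F, h3, e, -⟩
  · obtain ⟨c, e⟩ := IsCyclic.exists_ofOrder_eq_natCard (α := H)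
    exact (key c).imp (fun k => e ▸ (Dvd.intro_left _ rfl).trans k) fun k => .inl (e ▸ (Dvd.intro_left _ rfl).trans k)
  · exact (h e).elim
  · rw [← (zpowers c).index_mul_card, e, Nat.card_zpowers]
    exact (key c).imp_right .inl
  · rw [Nat.card_congr e.toEquiv, nat_card_alternatingGroup]; simp [Nat.factorial]
  · rw [Nat.card_congr e.toEquiv, Nat.card_perm]; simp [Nat.factorial]
  · rw [Nat.card_congr e.toEquiv, nat_card_alternatingGroup]; simp [Nat.factorial]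
  · omega
  · rw [Nat.factorization_eq_zero_of_not_dvd h, pow_zero] at e
    omega

theorem HallN.psl (h : HallN m) (m0 : m ≠ 0) (hl : l.Prime) (hm : m + 5 < l) : ∃ N, 2 * N = l * (l ^ 2 - 1) ∧
    ((∀ s, s.Prime → s ∣ m → ∃ e, s ^ e ∣ m ∧ ¬ s ^ (e + 1) ∣ N) →
    m.gcd N ∣ l - 1 ∨ m.gcd N ∣ l + 1 ∨ m.gcd N = 12 ∨ m.gcd N = 24 ∨ m.gcd N = 60) := by
  have := Fact.mk hl
  have o := hl.eq_two_or_odd
  have c := H27.card_PS (F := ZMod l)
  rw [ZMod.card, Nat.gcd_eq_left (by omega)] at c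
  refine ⟨_, c, fun k => ?_⟩
  have N0 := card_ne_zero (H27.PS (ZMod l))
  obtain ⟨a, ha⟩ := m.gcd_dvd_left #(H27.PS (ZMod l))
  obtain ⟨b, hb⟩ := m.gcd_dvd_right #(H27.PS (ZMod l))
  have a0 : NeZero a := ⟨by rintro rfl; exact m0 ha⟩
  have cG : Nat.card (H27.PS (ZMod l) × Multiplicative (ZMod a)) = m * b := by
    rw [Nat.card_prod, Nat.card_congr Multiplicative.toAdd, Nat.card_zmod]
    generalize m.gcd _ = d at ha hb
    rw [hb, ha]; ring
  obtain ⟨H, hH⟩ := h (H27.PS (ZMod l) × Multiplicative (ZMod a)) ⟨_, cG⟩ (by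
    rw [cG, Nat.mul_div_cancel_left _ (Nat.pos_of_ne_zero m0)]
    refine Nat.coprime_of_dvd fun s hs h1 h2 => ?_
    obtain ⟨e, e1, e2⟩ := k s hs h1
    have f1 := Nat.ordProj_dvd #(H27.PS (ZMod l)) s
    refine Nat.pow_succ_factorization_not_dvd N0 hs ?_
    generalize (#(H27.PS (ZMod l))).factorization s = f at *
    rw [hb, pow_succ]
    exact Nat.mul_dvd_mul (Nat.dvd_gcd ((pow_dvd_pow _ (by_contra fun l =>
      e2 ((pow_dvd_pow _ (by omega)).trans f1))).trans e1) f1) h2)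
  let f := MonoidHom.fst (H27.PS (ZMod l)) (Multiplicative (ZMod a))
  have c1 := card_inf_mul_relIndex f.ker H
  have c2 := f.ker.card_mul_index
  rw [index_ker, MonoidHom.range_eq_top.2 Prod.fst_surjective, card_top, Nat.card_prod,
    Nat.card_congr Multiplicative.toAdd, Nat.card_zmod, mul_comm] at c2
  obtain ⟨j, hj⟩ := card_dvd (inf_le_left : f.ker ⊓ H ≤ f.ker)
  rw [relIndex_ker, hH] at c1
  have e : #(H.map f) = m.gcd #(H27.PS (ZMod l)) := by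
    refine Nat.dvd_antisymm (Nat.dvd_gcd (Dvd.intro_left _ c1) (card_subgroup_dvd_card _))
      ⟨j, Nat.eq_of_mul_eq_mul_left (card_pos (f.ker ⊓ H)) ?_⟩
    rw [c1, mul_left_comm, ← hj, Nat.eq_of_mul_eq_mul_left (Nat.pos_of_ne_zero N0) c2, ← ha]
  rw [← e]
  exact dick (by omega) _ fun d => by
    have := Nat.le_of_dvd (Nat.pos_of_ne_zero m0) (d.trans (Dvd.intro_left _ c1))
    omega

theorem dirichlet (m0 : m ≠ 0) (a : ℕ → ℕ) (h : ∀ s, s.Prime → s ∣ m → ¬ s ∣ a s) :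
    ∃ l > m + 5, l.Prime ∧ ∀ s, s.Prime → s ∣ m → l ≡ a s [MOD s ^ 6] := by
  obtain ⟨x, hx⟩ := Nat.chineseRemainderOfFinset a (· ^ 6) m.primeFactors
    (fun s hs => pow_ne_zero _ (Nat.prime_of_mem_primeFactors hs).ne_zero) fun s hs t ht e =>
      Nat.coprime_pow_primes _ _ (Nat.prime_of_mem_primeFactors hs) (Nat.prime_of_mem_primeFactors ht) e
  replace hx := fun s (hs : s.Prime) (d : s ∣ m) => hx s (Nat.mem_primeFactors.2 ⟨hs, d, m0⟩)
  obtain ⟨l, h1, h2, h3⟩ := Nat.forall_exists_prime_gt_and_modEq (m + 5) (a := x) (pow_ne_zero 6 m0)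
    (Nat.Coprime.pow_right _ (Nat.coprime_of_dvd fun s hs h1 h2 => h s hs h2
      (((hx s hs h2).dvd_iff (dvd_pow_self s (by norm_num))).1 h1)))
  exact ⟨l, h1, h2, fun s hs d => (h3.of_dvd (pow_dvd_pow_of_dvd d 6)).trans (hx s hs d)⟩

/-- `s ^ i` is the `s`-part of `|L₂(l)|` for `l ≡ a` -/
structure Pt (m s i a : ℕ) : Prop where
  pr : s.Prime
  le : i ≤ 4
  dm : s ^ i ∣ m
  nd : ¬ s ∣ a
  d1 : ((s ^ i * Nat.gcd 2 s : ℕ) : ℤ) ∣ a ^ 3 - a
  d2 : ¬ ((s ^ (i + 1) * Nat.gcd 2 s : ℕ) : ℤ) ∣ a ^ 3 - a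

theorem tr (e : 2 * N = l * (l ^ 2 - 1)) (hl : l.Prime) (h : l ≡ a [MOD s ^ 6]) (hs : s.Prime) (hi : i ≤ 5) :
    s ^ i ∣ N ↔ ((s ^ i * Nat.gcd 2 s : ℕ) : ℤ) ∣ a ^ 3 - a := by
  have e' : ((2 * N : ℕ) : ℤ) = l ^ 3 - l := by
    rw [e, Nat.cast_mul, Nat.cast_pred (pow_pos hl.pos 2)]; push_cast; ring
  have h' : (l : ℤ) ≡ a [ZMOD ((s ^ i * Nat.gcd 2 s : ℕ) : ℤ)] := Int.natCast_modEq_iff.2 (h.of_dvd
    ((Nat.mul_dvd_mul_left _ (Nat.gcd_dvd_right 2 s)).trans (pow_succ s i ▸ pow_dvd_pow s (by omega))))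
  rw [← ((h'.pow 3).sub h').dvd_iff, ← e', Int.natCast_dvd_natCast]
  rcases eq_or_ne s 2 with rfl | k
  · rw [Nat.gcd_self, mul_comm, Nat.mul_dvd_mul_iff_left two_pos]
  · have c := (Nat.coprime_primes Nat.prime_two hs).2 k.symm
    rw [c, mul_one, (c.symm.pow_left i).dvd_mul_left]

theorem HallN.two (h : HallN m) (m0 : m ≠ 0) (hs : Pt m s i a) (ht : Pt m t j b) (ne : t ≠ s) (h2 : 2 ∣ m → s = 2)
    (h1 : ¬ ((s ^ i : ℕ) : ℤ) ∣ a - 1) (h3 : ¬ ((t ^ j : ℕ) : ℤ) ∣ b + 1) :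
    ∃ d, d ∣ m ∧ s ^ i ∣ d ∧ t ^ j ∣ d ∧ (d = 12 ∨ d = 24 ∨ d = 60) := by
  obtain ⟨l, l1, hl, k⟩ := dirichlet m0 (fun u => if u = s then a else if u = t then b else 2) fun u hu d => by
    split_ifs with e1 e2
    · exact e1 ▸ hs.nd
    · exact e2 ▸ ht.nd
    · exact fun e => e1 (by obtain rfl := (Nat.prime_dvd_prime_iff_eq hu Nat.prime_two).1 e; exact (h2 d).symm)
  obtain ⟨N, e, q⟩ := h.psl m0 hl l1
  have sm : s ∣ m := (dvd_pow_self s (by rintro rfl; simp at h1)).trans hs.dm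
  have tm : t ∣ m := (dvd_pow_self t (by rintro rfl; simp at h3)).trans ht.dm
  have ks : l ≡ a [MOD s ^ 6] := by simpa using k s hs.pr sm
  have kt : l ≡ b [MOD t ^ 6] := by simpa [ne] using k t ht.pr tm
  have si := hs.le
  have tj := ht.le
  have d1 := Nat.dvd_gcd hs.dm ((tr e hl ks hs.pr (by omega)).2 hs.d1)
  have d2 := Nat.dvd_gcd ht.dm ((tr e hl kt ht.pr (by omega)).2 ht.d1)
  refine ⟨_, m.gcd_dvd_left N, d1, d2, ((q fun u hu d => ?_).resolve_left fun c => h1 ?_).resolve_left fun c => h3 ?_⟩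
  · by_cases e1 : u = s
    · exact e1 ▸ ⟨i, hs.dm, (tr e hl ks hs.pr (by omega)).not.2 hs.d2⟩
    by_cases e2 : u = t
    · exact e2 ▸ ⟨j, ht.dm, (tr e hl kt ht.pr (by omega)).not.2 ht.d2⟩
    refine ⟨1, by simpa using d, (tr (a := 2) e hl (by simpa [e1, e2] using k u hu d) hu (by omega)).not.2 fun c => ?_⟩
    have c : u ^ 2 * Nat.gcd 2 u ∣ 6 := Int.natCast_dvd_natCast.1 c
    have := Nat.le_of_dvd (by norm_num) (Dvd.dvd.trans (Dvd.intro _ rfl) c)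
    have := hu.two_le
    have : u ≠ 2 := by rintro rfl; exact e1 (h2 d).symm
    nlinarith [show 3 ≤ u by omega]
  · rw [← ((Int.natCast_modEq_iff.2 (ks.of_dvd (pow_dvd_pow s (by omega : i ≤ 6)))).sub_right 1).dvd_iff,
      ← Nat.cast_pred hl.pos]
    exact Int.natCast_dvd_natCast.2 (d1.trans c)
  · rw [← ((Int.natCast_modEq_iff.2 (kt.of_dvd (pow_dvd_pow t (by omega : j ≤ 6)))).add_right 1).dvd_iff]
    exact_mod_cast d2.trans c

theorem nd2 (hs : s.Prime) (h2 : s ≠ 2) {x y : ℤ} (e : x = s * y + 2) : ¬ (s : ℤ) ∣ x := fun d =>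
  h2 ((Nat.prime_dvd_prime_iff_eq hs Nat.prime_two).1 (Int.natCast_dvd_natCast.1
    ((dvd_add_right (Dvd.intro _ rfl)).1 (e ▸ d))))

theorem pt_succ (hs : s.Prime) (h2 : s ≠ 2) (d : s ∣ m) : Pt m s 1 (s + 1) := by
  have c : Nat.gcd 2 s = 1 := (Nat.coprime_primes Nat.prime_two hs).2 h2.symm
  refine ⟨hs, by omega, by simpa using d, by simpa using hs.ne_one, ⟨(s + 1) * (s + 2), ?_⟩, fun e => ?_⟩
  · simp [c]; ring
  · refine nd2 hs h2 (y := s + 3) rfl ((mul_dvd_mul_iff_left (Int.natCast_ne_zero.2 hs.ne_zero)).1 ?_)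
    rw [c] at e
    exact (Dvd.dvd.trans (dvd_of_eq (by push_cast; ring)) e).trans (dvd_of_eq (by push_cast; ring))

theorem pt_pred (hs : (s + 1).Prime) (h2 : s + 1 ≠ 2) (d : s + 1 ∣ m) : Pt m (s + 1) 1 s := by
  have c : Nat.gcd 2 (s + 1) = 1 := (Nat.coprime_primes Nat.prime_two hs).2 h2.symm
  have := hs.two_le
  refine ⟨hs, by omega, by simpa using d, fun e => ?_, ⟨s * (s - 1), ?_⟩, fun e => ?_⟩
  · have := Nat.le_of_dvd (by omega) e
    omega
  · simp [c]; ring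
  · refine nd2 hs h2 (y := s - 2) rfl ((mul_dvd_mul_iff_left (Int.natCast_ne_zero.2 hs.ne_zero)).1 ?_)
    rw [c] at e
    exact (Dvd.dvd.trans (dvd_of_eq (by push_cast; ring)) e).trans (dvd_of_eq (by push_cast; ring))

theorem HallN.cases (h : HallN m) (hm : 2 ≤ m) : IsPrimePow m ∨ m % 4 = 2 ∨ m = 12 ∨ m = 24 ∨ m = 60 := by
  by_contra! c
  obtain ⟨c0, c2, c12, c24, c60⟩ := c
  have m0 : m ≠ 0 := by omega
  have two : ∀ s, s.Prime → s ∣ m → ∃ t, t.Prime ∧ t ∣ m ∧ t ≠ s := fun s hs d => by_contra fun e =>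
    c0 (isPrimePow_iff_unique_prime_dvd.2 ⟨s, ⟨hs, d⟩, fun t ht => by_contra fun k => e ⟨t, ht.1, ht.2, k⟩⟩)
  by_cases h2 : 2 ∣ m
  swap
  · obtain ⟨s, hs, d⟩ := Nat.exists_prime_and_dvd (show m ≠ 1 by omega)
    obtain ⟨t, ht, d', ne⟩ := two s hs d
    obtain ⟨s, rfl⟩ := Nat.exists_eq_add_one_of_ne_zero hs.ne_zero
    have s2 : s + 1 ≠ 2 := fun e => h2 (e ▸ d)
    have t2 : t ≠ 2 := fun e => h2 (e ▸ d')
    obtain ⟨d, d1, -, -, e⟩ := h.two m0 (pt_pred hs s2 d) (pt_succ ht t2 d') ne (fun e => (h2 e).elim)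
      (by simpa using nd2 hs s2 (x := 1 - s) (y := -1) (by push_cast; ring) ∘ dvd_sub_comm.1)
      (by simpa using nd2 ht t2 (x := t + 1 + 1) (y := 1) (by ring))
    exact h2 (Dvd.dvd.trans (by omega) d1)
  have p4 : Pt m 2 2 3 := ⟨Nat.prime_two, by omega, by omega, by norm_num, by norm_num, by norm_num⟩
  have h9 : ¬ 9 ∣ m := fun e => by
    obtain ⟨d, -, -, d1, e⟩ := h.two m0 p4 (⟨Nat.prime_three, by omega, e, by norm_num, by norm_num, by norm_num⟩ :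
      Pt m 3 2 10) (by norm_num) (fun _ => rfl) (by norm_num) (by norm_num)
    omega
  have h25 : ¬ 25 ∣ m := fun e => by
    obtain ⟨d, -, -, d1, e⟩ := h.two m0 p4 (⟨Nat.prime_five, by omega, e, by norm_num, by norm_num, by norm_num⟩ :
      Pt m 5 2 26) (by norm_num) (fun _ => rfl) (by norm_num) (by norm_num)
    omega
  have hr : ∀ r, r.Prime → r ∣ m → r = 2 ∨ (3 ∣ m ∧ (r = 3 ∨ r = 5)) := fun r hr d => by
    refine or_iff_not_imp_left.2 fun r2 => ?_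
    obtain ⟨d, d1, -, d2, e⟩ := h.two m0 p4 (pt_succ hr r2 d) r2 (fun _ => rfl) (by norm_num)
      (by simpa using nd2 hr r2 (x := r + 1 + 1) (y := 1) (by ring))
    have : r ∈ Nat.primeFactors 120 := Nat.mem_primeFactors.2
      ⟨hr, (pow_one r ▸ d2).trans (by rcases e with rfl | rfl | rfl <;> norm_num), by norm_num⟩
    refine ⟨Dvd.dvd.trans (by omega) d1, ?_⟩
    simpa [r2, show Nat.primeFactors 120 = {2, 3, 5} by simp [Nat.primeFactors, Nat.primeFactorsList_ofNat]] using this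
  obtain ⟨t, ht, d, ne⟩ := two 2 Nat.prime_two h2
  have h3 := ((hr t ht d).resolve_left ne).1
  have h16 : ¬ 16 ∣ m := fun e => by
    obtain ⟨d, -, d1, -, e⟩ := h.two m0 (⟨Nat.prime_two, by omega, e, by norm_num, by norm_num, by norm_num⟩ :
      Pt m 2 4 15) (pt_succ Nat.prime_three (by norm_num) h3) (by norm_num) (fun _ => rfl) (by norm_num) (by norm_num)
    omega
  have h40 : 8 ∣ m → ¬ 5 ∣ m := fun e h5 => by
    obtain ⟨d, -, d1, d2, e⟩ := h.two m0 (⟨Nat.prime_two, by omega, e, by norm_num, by norm_num, by norm_num⟩ :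
      Pt m 2 3 7) (pt_succ Nat.prime_five (by norm_num) h5) (by norm_num) (fun _ => rfl) (by norm_num) (by norm_num)
    omega
  have : m ∣ 120 := (Nat.dvd_iff_prime_pow_dvd_dvd _ _).2 fun p k hp d => by
    have key : ∀ e, ¬ p ^ (e + 1) ∣ m → p ^ k ∣ p ^ e := fun e h =>
      pow_dvd_pow p (by_contra fun l => h ((pow_dvd_pow p (by omega)).trans d))
    rcases k with _ | k
    · simp
    rcases hr p hp ((dvd_pow_self p k.succ_ne_zero).trans d) with rfl | ⟨-, rfl | rfl⟩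
    · exact (key 3 h16).trans (by norm_num)
    · exact (key 1 h9).trans (by norm_num)
    · exact (key 1 h25).trans (by norm_num)
  have := Nat.le_of_dvd (by norm_num) this
  obtain ⟨c, rfl⟩ : 12 ∣ m := by omega
  have : c ≤ 10 := by omega
  interval_cases c <;> omega

theorem hallN (h : IsPrimePow m ∨ m % 4 = 2 ∨ m = 12 ∨ m = 24 ∨ m = 60) : HallN m := by
  rintro G _ _ ⟨k, e⟩ c
  have m0 : 0 < m := Nat.pos_of_ne_zero (by rintro rfl; exact Nat.card_pos.ne' (e.trans (zero_mul k)))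
  rw [e, Nat.mul_div_cancel_left _ m0] at c
  rw [← card_top] at e
  have key : ∀ {π : Set ℕ} {H : Subgroup G}, Hall π H ⊤ → PiN π m → PiN πᶜ k → #H = m := fun h a b =>
    Nat.dvd_antisymm (h.pi.dvd_of_dvd_mul b (e ▸ card_dvd le_top)) (h.dvd a ⟨k, e⟩)
  have pk := PiN.of_coprime_pi c.symm
  have nd : ∀ p i, p.Prime → p ∣ m → ¬ p ^ i ∣ m → ¬ p ^ i ∣ #(⊤ : Subgroup G) := fun p i hp d h x =>
    h (((c.coprime_dvd_left d).pow_left i).dvd_of_dvd_mul_right (e ▸ x))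
  have k6 : m = 12 ∨ m = 24 → ∃ H : Subgroup G, #H = m := fun h => by
    obtain ⟨K, l, s, a, b⟩ := gd _ (⊤ : Subgroup G) (Nat.lt_succ_self _)
      (nd 2 4 Nat.prime_two (by omega) (by omega)) (nd 3 2 Nat.prime_three (by omega) (by omega))
    obtain ⟨H, hH⟩ := exists_hall (primes m) s
    refine ⟨H, key (hH.of_idx l fun p hp d x => ?_) piN_primes pk⟩
    rcases hp.dvd_mul.1 (show p ∣ 2 ^ 3 * 3 from x.2.trans (by rcases h with rfl | rfl <;> norm_num)) with x | x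
    · exact a ((Nat.prime_dvd_prime_iff_eq hp Nat.prime_two).1 (hp.dvd_of_dvd_pow x) ▸ d)
    · exact b ((Nat.prime_dvd_prime_iff_eq hp Nat.prime_three).1 x ▸ d)
  rcases h with h | h | h | h | rfl
  · obtain ⟨p, i, hp, -, rfl⟩ := (isPrimePow_nat_iff _).1 h
    have := Fact.mk hp
    exact Sylow.exists_subgroup_card_pow_prime p ⟨k, card_top (G := G) ▸ e⟩
  · obtain ⟨H, hH⟩ := exists_hall (primes m) (sol_of_four (nd 2 2 Nat.prime_two (by omega) (by omega)))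
    exact ⟨H, key hH piN_primes pk⟩
  · exact k6 (.inl h)
  · exact k6 (.inr h)
  obtain ⟨H, hH⟩ := hall60 _ (⊤ : Subgroup G) (Nat.lt_succ_self _) (nd 2 3 Nat.prime_two (by omega) (by omega))
    (nd 3 2 Nat.prime_three (by omega) (by omega)) (nd 5 2 Nat.prime_five (by omega) (by omega))
  refine ⟨H, key hH (fun p hp d => ?_) fun p hp d x => pk p hp d ⟨hp, by rcases x with rfl | rfl | rfl <;> norm_num⟩⟩
  have : p ∈ Nat.primeFactors 60 := Nat.mem_primeFactors.2 ⟨hp, d, by norm_num⟩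
  simpa [show Nat.primeFactors 60 = {2, 3, 5} by simp [Nat.primeFactors, Nat.primeFactorsList_ofNat]] using this

end H6.HN
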