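/-
S5806, characteristic two: cliques of size three.
-/
import Cfsg.Agent.H6.SP5
import Cfsg.Agent.H23.S6d

set_option autoImplicit false
set_option linter.unusedSectionVars false

namespace H6.SP
open Matrix Cfsg Cfsg.Geo H27.Asch Module Submodule H11.SP H23.S6
open scoped commutatorElement MatrixGroups

universe u
variable {k : Type u} [Field k] [Fintype k] [CharP k 2] {G : Type*} [Group G] {P : Subgroup (G6 k)} {π : P →* G}
  {p x y y' z : V6 k}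

theorem Cq.fix (hP : P ≤ S6 k) {S : Sylow 2 P} (s : Sy P p S) {w : Fin 3 → V6 k} (c : Cq P p w) :
    ∃ i, ∀ g ∈ S.1, ∃ d : k, g.1.val *ᵥ w i = w i + d • p := by
  choose σ d h using fun g : S.1 => c.perm hP g.1.2 (s.fx g.1 g.2)
  let φ : S.1 →* Equiv.Perm (Fin 3) := MonoidHom.mk' σ fun g g' => Equiv.ext fun i => by_contra fun n => by
    have e := h (g * g') i
    rw [Subgroup.coe_mul, Subgroup.coe_mul, mul_mv, h, mulVec_add, h, mulVec_smul, s.fx _ g.2] at e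
    simpa [c.2.1 (σ g (σ g' i)) _ (Ne.symm n), (c.1 _).1] using congrArg (fm · (w (σ (g * g') i))) e
  let _ := MulAction.compHom (Fin 3) φ
  obtain ⟨i, hi⟩ := S.2.nonempty_fixed_point_of_prime_not_dvd_card (Fin 3) (by simp)
  exact ⟨i, fun g hg => ⟨_, (h ⟨g, hg⟩ i).trans (by rw [show σ ⟨g, hg⟩ i = i from hi ⟨g, hg⟩])⟩⟩

theorem Cq.comp {n : ℕ} {w : Fin n → V6 k} (c : Cq P p w) (σ : Equiv.Perm (Fin n)) (d : Fin n → k) :
    Cq P p fun i => w (σ i) + d i • p :=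
  ⟨fun i => (c.1 _).shift _, fun i j e => by simp [c.2.1 _ _ (σ.injective.ne e), (c.1 _).1, fm_sy _ p], fun y a =>
    let ⟨i, e⟩ := c.2.2 y a; ⟨σ.symm i, by rw [N_shift, σ.apply_symm_apply, e]⟩⟩

theorem dc3' (h : Rp P π) (K : Kt P) (cg : CG P) {S : Sylow 2 P} (s : Sy P p S) (c : Cq P p ![x, y, y']) (b : A2 P x z)
    (m : fm p z ≠ 0) (yz : fm y z = 0) (yz' : fm y' z = 0) (fx : ∀ g ∈ S.1, ∃ d : k, g.1.val *ᵥ x = x + d • p) : False := by
  have ax : A2 P p x := c.1 0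
  have ay : A2 P p y := c.1 1
  have ay' : A2 P p y' := c.1 2
  have xy : fm x y = 1 := c.2.1 0 1 (by simp)
  have xy' : fm x y' = 1 := c.2.1 0 2 (by simp)
  have yy' : fm y y' = 1 := c.2.1 1 2 (by simp)
  have pz := Cq_m h.sp cg c ax b m
  obtain ⟨τ, eτ⟩ : ∃ τ, τ = x + y + y' := ⟨_, rfl⟩
  have tp : fm τ p = 0 := by simp [eτ, fm_sy _ p, ax.1, ay.1, ay'.1]
  have tw : ∀ w, A2 P p w → fm τ w = 0 := fun w a => by
    obtain ⟨i, d, rfl⟩ := c.ex a
    have := c.sum i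
    rw [Fin.sum_univ_three] at this
    rw [fm_add_r, fm_smul_r, tp, eτ]; refine (congrArg (· + _) this).trans ?_; push_cast; linear_combination 2 * two (k := k)
  have tz : fm τ z = 0 := by simp [eτ, b.1, yz, yz']
  have nτ : τ ∉ span k {p} := fun m => by
    have := ((ax.qm.mul ay.qm).mul ay'.qm).tv h.ntv ax.ne_l (eτ ▸ m)
    simp [xy, xy', yy', aa] at this
  obtain ⟨n, hn, ν, h0, np, ny, nx, -, f⟩ := K.sw' ay b ax.1 yz m (xy ▸ one_ne_zero)
  obtain rfl : ν = 1 := add_eq (k := k).1 (pow_eq_zero_iff two_ne_zero |>.1 (by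
    rw [pz, xy] at h0; linear_combination h0 + (ν + 1) * two (k := k)))
  have nt := f τ tp (tw _ ay) (tw _ ax) tz
  have cx := Cq_cj h.sp c hn
  rw [np, pz, one_mul, one_smul] at cx
  have tx : ∀ g ∈ P, g.val *ᵥ τ = τ → ∀ w, A2 P (g.val *ᵥ p) w → fm τ w = 0 := fun g hg e w a => by
    rw [← e, ← mv_inv g w, fm_iso (h.sp hg)]; exact tw _ (inv_mv g p ▸ a.cj h.sp (inv_mem hg))
  have st : ∀ g ∈ S.1, fm τ (g.1.val *ᵥ z) = 0 := fun g hg => by
    obtain ⟨κ, e⟩ := fx g hg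
    have b' := e ▸ b.cj h.sp g.2
    have pg : fm p (g.1.val *ᵥ z) = 1 := by rw [← pz, ← fm_iso (h.sp g.2) p z, s.fx g hg]
    by_cases κ0 : κ = 0
    · exact tx n hn nt _ (by simpa [np, pz, κ0] using b')
    have xg : fm x (g.1.val *ᵥ z) = κ := by simpa [pg, add_eq (k := k)] using b'.1
    have := Cq_m h.sp cg cx (x := κ⁻¹ • (x + κ • p)) (z := κ • g.1.val *ᵥ z) (ax.symm.congr (by
      rw [smul_add, smul_smul, inv_mul_cancel₀ κ0, one_smul, add_comm, N_shift]) (by simp [fm_sy x p, ax.1]))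
      (by simpa using b'.scale (inv_ne_zero κ0)) (by simp [xg, κ0])
    obtain rfl : κ = 1 := add_eq (k := k).1 (pow_eq_zero_iff two_ne_zero |>.1 (by
      rw [fm_smul_r, xg] at this; linear_combination this + (κ + 1) * two (k := k)))
    obtain ⟨-, -, d, hd, ed⟩ := id ay
    exact tx (d * n) (mul_mem hd hn) (by rw [mul_mv, nt, ed, r_mv, tp, tw _ ay]; simp) _
      (by rw [mul_mv]; simpa [np, pz, ed, r_mv, xy, fm_sy x p, ax.1] using b')
  obtain ⟨v0, v1, v2⟩ := dual (N_comm p τ ▸ N_ne.2 ⟨ax.ne_l, nτ⟩)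
  obtain ⟨v, ev⟩ : ∃ v, v = v0 + (fm v0 y + 1) • x + (fm v0 x + 1) • y := ⟨_, rfl⟩
  have vp : fm v p = 0 := by simp [ev, v2, fm_sy x p, fm_sy y p, ax.1, ay.1]
  have vx : fm v x = 1 := by simp [ev, fm_sy y x, xy, ← add_assoc, aa]
  have vy : fm v y = 1 := by simp [ev, xy, ← add_assoc, aa]
  have vt : fm v τ = 1 := by simp [ev, v1, fm_sy x τ, fm_sy y τ, tw _ ax, tw _ ay]
  have vw : ∀ w, A2 P p w → fm v w = 1 := fun w a => by
    obtain ⟨i, d, rfl⟩ := c.ex a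
    rw [eτ, fm_add_r, fm_add_r, vx, vy, aa, zero_add] at vt
    fin_cases i <;> simp [vp, vx, vy, vt]
  let _ := ZMod.algebra k 2
  obtain ⟨l, hl⟩ : ∃ l : Module.Dual (ZMod 2) k, l 1 ≠ 0 := by
    by_contra! H; exact one_ne_zero ((Module.forall_dual_apply_eq_zero_iff _ _).1 H)
  refine s.tr h.toRq ax (MonoidHom.mk' (fun g => Multiplicative.ofAdd (l (fm v (g.1.1.val *ᵥ z) + fm v z))) fun g g' => ?_)
    fun g w a e => ?_
  · have gw : ∀ w, A2 P p w → fm ((g.1.1⁻¹).val *ᵥ v + v) w = 0 := fun w a => by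
      rw [fm_add_l, fm_inv (h.sp g.1.2), vw _ (s.fx _ g.2 ▸ a.cj h.sp g.1.2), vw _ a, aa]
    have gp : fm ((g.1.1⁻¹).val *ᵥ v + v) p = 0 := by rw [fm_add_l, fm_inv (h.sp g.1.2), s.fx _ g.2, aa]
    obtain ⟨α, β, e⟩ := dep4 ax.ne_l nτ xy (fm_sy p τ ▸ tp) (fm_sy p _ ▸ gp) ax.1
      (by rw [fm_sy, eτ, fm_add_r, fm_add_r, gw _ ax, gw _ ay, gw _ ay', aa, aa]) (tw _ ax) (gw _ ax) ay.1 (tw _ ay) (gw _ ay)
    have e' : (g.1.1⁻¹).val *ᵥ v = v + α • τ + β • p := by linear_combination (norm := module) e - vv (k := k) v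
    have pg : fm p (g'.1.1.val *ᵥ z) = 1 := by rw [← pz, ← fm_iso (h.sp g'.1.2) p z, s.fx _ g'.2]
    rw [← ofAdd_add, ← map_add, Subgroup.coe_mul, Subgroup.coe_mul, mul_mv, ← fm_inv (h.sp g.1.2), ← fm_inv (h.sp g.1.2) v z, e']
    simp only [fm_add_l, fm_smul_l, st _ g'.2, tz, pg, pz]
    congr 2; linear_combination -fm v z * two (k := k)
  · rw [MonoidHom.mk'_apply, e, r_mv, fm_add_r, fm_add_r, fm_smul_r, fm_smul_r, vp, vw _ a, fm_sy z p, pz, add_right_comm, aa]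
    simpa using hl

theorem dc3 : DC3.{u} := fun F G _ _ _ _ P π h _ K tp _ t3 _ cg p w c => by
  obtain ⟨S, s⟩ := ex_sy h.toRq K t3 (c.1 0) (c.1 1) (by rw [c.2.1 _ _ (by simp)]; exact one_ne_zero)
  obtain ⟨i, fx⟩ := c.fix h.sp s
  obtain ⟨α, z, b, m⟩ := tp p _ (c.1 i)
  let σ := Equiv.swap 0 i
  have c' := c.comp σ ![α, fm (w (σ 1)) z / fm p z, fm (w (σ 2)) z / fm p z]
  have e : ∀ v : V6 F, fm (v + (fm v z / fm p z) • p) z = 0 := fun v => by rw [fm_add_l, fm_smul_l, div_mul_cancel₀ _ m, aa]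
  refine dc3' h K cg s (x := w i + α • p) (y := w (σ 1) + _ • p) (y' := w (σ 2) + _ • p) ?_ b m (e _) (e _) fun g hg => ?_
  · convert c' using 1
    ext1 j; fin_cases j <;> simp [σ]
  · obtain ⟨d, e⟩ := fx g hg
    exact ⟨d, by rw [mulVec_add, e, mulVec_smul, s.fx g hg, add_right_comm]⟩

end H6.SP
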