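import Cfsg.Agent.H6.BS15
import Cfsg.Agent.H22.FldAut

/-! Vector stabilizers in solvable linear groups I: derived series, reducible and imprimitive steps. -/

set_option autoImplicit false
set_option linter.unusedSectionVars false
set_option linter.unusedVariables false

open Cfsg Subgroup MulAction

namespace H6.BS
open H19
open scoped commutatorElement

universe u v

section Ds
variable {G : Type u} {G' : Type v} [Group G] [Group G']

/-- the derived series of a subgroup -/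
def ds (L : Subgroup G) : ℕ → Subgroup G
  | 0 => L
  | j + 1 => ⁅ds L j, ds L j⁆

theorem ds_mono {L L' : Subgroup G} (h : L ≤ L') : ∀ j, ds L j ≤ ds L' j
  | 0 => h
  | j + 1 => commutator_mono (ds_mono h j) (ds_mono h j)

theorem ds_map (f : G →* G') (L : Subgroup G) : ∀ j, (ds L j).map f = ds (L.map f) j
  | 0 => rfl
  | j + 1 => by rw [ds, map_commutator, ds_map f L j]; rfl

theorem ds_add (L : Subgroup G) (i : ℕ) : ∀ j, ds L (i + j) = ds (ds L i) j
  | 0 => rfl
  | j + 1 => by rw [← add_assoc, ds, ds_add L i j]; rfl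

theorem ds_le (L : Subgroup G) : ∀ j, ds L j ≤ L
  | 0 => le_rfl
  | j + 1 => commutator_le.2 fun a ha b hb => by
    have h1 := ds_le L j ha
    have h2 := ds_le L j hb
    exact L.mul_mem (L.mul_mem (L.mul_mem h1 h2) (L.inv_mem h1)) (L.inv_mem h2)

theorem ds_anti (L : Subgroup G) {i j : ℕ} (h : i ≤ j) : ds L j ≤ ds L i := by
  obtain ⟨d, rfl⟩ := Nat.exists_eq_add_of_le h
  rw [ds_add]; exact ds_le _ d

theorem ds_top : ∀ j, ds (⊤ : Subgroup G) j = derivedSeries G j
  | 0 => rfl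
  | j + 1 => by rw [ds, ds_top j]; rfl

theorem ds_sub (L : Subgroup G) (j : ℕ) : (ds (⊤ : Subgroup L) j).map L.subtype = ds L j := by
  rw [ds_map, ← MonoidHom.range_eq_map, range_subtype]

theorem ds_eq_bot {L : Subgroup G} {j : ℕ} : ds L j = ⊥ ↔ derivedSeries L j = ⊥ := by
  rw [← ds_sub, map_eq_bot_iff_of_injective _ L.subtype_injective, ds_top]

theorem ds_step {L L' : Subgroup G} {i : ℕ} (h : ds L i ≤ L') (j : ℕ) : ds L (i + j) ≤ ds L' j :=
  ds_add L i j ▸ ds_mono h j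

theorem ds_comap (f : G →* G') {L : Subgroup G} {L' : Subgroup G'} (h : ∀ g ∈ L, f g ∈ L') (j : ℕ)
    {g : G} (hg : g ∈ ds L j) : f g ∈ ds L' j :=
  ds_mono (map_le_iff_le_comap.2 h) j (ds_map f L j ▸ mem_map_of_mem f hg)

theorem ds_one_le {L L' : Subgroup G} (h : ∀ a ∈ L, ∀ b ∈ L, a * b * a⁻¹ * b⁻¹ ∈ L') : ds L 1 ≤ L' :=
  commutator_le.2 h

end Ds

section Defs
variable (G : Type v) (V : Type u) [Group G] [AddCommGroup V] [DistribMulAction G V]

/-- the `j`-th derived subgroup acts trivially -/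
def Dl (j : ℕ) : Prop := ds (⊤ : Subgroup G) j ≤ ker G V

variable {V} in
/-- the `j`-th derived subgroup of the stabilizer acts trivially -/
def St (v : V) (j : ℕ) : Prop := ds (stabilizer G v) j ≤ ker G V

/-- `m` orbits with stabilizers of derived length at most `j` -/
def Gd (j m : ℕ) : Prop :=
  ∃ x : Fin m → V, (∀ a b (g : G), g • x a = x b → a = b) ∧ ∀ a, St G (x a) j

variable {G V}

theorem Dl.mono {i j : ℕ} (h : Dl G V i) (hij : i ≤ j) : Dl G V j := (ds_anti _ hij).trans h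

theorem St.mono {v : V} {i j : ℕ} (h : St G v i) (hij : i ≤ j) : St G v j := (ds_anti _ hij).trans h

theorem Dl.st {j : ℕ} (h : Dl G V j) (v : V) : St G v j := (ds_mono le_top j).trans h

theorem st_zero {j : ℕ} : St G (0 : V) j ↔ Dl G V j := by
  rw [St, Dl, show stabilizer G (0 : V) = ⊤ from eq_top_iff.2 fun g _ => smul_zero g]

theorem Gd.mono {i j m n : ℕ} (h : Gd G V i m) (hij : i ≤ j) (hm : n ≤ m) : Gd G V j n :=
  let ⟨x, h1, h2⟩ := h
  ⟨fun a => x (Fin.castLE hm a), fun a b g e => Fin.castLE_injective hm (h1 _ _ g e),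
    fun _ => (h2 _).mono hij⟩

theorem St.of_img {v : V} {j : ℕ} (h : St (Img G V) v j) : St G v j := fun g hg =>
  mem_ker.2 (mem_ker.1 (h (ds_comap (toImg G V) (fun _ e => e) j hg)))

theorem Dl.of_img {j : ℕ} (h : Dl (Img G V) V j) : Dl G V j := st_zero.1 (st_zero.2 h).of_img

theorem Gd.of_img {j m : ℕ} (h : Gd (Img G V) V j m) : Gd G V j m :=
  let ⟨x, h1, h2⟩ := h
  ⟨x, fun a b g e => h1 a b (toImg G V g) e, fun a => (h2 a).of_img⟩

theorem Reg.gd {m : ℕ} [NeZero m] (h : Reg G V 1 m) : Gd G V 0 m := by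
  obtain ⟨x, hx⟩ := h
  obtain ⟨k, rfl⟩ := Nat.exists_eq_succ_of_ne_zero (NeZero.ne m)
  have h1 : ∀ (a b : Fin (k + 1)) (g : G), g • x a 0 = x b 0 → g • x a = x b := fun a b g e =>
    funext fun i => by rw [Subsingleton.elim i 0]; exact e
  exact ⟨fun a => x a 0, fun a b g e => (hx a b g (h1 a b g e)).1,
    fun a g hg => mem_ker.2 (hx a a g (h1 a a g hg)).2⟩

theorem red2 [Finite V] (hc : CR G V) (hi : ¬ Irr G V) :
    ∃ (X Y : Type u) (_ : AddCommGroup X) (_ : AddCommGroup Y) (_ : Finite X) (_ : Finite Y)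
      (_ : DistribMulAction G X) (_ : DistribMulAction G Y) (Φ : X → Y → V), Nontrivial X ∧
      Nontrivial Y ∧ CR G X ∧ CR G Y ∧ Nat.card V = Nat.card X * Nat.card Y ∧ Φ 0 0 = 0 ∧
      (∀ (g : G) x y x' y', g • Φ x y = Φ x' y' → g • x = x' ∧ g • y = y') ∧
      ∀ x y j, St G x j → St G y j → St G (Φ x y) j := by
  unfold Irr at hi
  push Not at hi
  obtain ⟨X, hX, h0, h1⟩ := hi
  obtain ⟨Y, hY, h2, h3⟩ := hc X hX
  have h4 : Y ≠ ⊥ := by rintro rfl; simp at h3; exact h1 h3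
  let _ := subAct X hX
  let _ := subAct Y hY
  have htriv : ∀ g : G, (∀ x : X, g • x = x) → (∀ y : Y, g • y = y) → ∀ v : V, g • v = v := by
    intro g hx hy v
    have : v ∈ X ⊔ Y := h3 ▸ trivial
    obtain ⟨x, hx', y, hy', rfl⟩ := AddSubgroup.mem_sup.1 this
    rw [smul_add]
    congr 1
    · exact congrArg Subtype.val (hx ⟨x, hx'⟩)
    · exact congrArg Subtype.val (hy ⟨y, hy'⟩)
  have h5 : ∀ (g : G) (x : X) (y : Y) (x' : X) (y' : Y), g • ((x : V) + y) = x' + y' →
      g • x = x' ∧ g • y = y' := by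
    intro g x y x' y' h6
    have h7 : ((g • x - x' : X) : V) = ((y' - g • y : Y) : V) := by
      show g • (x : V) - x' = y' - g • (y : V)
      rw [smul_add] at h6
      rw [sub_eq_sub_iff_add_eq_add, h6]; abel
    have h8 : ((g • x - x' : X) : V) ∈ X ⊓ Y := ⟨Subtype.property _, h7 ▸ Subtype.property _⟩
    rw [h2, AddSubgroup.mem_bot] at h8
    have h9 : ((y' - g • y : Y) : V) = 0 := h7 ▸ h8
    exact ⟨sub_eq_zero.1 (Subtype.ext h8), (sub_eq_zero.1 (Subtype.ext h9)).symm⟩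
  refine ⟨X, Y, inferInstance, inferInstance, inferInstance, inferInstance, inferInstance,
    inferInstance, fun x y => x + y, (AddSubgroup.nontrivial_iff_ne_bot X).2 h0,
    (AddSubgroup.nontrivial_iff_ne_bot Y).2 h4, hc.sub X hX, hc.sub Y hY, ?_, by simp, h5, ?_⟩
  · have hcomp : IsCompl X Y := ⟨disjoint_iff.2 h2, codisjoint_iff.2 h3⟩
    rw [← Nat.card_prod]
    exact (Nat.card_congr (Submodule.prodEquivOfIsCompl (AddSubgroup.toIntSubmodule X)
      (AddSubgroup.toIntSubmodule Y)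
      ((AddSubgroup.toIntSubmodule (M := V)).isCompl hcomp)).toEquiv).symm
  · intro x y j hx hy g hg
    exact mem_ker.2 (htriv g (mem_ker.1 (hx (ds_mono (fun a ha => (h5 a x y x y ha).1) j hg)))
      (mem_ker.1 (hy (ds_mono (fun a ha => (h5 a x y x y ha).2) j hg))))

end Defs

section Aff
variable {S : Type v} {M : Type u} [Group S] [AddCommGroup M] [DistribMulAction S M]

/-- `π` is affine with linear part `s` -/
def LP (π : Equiv.Perm M) (s : S) : Prop := ∃ t, ∀ x, π x = t + s • x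

theorem LP.mul {π π' : Equiv.Perm M} {s s' : S} (h : LP π s) (h' : LP π' s') :
    LP (π * π') (s * s') := by
  obtain ⟨t, h⟩ := h
  obtain ⟨t', h'⟩ := h'
  exact ⟨t + s • t', fun x => by
    rw [Equiv.Perm.mul_apply, h, h', smul_add, mul_smul, add_assoc]⟩

theorem LP.inv {π : Equiv.Perm M} {s : S} (h : LP π s) : LP π⁻¹ s⁻¹ := by
  obtain ⟨t, h⟩ := h
  exact ⟨-(s⁻¹ • t), fun x => by
    rw [Equiv.Perm.inv_eq_iff_eq, h, smul_add, smul_neg, smul_inv_smul, smul_inv_smul]; abel⟩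

variable (M) in
/-- the affine group with linear parts in `L` -/
def Aff (L : Subgroup S) : Subgroup (Equiv.Perm M) where
  carrier := {π | ∃ s ∈ L, LP π s}
  one_mem' := ⟨1, L.one_mem, 0, by simp⟩
  mul_mem' := fun ⟨s, hs, h⟩ ⟨s', hs', h'⟩ => ⟨_, L.mul_mem hs hs', h.mul h'⟩
  inv_mem' := fun ⟨s, hs, h⟩ => ⟨_, L.inv_mem hs, h.inv⟩

theorem ds_aff (L : Subgroup S) : ∀ j, ds (Aff M L) j ≤ Aff M (ds L j)
  | 0 => le_rfl
  | j + 1 => commutator_le.2 fun a ha b hb => by
    obtain ⟨s, hs, h⟩ := ds_aff L j ha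
    obtain ⟨s', hs', h'⟩ := ds_aff L j hb
    exact ⟨_, commutator_mem_commutator hs hs', ((h.mul h').mul h.inv).mul h'.inv⟩

theorem Dl.aff {j : ℕ} (h : Dl S M j) : ds (Aff M (⊤ : Subgroup S)) (j + 1) = ⊥ := by
  refine eq_bot_iff.2 ((ds_step (ds_aff ⊤ j) 1).trans (ds_one_le fun a ha b hb => ?_))
  obtain ⟨s, hs, t, k⟩ := ha
  obtain ⟨s', hs', t', k'⟩ := hb
  rw [mem_bot, mul_inv_eq_one, mul_inv_eq_iff_eq_mul]
  ext x
  simp only [Equiv.Perm.mul_apply, k, k', mem_ker.1 (h hs), mem_ker.1 (h hs')]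
  abel

theorem aff_solv [Group.IsSolvable S] : Group.IsSolvable (Aff M (⊤ : Subgroup S)) := by
  obtain ⟨j, hj⟩ := ‹Group.IsSolvable S›
  exact ⟨j + 1, ds_eq_bot.1 (Dl.aff (((ds_top j).trans hj).le.trans bot_le))⟩

end Aff

theorem aff2 {G : Type u} [Group G] [Finite G] [Group.IsSolvable G] {H : Subgroup G}
    (hH : IsCoatom H) :
    ∃ (S M : Type u) (_ : Group S) (_ : Finite S) (_ : AddCommGroup M) (_ : Finite M)
      (_ : DistribMulAction S M) (pt : M → G) (ψ : G →* Equiv.Perm M), Group.IsSolvable S ∧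
      Nontrivial M ∧ Irr S M ∧ Nat.card S ∣ Nat.card G ∧ Nat.card M ∣ Nat.card G ∧
      (∀ m m', (pt m)⁻¹ * pt m' ∈ H → m = m') ∧ (∀ g, ψ g ∈ Aff M (⊤ : Subgroup S)) ∧
      (∀ g m, (pt (ψ g m))⁻¹ * g * pt m ∈ H) ∧ ψ.ker ≤ H.normalCore := by
  obtain ⟨S, M, _, _, _, _, _, pt, hS, hM, hirr, hd1, hd2, -, hinj, haff⟩ := affine hH
  choose t s h1 h2 using haff
  have hu : ∀ g m m', (pt m')⁻¹ * g * pt m ∈ H → t g + s g • m = m' := fun g m m' e =>
    hinj _ _ (by simpa [mul_assoc] using H.mul_mem (h1 g m) (H.inv_mem e))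
  let _ : MulAction G M :=
    { smul := fun g m => t g + s g • m
      one_smul := fun m => hu 1 m m (by simp)
      mul_smul := fun a b m => hu _ m (t a + s a • (t b + s b • m)) (by
        simpa only [mul_assoc, mul_inv_cancel_left] using
          H.mul_mem (h1 a (t b + s b • m)) (h1 b m)) }
  refine ⟨S, M, inferInstance, inferInstance, inferInstance, inferInstance, inferInstance, pt,
    MulAction.toPermHom G M, hS, hM, hirr, hd1, hd2, hinj, fun g => ⟨s g, trivial, t g, fun _ => rfl⟩,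
    h1, fun g hg => ?_⟩
  have h3 : ∀ m, t g + s g • m = m := fun m => Equiv.ext_iff.1 hg m
  have h4 : t g = 0 := by simpa using h3 0
  exact h2 g h4 fun m => by simpa [h4] using h3 m

theorem imp2 {G V : Type u} [Group G] [Finite G] [AddCommGroup V] [Finite V] [DistribMulAction G V]
    [Group.IsSolvable G] (hi : Irr G V) (h : ∃ ε : Module.End ℤ V, Sys G ε) :
    ∃ (H : Subgroup G) (X S M : Type u) (_ : AddCommGroup X) (_ : Finite X)
      (_ : DistribMulAction H X) (_ : Group S) (_ : Finite S) (_ : AddCommGroup M) (_ : Finite M)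
      (_ : DistribMulAction S M) (Φ : (M → X) → V), Nontrivial X ∧ Irr H X ∧ Group.IsSolvable S ∧
      Nontrivial M ∧ Irr S M ∧ Nat.card S ∣ Nat.card G ∧ Nat.card M ∣ Nat.card G ∧
      Nat.card V = Nat.card X ^ Nat.card M ∧ Φ 0 = 0 ∧
      (∀ (g : G) w w', g • Φ w = Φ w' →
        ∃ π ∈ Aff M (⊤ : Subgroup S), (g = 1 → π = 1) ∧ ∀ m, ∃ a : H, a • w m = w' (π m)) ∧
      ∀ w i j (P : Subgroup (Equiv.Perm M)), (∀ π ∈ Aff M (⊤ : Subgroup S),
        (∀ m, ∃ a : H, a • w m = w (π m)) → π ∈ P) → ds P i = ⊥ → (∀ m, St H (w m) j) →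
        St G (Φ w) (i + j) := by
  classical
  obtain ⟨ε, hε, hH⟩ := exists_max_sys hi h
  set H := stab G ε with hHdef
  obtain ⟨S, M, _, _, _, _, _, pt, ψ, hS, hM, hirr, hd1, hd2, hinj, hA, hψ, hker⟩ := aff2 hH
  let X : AddSubgroup V := (LinearMap.range ε).toAddSubgroup
  have hX : Inv H V X := by
    rintro g _ ⟨v, rfl⟩
    exact ⟨(g : G) • v, by rw [Subgroup.smul_def, ← cg_smul, g.2]⟩
  let _ := subAct X hX
  have hεX : ∀ x : X, ε x = x := by
    rintro ⟨_, v, rfl⟩
    exact LinearMap.congr_fun hε.1 v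
  have _ : Fintype M := Fintype.ofFinite M
  have hproj : ∀ m m' (x : X), cg (pt m) ε (pt m' • (x : V)) = if m = m' then pt m' • (x : V) else 0 := by
    intro m m' x
    split_ifs with e
    · rw [e, cg_smul, hεX]
    · have : cg (pt m) ε * cg (pt m') ε = 0 := hε.orth fun e' => e (hinj _ _ (cg_eq_iff.1 e'))
      have h2 := LinearMap.congr_fun this (pt m' • (x : V))
      rwa [Module.End.mul_apply, cg_smul, hεX] at h2
  let Φ : (M → X) → V := fun w => ∑ m, pt m • (w m : V)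
  have hΦ : ∀ w m, cg (pt m) ε (Φ w) = pt m • (w m : V) := by
    intro w m
    simp only [Φ, map_sum, hproj, Finset.sum_ite_eq, Finset.mem_univ, if_true]
  have hsum : ∀ v : V, ∑ m, cg (pt m) ε v = v := by
    intro v
    have h1 : ∑ m, cg (pt m) ε = ∑ η ∈ orb ε (⊤ : Subgroup G), η := by
      refine Finset.sum_bij (fun m _ => cg (pt m) ε) (fun m _ => mem_orb.2 ⟨_, trivial, rfl⟩)
        (fun a _ b _ e => hinj _ _ (cg_eq_iff.1 e)) ?_ (fun _ _ => rfl)
      intro η hη
      obtain ⟨g, -, rfl⟩ := mem_orb.1 hη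
      refine ⟨ψ (g * (pt 0)⁻¹) 0, Finset.mem_univ _, cg_eq_iff.2 ?_⟩
      simpa [mul_assoc] using hψ (g * (pt 0)⁻¹) 0
    rw [← LinearMap.sum_apply, h1, hε.sum_top hi, Module.End.one_apply]
  have hsurj : ∀ v, ∃ w, Φ w = v := fun v =>
    ⟨fun m => ⟨ε ((pt m)⁻¹ • v), _, rfl⟩, hsum v⟩
  have hact : ∀ (g : G) (w w' : M → X) (m m' : M) (h1 : (pt m')⁻¹ * g * pt m ∈ H),
      g • Φ w = Φ w' → (⟨_, h1⟩ : H) • w m = w' m' := by
    intro g w w' m m' h1 e
    have h2 := hΦ w' m'
    rw [← e, cg_eq_iff.2 (show (pt m')⁻¹ * (g * pt m) ∈ H by rwa [← mul_assoc]), cg_mul, cg_smul,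
      hΦ] at h2
    apply Subtype.ext
    show ((pt m')⁻¹ * g * pt m) • (w m : V) = w' m'
    rw [mul_smul, mul_smul, h2, inv_smul_smul]
  have htriv : ∀ g : G, (∀ m (x : X), ((pt m)⁻¹ * g * pt m) • (x : V) = x) → ∀ v : V, g • v = v := by
    intro g hg v
    obtain ⟨w, rfl⟩ := hsurj v
    simp only [Φ, Finset.smul_sum]
    refine Finset.sum_congr rfl fun m _ => ?_
    have := hg m (w m)
    rwa [mul_smul, mul_smul, inv_smul_eq_iff] at this
  refine ⟨H, X, S, M, inferInstance, inferInstance, inferInstance, inferInstance, inferInstance,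
    inferInstance, inferInstance, inferInstance, Φ, ?_, ?_, hS, hM, hirr, hd1, hd2, ?_, by simp [Φ],
    fun g w w' e => ⟨ψ g, hA g, fun e' => e' ▸ map_one ψ, fun m => ⟨_, hact g w w' m _ (hψ g m) e⟩⟩,
    ?_⟩
  · refine (AddSubgroup.nontrivial_iff_ne_bot X).2 fun e => hε.2.1 (LinearMap.ext fun v => ?_)
    have : ε v ∈ X := ⟨v, rfl⟩
    rw [e] at this
    exact this
  · intro Y hY
    let Z : AddSubgroup V :=
      { carrier := {v | ∀ g : G, ∃ y ∈ Y, (y : V) = ε (g • v)}
        zero_mem' := fun g => ⟨0, Y.zero_mem, by simp⟩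
        add_mem' := fun {a b} ha hb g => by
          obtain ⟨y, hy, e⟩ := ha g
          obtain ⟨y', hy', e'⟩ := hb g
          exact ⟨y + y', Y.add_mem hy hy', by simp [e, e']⟩
        neg_mem' := fun {a} ha g => by
          obtain ⟨y, hy, e⟩ := ha g
          exact ⟨-y, Y.neg_mem hy, by simp [e]⟩ }
    rcases hi Z (fun g v hv g' => by simpa [mul_smul] using hv (g' * g)) with e | e
    · left
      rw [eq_bot_iff]
      intro y hy
      have : (y : V) ∈ Z := by
        intro g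
        by_cases hg : g ∈ H
        · exact ⟨(⟨g, hg⟩ : H) • y, hY _ y hy, (hεX ((⟨g, hg⟩ : H) • y)).symm⟩
        · refine ⟨0, Y.zero_mem, ?_⟩
          have h1 : cg (1 : G) ε * cg g ε = 0 :=
            hε.orth fun e' => hg (by simpa using cg_eq_iff.1 e')
          have h2 := LinearMap.congr_fun h1 (g • (y : V))
          rw [Module.End.mul_apply, cg_smul, hεX, cg_one] at h2
          exact h2.symm
      rw [e] at this
      exact AddSubgroup.mem_bot.2 (Subtype.ext this)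
    · right
      rw [eq_top_iff]
      intro x _
      obtain ⟨y, hy, e'⟩ := (e ▸ trivial : (x : V) ∈ Z) 1
      rw [one_smul, hεX] at e'
      exact Subtype.ext e' ▸ hy
  · rw [← Nat.card_fun]
    refine (Nat.card_eq_of_bijective Φ ⟨fun w w' e => funext fun m => ?_, hsurj⟩).symm
    have := hΦ w m
    rw [e, hΦ] at this
    exact Subtype.ext (MulAction.injective _ this).symm
  · intro w i j P hP hi hj
    have h1 : ds (stabilizer G (Φ w)) i ≤ stabilizer G (Φ w) ⊓ ψ.ker := le_inf (ds_le _ _) fun g hg => by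
      have := ds_comap ψ (L' := P) (fun a ha => hP _ (hA a) fun m =>
        ⟨_, hact a w w m _ (hψ a m) ha⟩) i hg
      rwa [hi] at this
    refine (ds_step h1 j).trans fun g hg => mem_ker.2 (htriv g fun m x => ?_)
    let φ : ψ.ker →* H :=
      { toFun := fun g => ⟨(pt m)⁻¹ * g * pt m, normalCore_le H
          (by simpa using (normalCore_normal H).conj_mem _ (hker g.2) (pt m)⁻¹)⟩
        map_one' := Subtype.ext (by simp)
        map_mul' := fun a b => Subtype.ext (by simp [mul_assoc]) }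
    rw [← subgroupOf_map_subtype, ← ds_map] at hg
    obtain ⟨g, hg, rfl⟩ := hg
    exact congrArg Subtype.val (mem_ker.1 (hj m (ds_comap φ (L' := stabilizer H (w m))
      (fun a ha => hact a w w m m _ ha) j hg)) x)

end H6.BS
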