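import Cfsg.Agent.H6.SV1

/-! Vector stabilizers in solvable linear groups II: derived lengths of small groups. -/

set_option autoImplicit false
set_option linter.unusedSectionVars false
set_option linter.unusedVariables false
set_option synthInstance.maxSize 100000
set_option synthInstance.maxHeartbeats 400000

open Cfsg Subgroup MulAction

namespace H6.BS
open H19

universe u v

/-- bound for the derived length of a completely reducible group on a module of order `N` -/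
def D (N : ℕ) : ℕ :=
  if N ≤ 2 then 0 else if N = 3 then 1 else if N ≤ 8 then 2 else if N = 16 then 3 else
  if N < 64 then 4 else if N = 81 then 5 else if N < 4096 then 6 else if N < 6561 then 7 else 8

theorem D_lo (N : ℕ) : (4 ≤ N → 2 ≤ D N) ∧ (17 ≤ N → 4 ≤ D N) ∧ (82 ≤ N → 6 ≤ D N) ∧
    (4096 ≤ N → 7 ≤ D N) ∧ (6561 ≤ N → 8 ≤ D N) := by
  unfold D; split_ifs <;> omega

theorem D_hi (N : ℕ) : D N ≤ 8 ∧ (N ≤ 2 → D N = 0) ∧ (N ≤ 8 → D N ≤ 2) ∧ (N < 64 → D N ≤ 4) ∧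
    (N < 4096 → D N ≤ 6) ∧ (N < 6561 → D N ≤ 7) := by
  unfold D; split_ifs <;> omega

theorem dR {x N : ℕ} (h : 2 * x ≤ N) : D x ≤ D N := by
  have := D_lo N
  have := D_hi x
  omega

theorem dI : ∀ x < 256, 2 ≤ x → ∀ m < 16, 2 ≤ m → x ^ m < 65536 → D m + 1 + D x ≤ D (x ^ m) := by
  decide +kernel

theorem dP : ∀ q < 256, ∀ n < 16, q ^ n < 65536 → ∀ e < n + 1, 2 ≤ e → e ∣ (q - 1) ^ e → 2 ≤ q →
    D (e * e) + 2 ≤ D (q ^ n) := by decide +kernel

theorem d64 : (∀ x < 33, D x ≤ 4) ∧ (∀ x < 9, ∀ m < 7, x ^ m = 64 → 2 ≤ m → D m + 1 + D x ≤ 4) ∧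
    ∀ q < 9, ∀ n < 7, q ^ n = 64 → ∀ e < n + 1, 2 ≤ e → e ∣ (q - 1) ^ e → q = 4 ∧ e = 3 := by
  decide +kernel

theorem pow_bd' {a m : ℕ} (ha : 2 ≤ a) (hm : 2 ≤ m) {x y : ℕ} (h : a ^ m < x * x)
    (h' : a ^ m < 2 ^ y) : a < x ∧ m < y := by
  constructor
  · by_contra hh
    exact absurd (((Nat.pow_le_pow_left (not_lt.1 hh) 2).trans
      (Nat.pow_le_pow_right (by omega) hm)).trans_lt h) (by rw [pow_two]; exact lt_irrefl _)
  · exact (Nat.pow_lt_pow_iff_right one_lt_two).1 ((Nat.pow_le_pow_left ha m).trans_lt h')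

/-- possible prime divisors of the order of a primitive group -/
def PD (q g e s : ℕ) : Prop := s ∣ g * (q - 1) * e ∨ ∃ t < e * e + 1, t ∣ e * e ∧ 1 < t ∧ s ∣ t - 1

instance pdDec (q g e s : ℕ) : Decidable (PD q g e s) := by unfold PD; infer_instance

section Small
variable {G : Type v} {V : Type u} [Group G] [AddCommGroup V] [Finite V] [DistribMulAction G V]

theorem dl_prime (hp : (Nat.card V).Prime) : Dl G V 1 := by
  have : Nontrivial V := Finite.one_lt_card_iff_nontrivial.1 hp.one_lt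
  obtain ⟨v, v0⟩ := exists_ne (0 : V)
  have := Fact.mk hp
  have h1 : ∀ w : V, ∃ a : ℤ, a • v = w := fun w => mem_zmultiples_of_prime_card rfl v0
  refine ds_one_le fun a _ b _ => mem_ker.2 fun w => ?_
  have h2 : ∀ w : V, a • b • w = b • a • w := fun w => by
    obtain ⟨i, hi⟩ := h1 (a • v)
    obtain ⟨j, hj⟩ := h1 (b • v)
    obtain ⟨k, rfl⟩ := h1 w
    simp only [smul_comm _ k, ← hi, ← hj, smul_comm a j, smul_comm b i]
    rw [smul_comm i j]
  simp only [mul_smul]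
  rw [h2, smul_inv_smul, smul_inv_smul]

theorem dl_two (h : Nat.card V ≤ 2) : Dl G V 0 := fun g _ => mem_ker.2 fun v => by
  by_contra hv
  have v0 : v ≠ 0 := by rintro rfl; exact hv (smul_zero g)
  have h1 : g • v ≠ 0 := fun e => v0 ((smul_eq_zero_iff_eq g).1 e)
  have _ := Fintype.ofFinite V
  rw [Nat.card_eq_fintype_card] at h
  exact absurd (Fintype.two_lt_card_iff.2 ⟨0, v, g • v, v0.symm, h1.symm, Ne.symm hv⟩) (by omega)

theorem prime_ord {G : Type u} [Group G] [DistribMulAction G V] [Finite G] {s : ℕ} (hs : s.Prime) {y : G} (hy : orderOf y = s)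
    (h1 : ¬ ∀ v : V, y • v = v) (h2 : ¬ s ∣ Nat.card V) :
    1 < Nat.card (Cm V y) ∧ s ∣ Nat.card (Cm V y) - 1 := by
  have h3 := Fx_inf_Cm (W := V) (g := y) (s := s) (fun w => by rw [← hy, pow_orderOf_eq_one, one_smul])
    ((Nat.Prime.coprime_iff_not_dvd hs).2 h2)
  exact ⟨(AddSubgroup.one_lt_card_iff_ne_bot _).2 fun e => h1 (Cm_eq_bot.1 e),
    (Nat.modEq_iff_dvd' Nat.card_pos).1
      (card_modEq_one hs hy _ (fun w hw => smul_mem_Cm hw) ((inf_comm _ _).trans h3)).symm⟩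

end Small

section Pr
variable {G V K W : Type u} [Group G] [Finite G] [AddCommGroup V] [Finite V] [Nontrivial V]
  [DistribMulAction G V] [FaithfulSMul G V] [Field K] [Finite K] [Module K V] [AddCommGroup W]
  [Finite W] [DistribMulAction G W] {U A E : Subgroup G} {sc : G → Kˣ} {σ : G →* RingAut K}
  {π : G → W}

namespace Prim
variable (h : Prim (V := V) U A E sc σ π)
include h

theorem ds_A : ds (⊤ : Subgroup G) 1 ≤ A := ds_one_le fun a _ b _ => by
  have := H22.isCyclic_ringAut (F := K)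
  rw [h.hA, MonoidHom.mem_ker]
  simp only [map_mul, map_inv]
  rw [IsCyclic.isMulCommutative.is_comm.comm (σ a), mul_inv_cancel_right, mul_inv_cancel]

theorem ds_E {j : ℕ} (hj : 1 ≤ j) (hW : Dl G W j) : ds (⊤ : Subgroup G) j ≤ E := fun g hg =>
  h.mem_E (h.ds_A (ds_anti _ hj hg)) (mem_ker.1 (hW hg))

theorem ds_U : ds U 1 ≤ ker G V := ds_one_le fun a ha b hb => by
  rw [h.comm (h.EA (h.UE ha)) hb, mul_inv_cancel_right, mul_inv_cancel]
  exact one_mem _

theorem dl {j : ℕ} (hj : 1 ≤ j) (hW : Dl G W j) : Dl G V (j + 2) :=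
  (ds_step (h.ds_E hj hW) 2).trans ((ds_step (i := 1)
    (ds_one_le fun _ ha _ hb => h.comm_U ha hb) 1).trans h.ds_U)

theorem dl_one (hW : Nat.card W = 1) : Dl G V 2 := by
  have : Subsingleton W := (Nat.card_eq_one_iff_unique.1 hW).1
  refine (ds_step (i := 1) (fun g hg => ?_) 1).trans h.ds_U
  exact (h.π_zero g (h.mem_E (h.ds_A hg) fun _ => Subsingleton.elim _ _)).1 (Subsingleton.elim _ _)

theorem U_free {v : V} (v0 : v ≠ 0) {x : G} (hx : x ∈ U) (e : x • v = v) : x = 1 := by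
  by_contra x1
  exact v0 (AddSubgroup.mem_bot.1 (h.Fx_U hx x1 ▸ mem_Fx.2 e))

theorem st {j : ℕ} (hj : 1 ≤ j) (hW : Dl G W j) {v : V} (v0 : v ≠ 0) : St G v (j + 1) := by
  refine (ds_step (le_inf ((ds_mono le_top j).trans (h.ds_E hj hW)) (ds_le _ j)) 1).trans
    (ds_one_le fun a ha b hb => ?_)
  rw [h.U_free v0 (h.comm_U ha.1 hb.1) (mul_mem (mul_mem (mul_mem ha.2 hb.2) (inv_mem ha.2))
    (inv_mem hb.2) : _ ∈ stabilizer G v)]
  exact one_mem _

theorem st_triv (hW : ∀ (g : G) (w : W), g • w = w) {v : V} (v0 : v ≠ 0) : St G v 1 := by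
  have := H22.isCyclic_ringAut (F := K)
  have h1 : (σ.comp (stabilizer G v).subtype).ker ≤ center (stabilizer G v) := fun x hx => by
    have hE : (x : G) ∈ E := h.mem_E (h.hA ▸ hx) (hW x)
    refine mem_center_iff.2 fun g => Subtype.ext ?_
    have h2 := h.U_free v0 ((h.π_zero _ (h.comm_mem g hE)).1 (by rw [h.π_comm g hE, hW, sub_self]))
      (g * x * g⁻¹ * x⁻¹).2
    rwa [mul_inv_eq_one, mul_inv_eq_iff_eq_mul] at h2
  refine ds_one_le fun a ha b hb => ?_
  have h3 := congrArg Subtype.val ((MonoidHom.isMulCommutative_of_isCyclic_of_ker_le_center _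
    h1).is_comm.comm ⟨a, ha⟩ ⟨b, hb⟩)
  rw [show a * b = b * a from h3, mul_inv_cancel_right, mul_inv_cancel]
  exact one_mem _

theorem pd {e s : ℕ} (he : Nat.card W = e * e) (hs : s.Prime) (hd : s ∣ Nat.card G) :
    PD (Nat.card K) A.index e s := by
  by_contra hh
  unfold PD at hh
  push Not at hh
  have h1 : ¬ s ∣ Nat.card W := fun e' => hh.1
    (((hs.dvd_mul.1 (he ▸ e')).elim id id).mul_left _)
  rw [h.card_G, hs.dvd_mul, hs.dvd_mul, hs.dvd_mul] at hd
  rcases hd with ((k | k) | k) | k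
  · exact hh.1 ((k.mul_right _).mul_right _)
  · exact hh.1 (((k.trans h.u_dvd).mul_left _).mul_right _)
  · exact h1 k
  · have := Fact.mk hs
    obtain ⟨y, hy⟩ := exists_prime_orderOf_dvd_card' s (k.trans (card_subgroup_dvd_card _))
    obtain ⟨k1, k2⟩ := prime_ord hs hy (fun e' => hs.one_lt.ne' (by
      rw [← hy, eq_one_of_triv e', orderOf_one])) h1
    have k3 : Nat.card (Cm W y) ∣ e * e := he ▸ AddSubgroup.card_addSubgroup_dvd_card _
    exact hh.2 _ (Nat.lt_succ_of_le (Nat.le_of_dvd (he ▸ Nat.card_pos) k3)) k3 k1 k2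

end Prim
end Pr

/-- the table holds below `N` -/
def Tc (N : ℕ) : Prop := ∀ (G V : Type u) [Group G] [Finite G] [Group.IsSolvable G]
  [AddCommGroup V] [Finite V] [DistribMulAction G V], Nat.card V < N → Nat.card V < 65536 →
  CR G V → Dl G V (D (Nat.card V))

theorem dl_step {G V : Type u} [Group G] [Finite G] [Group.IsSolvable G] [AddCommGroup V] [Finite V]
    [Nontrivial V] [DistribMulAction G V] [FaithfulSMul G V] (ih : Tc.{u} (Nat.card V))
    (hN : Nat.card V < 65536) (hcr : CR G V) :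
    (∃ x y, 2 * x ≤ Nat.card V ∧ 2 * y ≤ Nat.card V ∧ Dl G V (max (D x) (D y))) ∨
    (∃ x m, 2 ≤ x ∧ 2 ≤ m ∧ Nat.card V = x ^ m ∧ Dl G V (D m + 1 + D x)) ∨ Dl G V 2 ∨
    ∃ q n e q0 g, 2 ≤ q ∧ Nat.card V = q ^ n ∧ 2 ≤ e ∧ e ≤ n ∧ e ∣ (q - 1) ^ e ∧ 2 ≤ q0 ∧
      q = q0 ^ g ∧ Dl G V (D (e * e) + 2) ∧ ∀ s, s.Prime → s ∣ Nat.card G → PD q g e s := by
  rcases tri (G := G) (V := V) with hi | ⟨hi, hs⟩ | ⟨hi, hs⟩
  · obtain ⟨X, Y, _, _, _, _, _, _, Φ, hX, hY, cX, cY, h1, h2, -, h3⟩ := red2 hcr hi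
    have x2 : 2 ≤ Nat.card X := Finite.one_lt_card
    have y2 : 2 ≤ Nat.card Y := Finite.one_lt_card
    have k1 : 2 * Nat.card X ≤ Nat.card V := by rw [h1]; nlinarith
    have k2 : 2 * Nat.card Y ≤ Nat.card V := by rw [h1]; nlinarith
    exact Or.inl ⟨_, _, k1, k2, st_zero.1 (h2 ▸ h3 0 0 _
      (((ih G X (by omega) (by omega) cX).mono (le_max_left _ _)).st 0)
      (((ih G Y (by omega) (by omega) cY).mono (le_max_right _ _)).st 0))⟩
  · obtain ⟨H, X, S, M, _, _, _, _, _, _, _, _, Φ, hX, iX, sS, hM, iM, -, -, h1, h2, -, h3⟩ :=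
      imp2 hi hs
    have x2 : 2 ≤ Nat.card X := Finite.one_lt_card
    have m2 : 2 ≤ Nat.card M := Finite.one_lt_card
    have k1 : Nat.card X < Nat.card V := h1 ▸ lt_self_pow₀ x2 m2
    have k2 : Nat.card M < Nat.card V := h1 ▸ Nat.lt_pow_self x2
    exact Or.inr (Or.inl ⟨_, _, x2, m2, h1, st_zero.1 (h2 ▸ h3 0 _ _ _ (fun _ k _ => k)
      (ih S M k2 (by omega) iM.cr).aff fun _ => (ih H X k1 (by omega) iX.cr).st _)⟩)
  obtain ⟨K, W, _, _, _, _, _, _, U, A, E, sc, σ, π, h⟩ := exists_prim hi hs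
  obtain ⟨p, f, q0, e, hp, hf, hq, h0, h1, -, hn, he, e1, en, -, uc, hr, hlt, -⟩ :=
    h.data (Nat.coprime_one_right _)
  rcases e1.eq_or_lt with rfl | e2
  · exact Or.inr (Or.inr (Or.inl (h.dl_one he)))
  have hq2 : 2 ≤ Nat.card K := Finite.one_lt_card
  refine Or.inr (Or.inr (Or.inr ⟨_, _, e, q0, _, hq2, Module.natCard_eq_pow_finrank (K := K), e2, en,
    by simpa [umax] using dvd_umax_pow hq2 e1 h.u_dvd uc hr, h0, hq.trans h1,
    h.dl ?_ (he ▸ ih G W (he ▸ hlt) (by omega) h.cr), fun s hs hd => h.pd he hs hd⟩))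
  exact one_le_two.trans ((D_lo _).1 (Nat.mul_le_mul e2 e2))

theorem tc (N : ℕ) : Tc.{u} N := by
  induction N using Nat.strong_induction_on with
  | _ N ih =>
  intro G V _ _ _ _ _ _ hN h1 hcr
  have := img_solvable (G := G) (V := V)
  rcases le_or_gt (Nat.card V) 2 with h2 | h2
  · exact (dl_two h2).mono (Nat.zero_le _)
  by_cases h3 : Nat.card V = 3
  · exact (dl_prime (h3 ▸ Nat.prime_three)).mono (by rw [h3]; rfl)
  have : Nontrivial V := Finite.one_lt_card_iff_nontrivial.1 (by omega)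
  refine Dl.of_img ?_
  rcases dl_step (ih _ hN) h1 hcr.img with ⟨x, y, k1, k2, k⟩ | ⟨x, m, k1, k2, k3, k⟩ | k |
    ⟨q, n, e, q0, g, k1, k2, k3, k4, k5, -, -, k, -⟩
  · exact k.mono (max_le (dR k1) (dR k2))
  · rw [k3] at h1
    obtain ⟨k4, k5⟩ := pow_bd' (x := 256) (y := 16) k1 k2 h1 h1
    exact k.mono (k3 ▸ dI x k4 k1 m k5 k2 h1)
  · exact k.mono ((D_lo _).1 (by omega))
  · rw [k2] at h1
    obtain ⟨k6, k7⟩ := pow_bd' (x := 256) (y := 16) k1 (k3.trans k4) h1 h1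
    exact k.mono (k2 ▸ dP q k6 n k7 h1 e (by omega) k3 k5 k1)

theorem dl_table {G V : Type u} [Group G] [Finite G] [Group.IsSolvable G] [AddCommGroup V] [Finite V]
    [DistribMulAction G V] {N : ℕ} (hN : Nat.card V = N) (h : N < 65536) (hcr : CR G V) :
    Dl G V (D N) := hN ▸ tc _ G V (Nat.lt_succ_self _) (hN ▸ h) hcr

theorem dl64 {G V : Type u} [Group G] [Finite G] [Group.IsSolvable G] [AddCommGroup V] [Finite V]
    [DistribMulAction G V] (hN : Nat.card V = 64) (hcr : CR G V) :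
    Dl G V 4 ∨ ∀ s, s.Prime → s ∣ ord G V → s ∣ 6 := by
  have := img_solvable (G := G) (V := V)
  have : Nontrivial V := Finite.one_lt_card_iff_nontrivial.1 (by omega)
  rcases dl_step (tc _) (by omega) hcr.img with ⟨x, y, k1, k2, k⟩ | ⟨x, m, k1, k2, k3, k⟩ | k |
    ⟨q, n, e, q0, g, k1, k2, k3, k4, k5, k6, k7, -, k⟩
  · exact Or.inl (k.of_img.mono (max_le (d64.1 x (by omega)) (d64.1 y (by omega))))
  · obtain ⟨k4, k5⟩ := pow_bd' (x := 9) (y := 7) k1 k2 (by omega) (by omega)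
    exact Or.inl (k.of_img.mono (d64.2.1 x k4 m k5 (by omega) k2))
  · exact Or.inl (k.of_img.mono (by omega))
  · obtain ⟨k8, k9⟩ := pow_bd' (x := 9) (y := 7) k1 (k3.trans k4) (by omega) (by omega)
    obtain ⟨rfl, rfl⟩ := d64.2.2 q k8 n k9 (by omega) e (by omega) k3 k5
    refine Or.inr fun s hs hd => ?_
    have h1 : g < 3 := (Nat.pow_lt_pow_iff_right one_lt_two).1
      ((Nat.pow_le_pow_left k6 g).trans_lt (by omega))
    have h2 : s ∣ 6 ^ 3 := by
      rcases k s hs (card_img (G := G) (V := V) ▸ hd) with k | ⟨t, k1, k2, k3, k⟩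
      · interval_cases g
        · simp at k7
        all_goals exact k.trans (by norm_num)
      · interval_cases t <;> first | omega | exact k.trans (by norm_num)
    exact hs.dvd_of_dvd_pow h2

/-- bound for the derived length of a solvable permutation group of degree `n ≤ 8` -/
def dp (n : ℕ) : ℕ := if n ≤ 1 then 0 else if n = 2 then 1 else if n = 3 then 2 else
  if n ≤ 7 then 3 else 4

theorem dpI : ∀ n < 9, ∀ i < 9, ∀ r < 9, ∀ m < i + 1, 2 ≤ i → 1 ≤ r → r * i ≤ n →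
    D m + 1 + dp r ≤ dp n := by decide +kernel

theorem ds_index (n : ℕ) (hn : n < 9) : ∀ (G : Type u) [Group G] [Finite G] [Group.IsSolvable G]
    (H : Subgroup G), H.index ≤ n → ds (⊤ : Subgroup G) (dp n) ≤ H := by
  induction n using Nat.strong_induction_on with
  | _ n ih =>
  intro G _ _ _ H hH
  rcases eq_top_or_exists_le_coatom H with rfl | ⟨L, hL, hHL⟩
  · exact le_top
  obtain ⟨S, M, _, _, _, _, _, pt, ψ, hS, hM, hirr, -, -, hinj, hA, -, hker⟩ := aff2 hL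
  have h1 : Nat.card M ≤ L.index := Nat.card_le_card_of_injective (fun m => (pt m : G ⧸ L))
    fun a b e => hinj a b (QuotientGroup.eq.1 e)
  have h2 := relIndex_mul_index hHL
  have h3 : 1 < L.index := one_lt_index_of_ne_top hL.1
  have h4 : 0 < H.relIndex L := Nat.pos_of_ne_zero index_ne_zero_of_finite
  have h5 : L.index < 9 := by nlinarith
  have h6 : H.relIndex L < n := by nlinarith
  have h7 : ds (⊤ : Subgroup G) (D (Nat.card M) + 1) ≤ L := fun g hg => by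
    have := ds_comap ψ (fun a _ => hA a) _ hg
    rw [(dl_table rfl (by omega) hirr.cr).aff] at this
    exact normalCore_le L (hker this)
  refine (ds_anti _ (dpI n hn _ h5 _ (by omega) _ (Nat.lt_succ_of_le h1) h3 h4 (by omega))).trans
    ((ds_step h7 _).trans ?_)
  rw [← ds_sub]
  exact map_le_iff_le_comap.2 (ih _ h6 (by omega) L (H.subgroupOf L) le_rfl)

theorem ds_fix {M : Type u} [Finite M] (P : Subgroup (Equiv.Perm M)) [Group.IsSolvable P]
    (Δ : Set M) (h : ∀ π ∈ P, ∀ y ∈ Δ, π y ∈ Δ) {n : ℕ} (hn : n < 9) (hΔ : Δ.ncard ≤ n) :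
    ∀ π ∈ ds P (dp n), ∀ y ∈ Δ, π y = y := by
  intro π hπ y hy
  rw [← ds_sub] at hπ
  obtain ⟨π, hπ, rfl⟩ := hπ
  refine ds_index n hn P (stabilizer P y) ?_ hπ
  rw [index_stabilizer]
  refine le_trans (Set.ncard_le_ncard ?_ (Set.toFinite _)) hΔ
  rintro _ ⟨a, rfl⟩
  exact h a a.2 y hy

end H6.BS
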