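import Cfsg.Agent.H6.SV2

/-! Vector stabilizers in solvable linear groups III: colourings. -/

set_option autoImplicit false
set_option linter.unusedSectionVars false
set_option linter.unusedVariables false

open Cfsg Subgroup MulAction

namespace H6.BS

universe u

section Cl
variable (S M : Type u) [Group S] [Finite S] [AddCommGroup M] [Finite M] [DistribMulAction S M]

/-- `n` inequivalent colourings with `m` colours whose stabilizers have derived length at most `i` -/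
def Cl (i m n : ℕ) : Prop := ∃ col : Fin n → M → Fin m,
  (∀ a b, (∀ c, Nat.card {y // col a y = c} = Nat.card {y // col b y = c}) → a = b) ∧
  ∀ a, ∃ P : Subgroup (Equiv.Perm M),
    (∀ π ∈ Aff M (⊤ : Subgroup S), (∀ y, col a (π y) = col a y) → π ∈ P) ∧ ds P i = ⊥

variable {S M}

theorem cl_of_col {m : ℕ} (hm : m.Prime) (h : Col S M m) : Cl S M 0 m m := by
  obtain ⟨col, hcol, c, c', hcc⟩ := h
  have := Fact.mk hm
  obtain ⟨k, rfl⟩ := Nat.exists_eq_succ_of_ne_zero hm.ne_zero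
  refine ⟨fun (i : ZMod (k + 1)) y => (col y + i : ZMod (k + 1)), fun (i j : ZMod (k + 1)) hij => ?_,
    fun i => ⟨⊥, ?_, rfl⟩⟩
  · by_contra hne
    have h4 : ∀ d, Nat.card {x // col x = d} = Nat.card {x // col x = d + (i - j)} := by
      intro d
      have := hij (d + i : ZMod (k + 1))
      refine Eq.trans (Nat.card_congr (Equiv.subtypeEquivRight fun y => ?_))
        (this.trans (Nat.card_congr (Equiv.subtypeEquivRight fun y => ?_)))
      · exact add_right_cancel_iff.symm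
      · show col y + j = d + i ↔ col y = d + (i - j)
        exact ⟨fun e => by linear_combination e, fun e => by linear_combination e⟩
    have h5 : ∀ n : ℕ, Nat.card {x // col x = c} = Nat.card {x // col x = c + n * (i - j)} := by
      intro n
      induction n with
      | zero => simp
      | succ n ih =>
        have : c + ((n + 1 : ℕ) : ZMod (k + 1)) * (i - j) = c + n * (i - j) + (i - j) := by
          push_cast; ring
        rw [this, ← h4, ← ih]
    apply hcc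
    rw [h5 ((c' - c) / (i - j)).val, ZMod.natCast_zmod_val, div_mul_cancel₀ _ (sub_ne_zero.2 hne),
      add_sub_cancel]
  · rintro π ⟨s, -, t, ht⟩ e
    obtain ⟨h1, h2⟩ := hcol t s fun y => add_right_cancel (ht y ▸ e y)
    exact mem_bot.2 (Equiv.ext fun y => by rw [ht, h1, h2, zero_add]; rfl)

/-- the setwise stabilizer -/
def SS (Δ : Set M) : Subgroup (Equiv.Perm M) where
  carrier := {π | ∀ y, π y ∈ Δ ↔ y ∈ Δ}
  one_mem' := fun _ => Iff.rfl
  mul_mem' := fun {a b} ha hb y => (ha _).trans (hb y)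
  inv_mem' := fun {a} ha y => by rw [← ha]; simp

theorem cl_sets {i n : ℕ} (Δ : Fin n → Set M) (h1 : ∀ a b, (Δ a).ncard = (Δ b).ncard → a = b)
    (h2 : ∀ a, ds (Aff M (⊤ : Subgroup S) ⊓ SS (Δ a)) i = ⊥) : Cl S M i 2 n := by
  classical
  have h3 : ∀ a y, (if y ∈ Δ a then (0 : Fin 2) else 1) = 0 ↔ y ∈ Δ a := fun a y => by
    split_ifs with e <;> simp [e]
  refine ⟨fun a y => if y ∈ Δ a then 0 else 1, fun a b e => h1 a b ?_,
    fun a => ⟨_, fun π hπ e => mem_inf.2 ⟨hπ, fun y => ?_⟩, h2 a⟩⟩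
  · have := e 0
    simp only [h3] at this
    exact this
  · rw [← h3, ← h3 a y]
    exact iff_of_eq (congrArg (· = 0) (e y))

theorem cl_small {i n : ℕ} (h : ds (Aff M (⊤ : Subgroup S)) i = ⊥) (hn : n ≤ Nat.card M + 1) :
    Cl S M i 2 n := by
  have h1 : ∀ a : Fin n, ∃ Δ : Set M, Δ.ncard = a := fun a =>
    let ⟨t, _, ht⟩ := Set.exists_subset_card_eq (s := (Set.univ : Set M)) (n := a)
      (by rw [Set.ncard_univ]; omega)
    ⟨t, ht⟩
  choose Δ hΔ using h1
  exact cl_sets Δ (fun a b e => Fin.ext (by rw [← hΔ, e, hΔ])) fun a =>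
    eq_bot_iff.2 ((ds_mono inf_le_left i).trans h.le)

theorem cl_point [Nontrivial M] {i : ℕ} (h : ds (Aff M (⊤ : Subgroup S)) i = ⊥) : Cl S M i 3 5 := by
  classical
  let p : Fin 5 → Fin 3 := ![0, 1, 2, 0, 0]
  let q : Fin 5 → Fin 3 := ![0, 1, 2, 1, 2]
  obtain ⟨v, v0⟩ := exists_ne (0 : M)
  have h1 : ∀ a c, Nat.card {y : M // (if y = 0 then p a else q a) = c} ≠ 0 ↔ p a = c ∨ q a = c :=
    fun a c => by
      rw [Nat.card_ne_zero, and_iff_left (Subtype.finite)]
      constructor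
      · rintro ⟨y, hy⟩
        split_ifs at hy
        exacts [Or.inl hy, Or.inr hy]
      · rintro (e | e)
        exacts [⟨⟨0, by rwa [if_pos rfl]⟩⟩, ⟨⟨v, by rwa [if_neg v0]⟩⟩]
  have h2 : ∀ a b, (∀ c, p a = c ∨ q a = c ↔ p b = c ∨ q b = c) → a = b := by decide
  exact ⟨fun a y => if y = 0 then p a else q a, fun a b e => h2 a b fun c => by
    rw [← h1, ← h1, e c], fun a => ⟨_, fun π hπ _ => hπ, h⟩⟩

theorem cl_perm {i : ℕ} (col : M → Fin 3)
    (h1 : Function.Injective fun c => Nat.card {y // col y = c}) (P : Subgroup (Equiv.Perm M))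
    (h2 : ∀ π ∈ Aff M (⊤ : Subgroup S), (∀ y, col (π y) = col y) → π ∈ P) (h3 : ds P i = ⊥) :
    Cl S M i 3 5 := by
  obtain ⟨τ⟩ : Nonempty (Fin 5 ↪ Equiv.Perm (Fin 3)) :=
    Function.Embedding.nonempty_of_card_le (by simp [Fintype.card_perm, Nat.factorial])
  refine ⟨fun a y => (τ a).symm (col y), fun a b e => τ.injective (Equiv.ext fun c => h1 ?_),
    fun a => ⟨P, fun π hπ e => h2 π hπ fun y => (τ a).symm.injective (e y), h3⟩⟩
  have := e c
  simp only [Equiv.symm_apply_eq] at this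
  exact this

variable [Group.IsSolvable S]

theorem ds_SS (hc : CR S M) : ∃ B : Set M, B.ncard ≤ 3 ∧ 0 ∉ B ∧ ∀ (K : Subgroup (Equiv.Perm M))
    (Δ : Set M) (n : ℕ), n < 9 → Δ.ncard ≤ n → B ⊆ Δ → (∀ π ∈ K, ∀ y ∈ Δ, π y ∈ Δ) →
    (0 ∈ Δ ∨ ∀ π ∈ K, π 0 = 0) → ds (Aff M (⊤ : Subgroup S) ⊓ K) (dp n) = ⊥ := by
  obtain ⟨x, y, z, hb⟩ := base_three hc
  refine ⟨{x, y, z} \ {0}, (Set.ncard_le_ncard Set.sdiff_subset).trans ((Set.ncard_insert_le _ _).trans
      (Nat.succ_le_succ (ncard_pair_le _ _))),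
    fun e => e.2 rfl, fun K Δ n hn hΔ hB hK h0 => eq_bot_iff.2 fun π hπ => ?_⟩
  have := aff_solv (S := S) (M := M)
  have : Group.IsSolvable ↥(Aff M (⊤ : Subgroup S) ⊓ K) :=
    Group.isSolvable_of_isSolvable_injective (inclusion_injective inf_le_left)
  have h1 := ds_fix (Aff M (⊤ : Subgroup S) ⊓ K) Δ (fun a ha => hK a ha.2) hn hΔ π hπ
  obtain ⟨⟨s, -, t, ht⟩, h2⟩ := ds_le _ _ hπ
  have h3 : π 0 = 0 := h0.elim (h1 0) fun e => e π h2
  have h4 : t = 0 := by simpa [h3] using (ht 0).symm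
  have h5 : ∀ w ∈ ({x, y, z} : Set M), s • w = w := fun w hw => by
    by_cases w0 : w = 0
    · rw [w0, smul_zero]
    · simpa [ht, h4] using h1 w (hB ⟨hw, w0⟩)
  exact mem_bot.2 (Equiv.ext fun w => by
    rw [ht, h4, zero_add, hb s (h5 x (by simp)) (h5 y (by simp)) (h5 z (by simp))]; rfl)

theorem cl235 [Nontrivial M] (hc : CR S M) : Cl S M 2 3 5 := by
  classical
  by_cases hp : (Nat.card M).Prime
  · exact cl_point (dl_prime hp).aff
  have h2 : 2 ≤ Nat.card M := Finite.one_lt_card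
  have h4 : 4 ≤ Nat.card M := by
    by_contra hh
    obtain e | e : Nat.card M = 2 ∨ Nat.card M = 3 := by omega
    all_goals exact hp (by rw [e]; norm_num)
  obtain ⟨B0, h1, h0, hB⟩ := ds_SS hc
  obtain ⟨B, k1, k2, k3⟩ := Set.exists_subsuperset_card_eq (s := B0) (t := {0}ᶜ) (n := 3)
    (fun y hy e => h0 (e ▸ hy)) h1 (by rw [Set.ncard_compl, Set.ncard_singleton]; omega)
  have b0 : (0 : M) ∉ B := fun e => k2 e rfl
  let col : M → Fin 3 := fun y => if y = 0 then 0 else if y ∈ B then 1 else 2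
  have c0 : ∀ y, col y = 0 ↔ y ∈ ({0} : Set M) := fun y => by
    simp only [col]; split_ifs with e e' <;> simp [e]
  have c1 : ∀ y, col y = 1 ↔ y ∈ B := fun y => by
    simp only [col]; split_ifs with e e' <;> simp [*]
  have c2 : ∀ y, col y = 2 ↔ y ∈ (insert 0 B)ᶜ := fun y => by
    simp only [col]; split_ifs with e e' <;> simp [*]
  have n0 : Nat.card {y // col y = 0} = 1 := by
    simp only [c0]; exact Set.ncard_singleton _
  have n1 : Nat.card {y // col y = 1} = 3 := by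
    simp only [c1]; exact k3
  have n2 : Nat.card {y // col y = 2} = Nat.card M - 4 := by
    simp only [c2]
    exact (Set.ncard_compl _).trans (by rw [Set.ncard_insert_of_notMem b0, k3])
  have h5 : Nat.card M ≠ 5 := fun e => hp (by rw [e]; norm_num)
  have h7 : Nat.card M ≠ 7 := fun e => hp (by rw [e]; norm_num)
  refine cl_perm col (fun a b e => ?_) _ (fun π hπ e => mem_inf.2 ⟨hπ, ?_⟩)
    (hB (SS B ⊓ SS {0}) B 3 (by norm_num) k3.le k1 (fun π hπ y hy => (hπ.1 y).2 hy)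
      (Or.inr fun π hπ => (hπ.2 0).2 rfl))
  · fin_cases a <;> fin_cases b <;> simp only [Fin.zero_eta, Fin.mk_one, Fin.reduceFinMk] at e ⊢ <;>
      omega
  · exact ⟨fun y => by rw [← c1, ← c1, e], fun y => by rw [← c0, ← c0, e]⟩

theorem cl_two [Nontrivial M] (hc : CR S M) : Cl S M 2 2 3 ∨ Cl S M 4 2 5 := by
  have h2 : 2 ≤ Nat.card M := Finite.one_lt_card
  rcases le_or_gt (Nat.card M) 8 with h8 | h8
  · have h1 := dl_table rfl (by omega) hc
    rcases le_or_gt (Nat.card M) 3 with h3 | h3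
    · refine Or.inl (cl_small (h1.mono (j := 1) ?_).aff (by omega))
      unfold D; split_ifs <;> omega
    · exact Or.inr (cl_small (h1.mono (j := 3) (by have := D_hi (Nat.card M); omega)).aff (by omega))
  obtain ⟨B, h1, h0, hB⟩ := ds_SS hc
  have h3 : ∀ a : Fin 5, ∃ Δ : Set M, insert 0 B ⊆ Δ ∧ Δ.ncard = a + 4 := fun a =>
    let ⟨t, k1, _, k2⟩ := Set.exists_subsuperset_card_eq (s := insert 0 B) (t := Set.univ)
      (n := a + 4) (Set.subset_univ _) ((Set.ncard_insert_le _ _).trans (by omega))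
      (by rw [Set.ncard_univ]; omega)
    ⟨t, k1, k2⟩
  choose Δ k1 k2 using h3
  exact Or.inr (cl_sets Δ (fun a b e => Fin.ext (by rw [k2, k2] at e; omega)) fun a =>
    hB _ (Δ a) 8 (by norm_num) (by rw [k2]; omega) ((Set.subset_insert _ _).trans (k1 a))
      (fun π hπ y hy => (hπ y).2 hy) (Or.inl (k1 a (Set.mem_insert _ _))))

theorem cl055 (hc : CR S M) : Cl S M 0 5 5 :=
  let ⟨x, y, z, h⟩ := base_three hc
  cl_of_col Nat.prime_five (col5 ![x, y, z] fun s e => h s (e 0) (e 1) (e 2))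

theorem cl022 (hc : CR S M) (hS : Odd (Nat.card S)) (hM : Odd (Nat.card M)) : Cl S M 0 2 2 :=
  let ⟨x, y, h⟩ := base_two hc (Or.inr (Or.inl hS))
  cl_of_col Nat.prime_two (col2 hS hM ![x, y] fun s e => h s (e 0) (e 1))

end Cl

theorem imp3 {G V : Type u} [Group G] [Finite G] [AddCommGroup V] [Finite V] [DistribMulAction G V]
    [Group.IsSolvable G] (hi : Irr G V) (h : ∃ ε : Module.End ℤ V, Sys G ε) :
    ∃ (H : Subgroup G) (X S M : Type u) (_ : AddCommGroup X) (_ : Finite X)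
      (_ : DistribMulAction H X) (_ : Group S) (_ : Finite S) (_ : AddCommGroup M) (_ : Finite M)
      (_ : DistribMulAction S M), Nontrivial X ∧ Irr H X ∧ Group.IsSolvable S ∧
      Nontrivial M ∧ Irr S M ∧ Nat.card S ∣ Nat.card G ∧ Nat.card M ∣ Nat.card G ∧
      Nat.card V = Nat.card X ^ Nat.card M ∧
      ∀ i j m n, Cl S M i m n → Gd H X j m → Gd G V (i + j) n := by
  obtain ⟨H, X, S, M, _, _, _, _, _, _, _, _, Φ, hX, iX, sS, hM, iM, d1, d2, h1, -, h2, h3⟩ :=
    imp2 hi h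
  refine ⟨H, X, S, M, inferInstance, inferInstance, inferInstance, inferInstance, inferInstance,
    inferInstance, inferInstance, inferInstance, hX, iX, sS, hM, iM, d1, d2, h1, ?_⟩
  rintro i j m n ⟨col, c1, c2⟩ ⟨x, x1, x2⟩
  refine ⟨fun a => Φ fun y => x (col a y), fun a b g e => c1 a b fun c => ?_, fun a => ?_⟩
  · obtain ⟨π, -, -, k⟩ := h2 g _ _ e
    exact Nat.card_congr (Equiv.subtypeEquiv π fun y =>
      let ⟨r, hr⟩ := k y
      iff_of_eq (congrArg (· = c) (x1 _ _ r hr)))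
  · obtain ⟨P, k1, k2⟩ := c2 a
    exact h3 _ i j P (fun π hπ k => k1 π hπ fun y =>
      let ⟨r, hr⟩ := k y
      (x1 _ _ r hr).symm) k2 fun y => x2 _

theorem red3 {G V : Type u} [Group G] [AddCommGroup V] [Finite V] [DistribMulAction G V]
    (hc : CR G V) (hi : ¬ Irr G V) :
    ∃ (X Y : Type u) (_ : AddCommGroup X) (_ : AddCommGroup Y) (_ : Finite X) (_ : Finite Y)
      (_ : DistribMulAction G X) (_ : DistribMulAction G Y), Nontrivial X ∧
      Nontrivial Y ∧ CR G X ∧ CR G Y ∧ Nat.card V = Nat.card X * Nat.card Y ∧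
      (∀ j m, Gd G X j m → Gd G Y j 1 → Gd G V j m) ∧
      ∀ j m, Gd G X j 1 → Gd G Y j m → Gd G V j m := by
  obtain ⟨X, Y, _, _, _, _, _, _, Φ, hX, hY, cX, cY, h1, -, h2, h3⟩ := red2 hc hi
  refine ⟨X, Y, inferInstance, inferInstance, inferInstance, inferInstance, inferInstance,
    inferInstance, hX, hY, cX, cY, h1, ?_, ?_⟩
  · rintro j m ⟨x, x1, x2⟩ ⟨y, -, y2⟩
    exact ⟨fun a => Φ (x a) (y 0), fun a b g e => x1 a b g (h2 g _ _ _ _ e).1,
      fun a => h3 _ _ j (x2 a) (y2 0)⟩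
  · rintro j m ⟨x, -, x2⟩ ⟨y, y1, y2⟩
    exact ⟨fun a => Φ (x 0) (y a), fun a b g e => y1 a b g (h2 g _ _ _ _ e).2,
      fun a => h3 _ _ j (x2 0) (y2 a)⟩

end H6.BS
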