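import Cfsg.Agent.H6.SV2

/-! Vector stabilizers in solvable linear groups IV: the numerical part. -/

set_option autoImplicit false
set_option synthInstance.maxSize 100000
set_option synthInstance.maxHeartbeats 400000

namespace H6.BS

def need (e : ℕ) : ℕ := if D (e * e) ≤ 5 then 2 else if e ≤ 16 then 3 else 5

def OrdOk (q g n e : ℕ) : Prop := (need e - 1) * (g * (q - 1) * (e * e) * ab 1 e) + 1 < q ^ n

instance ordOkDec (q g n e : ℕ) : Decidable (OrdOk q g n e) := by unfold OrdOk; infer_instance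

def NoTwo (q g n : ℕ) : Prop := g = 1 ∧ q - 1 ∣ 4 ∧ q ^ n < 2 ^ 20 ∧
  ∀ i < 20, ∀ j < 20, 2 ^ i * 3 ^ j + 1 < q ^ n → ¬ q ^ n - 1 - 2 ^ i * 3 ^ j ∣ 6 ^ 20

instance noTwoDec (q g n : ℕ) : Decidable (NoTwo q g n) := by unfold NoTwo; infer_instance

def Exc (q g n e : ℕ) : Prop := (e = 8 → NoTwo q g n) ∧ (e ≠ 8 → D (e * e) ≤ 5) ∧
  ∃ s ∈ [5, 7, 11, 13, 19, 23, 41, 61, 127], s ∣ q ^ n - 1 ∧ ¬ PD q g e s

instance excDec (q g n e : ℕ) : Decidable (Exc q g n e) := by unfold Exc; infer_instance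

theorem rA : ∀ p < 256, pp p → ∀ f < 8, 1 ≤ f → p ^ f < 256 → ∀ e < 256, 3 ≤ e → e ≠ 4 →
    e ∣ (p ^ f - 1) ^ e → ∀ g < f + 1, g ∣ f → OrdOk (p ^ f) g e e ∨ (OrdOk (p ^ f) g 13 e ∧
      ∀ n < 13, e ≤ n → OrdOk (p ^ f) g n e ∨ Exc (p ^ f) g n e) := by decide +kernel

theorem rB : ∀ e < 256, 3 ≤ e → (need e - 1) * (e * e * ab 1 e) ≤ 32 * 256 ^ (e - 2) := by
  decide +kernel

theorem OrdOk.mono {q g n n' e : ℕ} (h : OrdOk q g n e) (hn : n ≤ n') (hq : 0 < q) :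
    OrdOk q g n' e := lt_of_lt_of_le h (Nat.pow_le_pow_right hq hn)

theorem f_lt {p f : ℕ} (h : p ^ f < 256) : p < 256 ∨ f = 0 := by
  rcases Nat.eq_zero_or_pos f with e | e
  exacts [Or.inr e, Or.inl ((Nat.le_self_pow e.ne' p).trans_lt h)]

theorem f_lt' {p f : ℕ} (hp : p.Prime) (h : p ^ f < 256) : f < 8 :=
  (Nat.pow_lt_pow_iff_right one_lt_two).1 ((Nat.pow_le_pow_left hp.two_le f).trans_lt h)

theorem numA {p f q0 g n e : ℕ} (hp : p.Prime) (hf : 1 ≤ f) (h0 : 2 ≤ q0) (hq0 : p ^ f = q0 ^ g)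
    (e3 : 3 ≤ e) (e4 : e ≠ 4) (e256 : e < 256) (en : e ≤ n) (he : e ∣ (p ^ f - 1) ^ e) :
    OrdOk (p ^ f) g n e ∨ Exc (p ^ f) g n e := by
  have hq : 0 < p ^ f := pow_pos hp.pos f
  rcases le_or_gt 256 (p ^ f) with h256 | h256
  · refine Or.inl (OrdOk.mono ?_ en hq)
    have h1 := (log_bd h0 hq0 h256).1
    have h2 := (rB e e256 e3).trans (Nat.mul_le_mul_left _ (Nat.pow_le_pow_left h256 _))
    unfold OrdOk
    obtain ⟨d, rfl⟩ := Nat.exists_eq_add_of_le (show 2 ≤ e by omega)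
    obtain ⟨r, hr⟩ := Nat.exists_eq_add_of_le (show 1 ≤ p ^ f from hq)
    rw [Nat.add_sub_cancel_left] at h2
    generalize p ^ f = q at *
    have h3 : q - 1 = r := by omega
    have h4 : 0 < q ^ d := by positivity
    rw [h3, pow_add]
    calc _ = (need (2 + d) - 1) * ((2 + d) * (2 + d) * ab 1 (2 + d)) * (g * r) + 1 := by ring
      _ ≤ 32 * q ^ d * (g * r) + 1 := by gcongr
      _ = q ^ d * r * (32 * g) + 1 := by ring
      _ ≤ q ^ d * r * q + 1 := by gcongr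
      _ < _ := by rw [hr] at h256 ⊢; rw [hr] at h4; nlinarith
  have hgf : g ∣ f := dvd_of_pow_eq hp hf hq0
  rcases rA p ((f_lt h256).resolve_right (by omega)) (pp_of_prime hp) f (f_lt' hp h256) hf h256
    e e256 e3 e4 he g (Nat.lt_succ_of_le (Nat.le_of_dvd hf hgf)) hgf with h | ⟨h, h'⟩
  · exact Or.inl (h.mono en hq)
  · rcases le_or_gt 13 n with h1 | h1
    exacts [Or.inl (h.mono h1 hq), h' n h1 en]

theorem two_three {d : ℕ} (h : ∀ s, s.Prime → s ∣ d → s ∣ 6) (h0 : 0 < d) (h1 : d < 2 ^ 20) :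
    ∃ i < 20, ∃ j < 20, d = 2 ^ i * 3 ^ j := by
  have h2 : d ∣ 2 ^ d * 3 ^ d := by
    rw [← mul_pow]
    exact (Nat.dvd_pow_self_iff h0.ne' (by norm_num)).2 fun r hr => by
      rw [Nat.mem_primeFactors] at hr ⊢
      exact ⟨hr.1, h r hr.1 hr.2.1, by norm_num⟩
  obtain ⟨a, b, ha, hb, rfl⟩ := (Nat.dvd_mul).1 h2
  obtain ⟨i, -, rfl⟩ := (Nat.dvd_prime_pow Nat.prime_two).1 ha
  obtain ⟨j, -, rfl⟩ := (Nat.dvd_prime_pow Nat.prime_three).1 hb
  exact ⟨i, (Nat.pow_lt_pow_iff_right one_lt_two).1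
    ((Nat.le_mul_of_pos_right _ (by positivity)).trans_lt h1), j,
    (Nat.pow_lt_pow_iff_right one_lt_two).1 (((Nat.pow_le_pow_left (by norm_num) j).trans
      (Nat.le_mul_of_pos_left _ (by positivity))).trans_lt h1), rfl⟩

theorem NoTwo.ne {q g n a b : ℕ} (h : NoTwo q g n) (ha : ∀ s, s.Prime → s ∣ a → s ∣ 6)
    (hb : ∀ s, s.Prime → s ∣ b → s ∣ 6) (a0 : 0 < a) (b0 : 0 < b) : q ^ n ≠ 1 + (a + b) := by
  intro e
  obtain ⟨-, -, h1, h2⟩ := h
  obtain ⟨i, hi, j, hj, rfl⟩ := two_three ha a0 (by omega)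
  obtain ⟨k, hk, l, hl, rfl⟩ := two_three hb b0 (by omega)
  refine h2 i hi j hj (by omega) ?_
  rw [show q ^ n - 1 - 2 ^ i * 3 ^ j = 2 ^ k * 3 ^ l by omega, show 6 = 2 * 3 from rfl, mul_pow]
  exact mul_dvd_mul (pow_dvd_pow _ hk.le) (pow_dvd_pow _ hl.le)

theorem crude_one {b j q n e : ℕ} (hb : 3 ≤ b) (hj : 7 ≤ j) (h : 6 * (4 * (j + 2)) ^ 8 < b ^ j)
    (hq : b ≤ q) (hn : 4 * (j + 1) < n) (he : e ≤ n) : Crude 1 q n e := by
  have h1 : ∀ i, j ≤ i → 6 * (4 * (i + 2)) ^ 8 < b ^ i := by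
    intro i hi
    induction i, hi using Nat.le_induction with
    | base => exact h
    | succ i hi ih =>
      have h2 : (4 * (i + 1 + 2)) ^ 8 * 7 ^ 8 ≤ (4 * (i + 2)) ^ 8 * 8 ^ 8 := by
        rw [← mul_pow, ← mul_pow]; exact Nat.pow_le_pow_left (by omega) 8
      have h3 : b ^ i * 3 ≤ b ^ (i + 1) := Nat.mul_le_mul_left _ hb
      omega
  unfold Crude
  obtain ⟨i, hi⟩ := Nat.exists_eq_add_of_le (show 2 ≤ n - 3 * n / 4 by omega)
  rw [one_mul, hi, pow_add, mul_comm (q ^ 2)]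
  refine Nat.mul_lt_mul_of_pos_right ?_ (pow_pos (by omega) _)
  calc _ ≤ 6 * (4 * (i + 2)) ^ 8 := by gcongr; omega
    _ < _ := h1 i (by omega)
    _ ≤ _ := Nat.pow_le_pow_left hq i

theorem Crude.mono' {q q' n e e' : ℕ} (h : Crude 1 q n e') (hq : q ≤ q') (he : e ≤ e')
    (h0 : 0 < q) (hn : 5 ≤ n) : Crude 1 q' n e := by
  unfold Crude at *
  obtain ⟨d, hd⟩ := Nat.exists_eq_add_of_le (show 2 ≤ 1 * (n - 3 * n / 4) by omega)
  rw [hd, pow_add, mul_comm (_ ^ 2)] at h ⊢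
  have h1 := lt_of_mul_lt_mul_right h (Nat.zero_le _)
  have h2 : 0 < q' ^ 2 := pow_pos (by omega) _
  calc _ ≤ 6 * e' ^ 8 * q' ^ 2 := by gcongr
    _ < q ^ d * q' ^ 2 := Nat.mul_lt_mul_of_pos_right h1 h2
    _ ≤ _ := by gcongr

def ab2 (e : ℕ) : ℕ := if e ≤ 16 then T 2 (e * e) else (e * e) ^ 2 / 2

def RC0 (q f n e : ℕ) : Prop := ∀ g < f + 1, g ∣ f → Nat.gcd g 2 = 1 → (q = 7 ∧ n = 9 ∧ e = 9) ∨
  Fine 2 1 1 q g (umax q 2) n e (ab2 e) (db 2 e (ab2 e)) (xb g e (ab2 e))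

instance rc0Dec (q f n e : ℕ) : Decidable (RC0 q f n e) := by unfold RC0; infer_instance

def RC1 (q f n : ℕ) : Prop :=
  Crude 1 q n n ∨ ∀ e < n + 1, 5 ≤ e → Nat.gcd e 2 = 1 → e ∣ umax q 2 ^ e → RC0 q f n e

instance rc1Dec (q f n : ℕ) : Decidable (RC1 q f n) := by unfold RC1; infer_instance

theorem rC : ∀ p < 256, pp p → p ≠ 2 → ∀ f < 8, 1 ≤ f → p ^ f < 256 → ∀ n < 85, 5 ≤ n →
    RC1 (p ^ f) f n := by decide +kernel

def Big2 (q n e a D : ℕ) : Prop :=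
  2 + gen 2 n e a D (q ^ 1) + e * e * a * q ^ (1 + (n + 2) / 2) < 2 * q ^ (n * 1)

instance big2Dec (q n e a D : ℕ) : Decidable (Big2 q n e a D) := by unfold Big2; infer_instance

theorem rD : ∀ n < 85, 5 ≤ n → Crude 1 256 n n ∨ ∀ e < n + 1, 5 ≤ e → Nat.gcd e 2 = 1 →
    Big2 256 n e (ab2 e) (db 2 e (ab2 e)) := by decide +kernel

theorem Big2.mono {q n e a D : ℕ} (h : Big2 256 n e a D) (hq : 256 ≤ q) (hn : 5 ≤ n) :
    Big2 q n e a D := by
  have h1 : Mn (n * 1) fun q => 2 + gen 2 n e a D (q ^ 1) + e * e * a * q ^ (1 + (n + 2) / 2) :=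
    ((Mn.const _ _).add (((((Mn.pow' (by omega)).mul _).mul _).add
      ((Mn.pow' (by omega)).mul _)).add ((Mn.pow' (by omega)).mul _) |>.add
      (Mn.sum _ fun s => (Mn.pow' (by unfold invExp; split_ifs <;> omega)).mul _))).add
      ((Mn.pow (by omega)).mul _)
  have h2 := h1 q hq
  unfold Big2 at *
  refine lt_of_mul_lt_mul_right (h2.trans_lt ?_) (Nat.zero_le (256 ^ (n * 1)))
  calc _ < 2 * 256 ^ (n * 1) * q ^ (n * 1) := Nat.mul_lt_mul_of_pos_right h (by positivity)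
    _ = _ := by ring

theorem Big2.fine {q g u n e a D : ℕ} (h : Big2 q n e a D) (hg : 2 * g ≤ q.sqrt) (hu : u ≤ q)
    (hq : 0 < q) : Fine 2 1 1 q g u n e a D (xb g e a) := by
  unfold Big2 at h
  unfold Fine
  have h1 := lin_le_gen 2 1 q n e a D
  have h2 : q.sqrt * (q ^ n).sqrt ≤ q ^ ((n + 2) / 2) := by
    rw [← Nat.pow_le_pow_iff_left two_ne_zero, mul_pow, ← pow_mul]
    refine (Nat.mul_le_mul (Nat.sqrt_le' _) (Nat.sqrt_le' _)).trans ?_
    rw [← pow_succ']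
    exact Nat.pow_le_pow_right hq (by omega)
  have h3 : per 1 (q ^ n) u ≤ q * (q ^ n).sqrt :=
    (min_le_left _ _).trans (by rw [pow_one]; exact Nat.mul_le_mul_right _ hu)
  have h4 : xb g e a * per 1 (q ^ n) u ≤ e * e * a * q ^ (1 + (n + 2) / 2) :=
    calc _ ≤ 2 * (g * (e * e * a)) * (q * (q ^ n).sqrt) := by gcongr; exact xb_le g e a
      _ = e * e * a * (q * (2 * g * (q ^ n).sqrt)) := by ring
      _ ≤ e * e * a * (q * (q.sqrt * (q ^ n).sqrt)) := by gcongr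
      _ ≤ e * e * a * (q * q ^ ((n + 2) / 2)) := by gcongr
      _ = _ := by ring
  rw [← pow_mul]
  omega

theorem numB {p f g q0 n e u : ℕ} (hp : p.Prime) (p2 : p ≠ 2) (hf : 1 ≤ f) (h0 : 2 ≤ q0)
    (hq0 : p ^ f = q0 ^ g) (hg : g.Coprime 2) (he5 : 5 ≤ e) (hen : e ≤ n) (he : e.Coprime 2)
    (hu : u ∣ p ^ f - 1) (huc : u.Coprime 2) (heu : ∀ r, r.Prime → r ∣ e → r ∣ u) :
    Crude 1 (p ^ f) n e ∨ (p ^ f = 7 ∧ n = 9 ∧ e = 9) ∨
      Fine 2 1 1 (p ^ f) g u n e (ab2 e) (db 2 e (ab2 e)) (xb g e (ab2 e)) := by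
  have hq : 2 ≤ p ^ f := hp.two_le.trans (Nat.le_self_pow (by omega) p)
  have hu1 : u ≤ p ^ f := (Nat.le_of_dvd (by omega) hu).trans (by omega)
  rcases le_or_gt 85 n with h85 | h85
  · refine Or.inl (crude_one (b := 7) (j := 20) (by norm_num) (by norm_num) (by norm_num) ?_
      (by omega) hen)
    obtain ⟨r, hr, hd⟩ := Nat.exists_prime_and_dvd (show e ≠ 1 by omega)
    have h1 := (heu r hr hd).trans hu
    have h2 : Odd (p ^ f) := (hp.odd_of_ne_two p2).pow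
    have h3 : r ≠ 2 := fun e2 => (Nat.coprime_two_right.1 he).not_two_dvd_nat (e2 ▸ hd)
    by_contra hh
    have h4 : r ∣ 2 ^ 2 := by
      obtain ⟨k, hk⟩ := h2
      obtain e | e : p ^ f = 3 ∨ p ^ f = 5 := by omega
      all_goals exact (e ▸ h1).trans (by norm_num)
    exact h3 ((Nat.prime_dvd_prime_iff_eq hr Nat.prime_two).1 (hr.dvd_of_dvd_pow h4))
  rcases le_or_gt 256 (p ^ f) with h256 | h256
  · rcases rD n h85 (by omega) with h | h
    · exact Or.inl (h.mono' h256 hen (by norm_num) (by omega))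
    · exact Or.inr (Or.inr (((h e (by omega) he5 he).mono h256 (by omega)).fine
        (log_bd h0 hq0 h256).2 hu1 (by omega)))
  have hgf : g ∣ f := dvd_of_pow_eq hp hf hq0
  rcases rC p ((f_lt h256).resolve_right (by omega)) (pp_of_prime hp) p2 f (f_lt' hp h256) hf
    h256 n h85 (by omega) with h | h
  · exact Or.inl (h.mono' le_rfl hen (by omega) (by omega))
  rcases h e (by omega) he5 he (dvd_umax_pow hq (by omega) hu huc heu) g
    (Nat.lt_succ_of_le (Nat.le_of_dvd hf hgf)) hgf hg with h | h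
  · exact Or.inr (Or.inl h)
  · exact Or.inr (Or.inr (h.mono (Nat.le_of_dvd (umax_pos hq) (dvd_umax hu huc)) le_rfl le_rfl le_rfl))

theorem ab2_le (e : ℕ) (he : 1 ≤ e) : ab2 e ≤ e ^ 6 := by
  have : ∀ e < 17, 1 ≤ e → ab2 e ≤ e ^ 6 := by decide +kernel
  rcases lt_or_ge e 17 with h | h
  · exact this e h he
  · rw [ab2, if_neg (by omega)]
    refine (Nat.div_le_self _ _).trans ?_
    rw [← pow_two, ← pow_mul]
    exact Nat.pow_le_pow_right he (by norm_num)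

end H6.BS
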