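import Cfsg.Agent.H6.SV3
import Cfsg.Agent.H6.SV4

/-! Vector stabilizers in solvable linear groups V: the theorems of Seress and Espuelas. -/

set_option autoImplicit false
set_option linter.unusedSectionVars false
set_option linter.unusedVariables false

open Cfsg Subgroup MulAction

namespace H6.BS

universe u v

section Orb
variable (G V : Type u) [Group G] [Finite G] [AddCommGroup V] [Finite V] [DistribMulAction G V]

/-- at least `k` orbits of nonzero vectors -/
def NO (k : ℕ) : Prop := ∃ x : Fin k → V, (∀ a, x a ≠ 0) ∧ ∀ a b (g : G), g • x a = x b → a = b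

variable {G V}

theorem no_of (k : ℕ) (h : ∀ r < k, ∀ d : Fin r → ℕ, (∀ a, d a ∣ Nat.card G) →
    Nat.card V ≠ 1 + ∑ a, d a) : NO G V k := by
  classical
  have _ := Fintype.ofFinite (orbitRel.Quotient G V)
  let z : orbitRel.Quotient G V := Quotient.mk _ 0
  let e := (Fintype.equivFin {ω : orbitRel.Quotient G V // ω ≠ z}).symm
  have h1 : Nat.card V = 1 + ∑ a, Nat.card (orbit G (e a).1.out) := by
    rw [Nat.card_congr (selfEquivSigmaOrbits G V), Nat.card_sigma,
      Fintype.sum_eq_add_sum_subtype_ne _ z, ← e.sum_comp]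
    congr 1
    rw [orbit_eq_iff.2 (show z.out ∈ orbit G (0 : V) from Quotient.mk_out (s := orbitRel G V) 0)]
    exact Nat.card_eq_one_iff_unique.2 ⟨⟨by rintro ⟨_, a, rfl⟩ ⟨_, b, rfl⟩; simp⟩, ⟨⟨0, 1, by simp⟩⟩⟩
  have h2 : k ≤ Fintype.card {ω : orbitRel.Quotient G V // ω ≠ z} := not_lt.1 fun hh =>
    h _ hh _ (fun a => by
      rw [Nat.card_coe_set_eq, ← index_stabilizer]; exact index_dvd_card _) h1
  refine ⟨fun a => (e (Fin.castLE h2 a)).1.out, fun a e0 => (e (Fin.castLE h2 a)).2 ?_,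
    fun a b g hg => Fin.castLE_injective h2 (e.injective (Subtype.ext ?_))⟩
  · exact (Quotient.out_eq _).symm.trans (congrArg _ e0)
  · rw [← Quotient.out_eq (e _).1, ← Quotient.out_eq (e (Fin.castLE h2 b)).1]
    exact (Quotient.sound (s := orbitRel G V) ⟨g, hg⟩).symm

theorem no_ord {k : ℕ} (h : (k - 1) * Nat.card G + 1 < Nat.card V) : NO G V k :=
  no_of k fun r hr d hd e => by
    have h1 : ∑ a, d a ≤ r * Nat.card G := by
      simpa using Finset.sum_le_card_nsmul Finset.univ d _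
        fun a _ => Nat.le_of_dvd Nat.card_pos (hd a)
    have h2 : r * Nat.card G ≤ (k - 1) * Nat.card G := Nat.mul_le_mul_right _ (by omega)
    omega

theorem no_three [Nontrivial V] (h : ¬ Nat.card V - 1 ∣ Nat.card G) : NO G V 2 ∧
    ((∀ a b, a ∣ Nat.card G → b ∣ Nat.card G → Nat.card V ≠ 1 + (a + b)) → NO G V 3) := by
  have h0 : 1 < Nat.card V := Finite.one_lt_card
  have h1 : ∀ r < 2, ∀ d : Fin r → ℕ, (∀ a, d a ∣ Nat.card G) → Nat.card V ≠ 1 + ∑ a, d a := by
    intro r hr d hd e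
    interval_cases r
    · simp at e; omega
    · rw [e] at h
      simpa using h (by simpa using hd 0)
  refine ⟨no_of 2 h1, fun h2 => no_of 3 fun r hr d hd => ?_⟩
  rcases Nat.lt_succ_iff_lt_or_eq.1 hr with h3 | rfl
  · exact h1 r h3 d hd
  · rw [Fin.sum_univ_two]
    exact h2 _ _ (hd 0) (hd 1)

theorem NO.gd {j k : ℕ} (h : NO G V k) (hs : ∀ v : V, v ≠ 0 → St G v j) : Gd G V j k :=
  let ⟨x, h0, h1⟩ := h
  ⟨x, h1, fun a => hs _ (h0 a)⟩

theorem NO.gd' {j k : ℕ} (h : NO G V k) (hs : Dl G V j) : Gd G V j (k + 1) := by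
  obtain ⟨x, h0, h1⟩ := h
  refine ⟨Fin.cons 0 x, fun a b g => ?_, fun a => hs.st _⟩
  refine Fin.cases ?_ (fun a => ?_) a <;> refine Fin.cases ?_ (fun b => ?_) b <;>
    simp only [Fin.cons_zero, Fin.cons_succ, smul_zero, smul_eq_zero_iff_eq] <;> intro e
  · trivial
  · exact absurd e.symm (h0 _)
  · exact absurd e (h0 _)
  · rw [h1 _ _ g e]

theorem gd_neg (hG : Odd (Nat.card G)) (hV : Odd (Nat.card V)) {v : V} (v0 : v ≠ 0) {j : ℕ}
    (h : St G v j) : Gd G V j 2 := by
  have h1 : ∀ g : G, g • v ≠ -v := fun g e => by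
    obtain ⟨k, hk⟩ := hG
    obtain ⟨l, hl⟩ := hV
    have h2 : (g * g) • v = v := by rw [mul_smul, e, smul_neg, e, neg_neg]
    have h3 : g ^ Nat.card G • v = -v := by
      rw [hk, pow_succ', pow_mul, mul_smul, pow_two, pow_smul_of_mem_Fx h2, e]
    rw [pow_card_eq_one', one_smul, eq_neg_iff_add_eq_zero, ← two_nsmul] at h3
    have h4 : Nat.card V • v = 0 := card_nsmul_eq_zero'
    rw [hl, add_nsmul, mul_nsmul, h3, nsmul_zero, zero_add, one_nsmul] at h4
    exact v0 h4
  refine ⟨![v, -v], fun a b g e => ?_, fun a => ?_⟩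
  · fin_cases a <;> fin_cases b
    · rfl
    · exact absurd e (h1 g)
    · exact absurd (neg_eq_iff_eq_neg.1 ((smul_neg g v).symm.trans e)) (h1 g)
    · rfl
  · fin_cases a
    · exact h
    · exact (ds_mono (fun g hg => neg_injective ((smul_neg g v).symm.trans hg)) j).trans h

/-- the three levels -/
def Lv (G V : Type u) [Group G] [AddCommGroup V] [DistribMulAction G V] : Prop :=
  Gd G V 9 5 ∨ Gd G V 7 3 ∨ Gd G V 5 2

end Orb

section Pr
variable {G V K W : Type u} [Group G] [Finite G] [AddCommGroup V] [Finite V] [Nontrivial V]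
  [DistribMulAction G V] [FaithfulSMul G V] [Field K] [Finite K] [Module K V] [AddCommGroup W]
  [Finite W] [DistribMulAction G W] {U A E : Subgroup G} {sc : G → Kˣ} {σ : G →* RingAut K}
  {π : G → W} [Group.IsSolvable G]

namespace Prim
variable (h : Prim (V := V) U A E sc σ π)
include h

theorem bar_ab {e : ℕ} (he : Nat.card W = e * e) : Nat.card (A.map (toImg G W)) ≤ ab 1 e := by
  refine card_bar_le.trans ?_
  unfold ab
  split_ifs with h3
  · exact table (by simp) he (by nlinarith) (Nat.coprime_one_right _) h.cr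
  · have : Nontrivial W := Finite.one_lt_card_iff_nontrivial.1 (by nlinarith)
    have := (Mode.reg (Or.inl ⟨rfl, rfl, rfl, rfl⟩) (Nat.coprime_one_right _)
      (Nat.coprime_one_right _) h.cr).le
    rw [he] at this
    omega

theorem lv : Lv G V := by
  obtain ⟨p, f, q0, e, hp, hf, hq, h0, h1, -, hn, he, e1, en, -, uc, hr, -, -⟩ :=
    h.data (Nat.coprime_one_right _)
  have ha := h.bar_ab he
  rcases le_or_gt 256 e with e256 | e256
  · refine Or.inl ((h.reg_of_crude (m := 5) he le_rfl (ha.trans (ab_le 1 (by simp) e e1)) (by omega)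
      (crude_one (b := 3) (j := 62) le_rfl (by norm_num) (by norm_num) ?_ (by omega) en)).gd.mono
      (by norm_num) le_rfl)
    obtain ⟨r, k1, k2⟩ := Nat.exists_prime_and_dvd (show e ≠ 1 by omega)
    have := k1.two_le.trans ((Nat.le_of_dvd Nat.card_pos (hr r k1 k2)).trans h.u_le)
    omega
  have hd : Dl G W (D (e * e)) := dl_table he (by nlinarith) h.cr
  have hV := Module.natCard_eq_pow_finrank (K := K) (V := V)
  by_cases h2 : e < 3 ∨ e = 4
  · have h3 : D (e * e) ≤ 3 := by
      rcases h2 with h2 | rfl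
      · interval_cases e <;> decide
      · decide
    exact Or.inr (Or.inr ((no_ord (k := 1) (by simpa using Finite.one_lt_card)).gd'
      (h.dl (by norm_num) (hd.mono h3))))
  push Not at h2
  have hq2 : 2 ≤ Nat.card K := Finite.one_lt_card
  have hD := D_hi (e * e)
  rcases numA hp hf h0 h1 h2.1 h2.2 e256 en (by
    simpa [umax, hq] using dvd_umax_pow hq2 e1 h.u_dvd uc hr) with k | ⟨k1, k2, s, hs, k3, k4⟩
  · have h3 : NO G V (need e) := no_ord (lt_of_le_of_lt (by
      rw [h.card_G, he]; gcongr; exact hq ▸ h.u_le) (k.trans_eq (by rw [hV, hq])))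
    unfold need at h3
    split_ifs at h3 with k1 k2
    · exact Or.inr (Or.inl (h3.gd' (h.dl (by norm_num) (hd.mono k1))))
    · exact Or.inr (Or.inl (h3.gd fun v v0 =>
        h.st (by norm_num) (hd.mono (j := 6) (hD.2.2.2.2.1 (by nlinarith))) v0))
    · exact Or.inl (h3.gd fun v v0 => h.st (by norm_num) (hd.mono hD.1) v0)
  have hsp : s.Prime := by
    simp only [List.mem_cons, List.not_mem_nil, or_false] at hs
    rcases hs with rfl | rfl | rfl | rfl | rfl | rfl | rfl | rfl | rfl <;> norm_num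
  rw [← hq] at k1 k3 k4
  obtain ⟨n2, n3⟩ := no_three fun e' => k4 (h.pd he hsp ((hV ▸ k3 :).trans e'))
  refine Or.inr (Or.inl ?_)
  by_cases e8 : e = 8
  swap
  · exact n2.gd' (h.dl (by norm_num) (hd.mono (k2 e8)))
  subst e8
  rcases dl64 he h.cr with k | k
  · exact n2.gd' (h.dl (by norm_num) (k.mono (j := 5) (by norm_num)))
  have k5 := k1 rfl
  have k6 : ∀ a, a ∣ Nat.card G → ∀ s, s.Prime → s ∣ a → s ∣ 6 := fun a ha s hs hd => by
    have := hd.trans ha
    rw [h.card_G, k5.1, one_mul, he, hs.dvd_mul, hs.dvd_mul] at this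
    rcases this with (k7 | k7) | k7
    · exact hs.dvd_of_dvd_pow (n := 2) (((k7.trans h.u_dvd).trans k5.2.1).trans (by norm_num))
    · exact hs.dvd_of_dvd_pow (n := 6) (k7.trans (by norm_num))
    · exact k s hs (k7.trans ((card_subgroup_dvd_card _).trans card_img.dvd))
  exact (n3 fun a b ha hb => hV ▸ k5.ne (k6 a ha) (k6 b hb) (Nat.pos_of_dvd_of_pos ha Nat.card_pos)
    (Nat.pos_of_dvd_of_pos hb Nat.card_pos)).gd fun v v0 => h.st (j := 6) (by norm_num) hd v0

theorem spec9 (hc : (Nat.card G).Coprime 2) (hq : Nat.card K = 7) (hA : A.index = 1)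
    (hn : Module.finrank K V = 9) (he : Nat.card W = 9 * 9) : Reg G V 1 1 := by
  have := h.nA
  have hR : (A.map (toImg G W)).Normal := Normal.map inferInstance _ (toImg_surj G W)
  set R := A.map (toImg G W) with hRd
  have ha : Nat.card R ≤ 39 := card_bar_le.trans (table (c := 2) (by simp) he (by norm_num) hc h.cr)
  have hodd : Odd (Nat.card R) :=
    (Nat.coprime_two_right.1 hc).of_dvd_nat ((card_subgroup_dvd_card _).trans card_img_dvd)
  have h7 : ∀ s, s = 7 ∨ s = 13 → ¬ s ∣ Nat.card R := fun s hs hd => by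
    have hp : s.Prime := by rcases hs with rfl | rfl <;> norm_num
    have := Fact.mk hp
    obtain ⟨⟨y, g, hg, rfl⟩, hy⟩ := exists_prime_orderOf_dvd_card' s hd
    rw [← orderOf_coe] at hy
    have h1 : ¬ s ∣ Nat.card W := by rw [he]; rcases hs with rfl | rfl <;> norm_num
    obtain ⟨k1, k2⟩ := prime_ord hp hy (fun e' => hp.one_lt.ne' (by
      rw [← hy, eq_one_of_triv e', orderOf_one])) h1
    obtain ⟨d, hd⟩ := h.form.Cm_sq (g := toImg G W g) (h.pres hg) (s := s)
      (fun w => by rw [← hy, pow_orderOf_eq_one, one_smul]) (hp.coprime_iff_not_dvd.2 h1)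
    have k3 := AddSubgroup.card_addSubgroup_dvd_card (Cm W (toImg G W g))
    rw [hd, he] at k3
    rw [hd] at k1 k2
    have k4 : d ≤ 9 := by have := Nat.le_of_dvd (by norm_num) k3; nlinarith
    rcases hs with rfl | rfl <;> interval_cases d <;> omega
  have h3 : ¬ 3 ∣ Nat.card R := fun hd => by
    have := Fact.mk Nat.prime_three
    obtain ⟨P⟩ := (inferInstance : Nonempty (Sylow 3 R))
    have k1 := card_sylow_modEq_one 3 R
    have k2 := P.card_dvd_index
    have k3 := (P : Subgroup R).card_mul_index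
    have k4 : 3 ≤ Nat.card P := Nat.le_of_dvd Nat.card_pos (P.dvd_card_of_dvd_card hd)
    have k5 := k2.trans (index_dvd_card _)
    have k6 : Nat.card (Sylow 3 R) ≤ 13 :=
      (Nat.le_of_dvd (Nat.pos_of_ne_zero index_ne_zero_of_finite) k2).trans (by nlinarith)
    have k7 : Nat.card (Sylow 3 R) = 1 := by
      have := Nat.odd_iff.1 (hodd.of_dvd_nat k5)
      by_contra hh
      exact h7 _ (by unfold Nat.ModEq at k1; omega) k5
    have : Subsingleton (Sylow 3 R) := (Nat.card_eq_one_iff_unique.1 k7).1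
    have := P.characteristic_of_subsingleton
    have k8 := pcore_triv h.cr.img Nat.prime_three (fun w => h.cr.sqf.pow 3 4 w
      (he ▸ card_nsmul_eq_zero' :)) ((P : Subgroup R).map R.subtype) (P.isPGroup'.map _)
    rw [map_eq_bot_iff_of_injective _ R.subtype_injective] at k8
    rw [k8, card_bot] at k4
    omega
  have hg : ∀ g ∈ A, (orderOf g).Prime → Good V g := fun g hA hp => by
    by_contra hb
    have ho : Odd (orderOf g) := (Nat.coprime_two_right.1 hc).of_dvd_nat (orderOf_dvd_natCard g)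
    have h0 := h.bad_Cm hA (ne_one_of_prime hp) hb
    obtain ⟨-, j, -, h4⟩ := h.form.bad_odd' (h.pres hA) hp
      (fun w => by rw [pow_orderOf_eq_one, one_smul]) ho (fun v hv => h.bad_form hb hv) h0
    have h5 : orderOf g = 3 := (Nat.prime_dvd_prime_iff_eq hp Nat.prime_three).1
      (hp.dvd_of_dvd_pow (n := 4) ((Dvd.intro_left _ rfl).trans (he ▸ h4 :)))
    have := Fact.mk Nat.prime_three
    have h6 : orderOf (toImg G W g) = 3 := orderOf_eq_prime (by
      rw [← map_pow, ← h5, pow_orderOf_eq_one, map_one]) fun e => h0 (Cm_eq_bot.2 fun w => by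
        rw [← toImg_smul, e, one_smul])
    exact h3 (h6 ▸ orderOf_dvd_natCard R (mem_map_of_mem _ hA))
  have h1 := NR_le (V := V) 1 A
  have h2 : 2 * (FT V 1 {g : G | (orderOf g).Prime ∧ g ∈ A}).ncard ≤ _ :=
    wt_prime 1 (· ∈ A) (fun g hg => inv_mem hg) fun T hT => h.good_part T hT _ _
      fun T' k3 k4 => h.coset_good le_rfl (by omega) T' (fun g k => (hT g (k3 k)).2)
        (fun g k => hg g (hT g (k3 k)).2 (hT g (k3 k)).1) k4
  rw [Set.eq_empty_of_forall_notMem (s := FT V 1 {g : G | (orderOf g).Prime ∧ g ∉ A})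
    (fun x ⟨_, g, k, _⟩ => k.2 (index_eq_one.1 hA ▸ mem_top g)), Set.ncard_empty] at h1
  refine reg_of_count ?_
  rw [Module.natCard_eq_pow_finrank (K := K) (V := V), hq, hn]
  rw [hq, hn, he, ← hRd] at h2
  norm_num at h2 ⊢
  omega

theorem st_odd (hG : Odd (Nat.card G)) (hV : Odd (Nat.card V)) : ∃ v : V, v ≠ 0 ∧ St G v 1 := by
  have hc := Nat.coprime_two_right.2 hG
  obtain ⟨p, f, q0, e, hp, hf, hq, h0, h1, h2, hn, he, e1, en, ec, uc, hr, -, hd⟩ := h.data hc
  obtain ⟨v, v0⟩ := exists_ne (0 : V)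
  rcases lt_or_ge e 5 with e5 | e5
  · refine ⟨v, v0, h.st_triv (fun g => mem_ker.1 ?_) v0⟩
    have h3 : ord G W ≤ 1 := by
      refine (table (c := 2) (by simp) he (by nlinarith) hc h.cr).trans ?_
      interval_cases e <;> first | decide | exact absurd ec (by decide)
    exact index_eq_one.1 (le_antisymm h3 ord_pos) ▸ mem_top g
  have ha : Nat.card (A.map (toImg G W)) ≤ ab2 e := by
    refine card_bar_le.trans ?_
    unfold ab2
    split_ifs with h3
    · exact table (by simp) he (by nlinarith) hc h.cr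
    · have : Nontrivial W := Finite.one_lt_card_iff_nontrivial.1 (by nlinarith)
      have := (Mode.reg (Or.inr (Or.inr (Or.inl ⟨rfl, rfl, rfl, rfl⟩))) hc
        (Nat.coprime_one_right _) h.cr).le
      rw [he] at this
      omega
  have h3 : Reg G V 1 1 := by
    rcases numB hp (fun e2 => hV.not_two_dvd_nat (e2 ▸ hd)) hf h0 h1 h2 e5 en ec (hq ▸ h.u_dvd) uc
      hr with k | ⟨k1, k2, rfl⟩ | k
    · exact h.reg_of_crude he (by norm_num) (ha.trans (ab2_le e e1)) (by omega) (hq ▸ k)
    · exact h.spec9 hc (hq.trans k1) (Nat.dvd_one.1 (dvd_of_pow_eq (p := 7) (by norm_num) le_rfl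
        ((pow_one _).trans (k1.symm.trans h1)))) k2 he
    · exact h.reg_of_fine hc he le_rfl ha (h.nA2_le hc he ha) (h.xb_bd he ha) (hq ▸ k)
  obtain ⟨x, -, hx⟩ := h3.gd
  by_cases x0 : x 0 = 0
  · exact ⟨v, v0, ((st_zero.1 (x0 ▸ hx 0)).st v).mono zero_le_one⟩
  · exact ⟨_, x0, (hx 0).mono zero_le_one⟩

end Prim
end Pr

theorem lv_all (N : ℕ) : ∀ (G V : Type u) [Group G] [Finite G] [Group.IsSolvable G]
    [AddCommGroup V] [Finite V] [Nontrivial V] [DistribMulAction G V], Nat.card V < N →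
    CR G V → Lv G V := by
  induction N using Nat.strong_induction_on with
  | _ N ih =>
  intro G V _ _ _ _ _ _ _ hN hcr
  have := img_solvable (G := G) (V := V)
  suffices Lv (Img G V) V from this.imp Gd.of_img (Or.imp Gd.of_img Gd.of_img)
  rcases tri (G := Img G V) (V := V) with hi | ⟨hi, hs⟩ | ⟨hi, hs⟩
  · obtain ⟨X, Y, _, _, _, _, _, _, hX, hY, cX, cY, h1, h2, h3⟩ := red3 hcr.img hi
    have x2 : 2 ≤ Nat.card X := Finite.one_lt_card
    have y2 : 2 ≤ Nat.card Y := Finite.one_lt_card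
    rcases ih _ hN _ X (by rw [h1]; nlinarith) cX with k | k | k <;>
      rcases ih _ hN _ Y (by rw [h1]; nlinarith) cY with k' | k' | k'
    · exact Or.inl (h2 9 5 k (k'.mono (by norm_num) (by norm_num)))
    · exact Or.inl (h2 9 5 k (k'.mono (by norm_num) (by norm_num)))
    · exact Or.inl (h2 9 5 k (k'.mono (by norm_num) (by norm_num)))
    · exact Or.inl (h3 9 5 (k.mono (by norm_num) (by norm_num)) k')
    · exact Or.inr (Or.inl (h2 7 3 k (k'.mono (by norm_num) (by norm_num))))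
    · exact Or.inr (Or.inl (h2 7 3 k (k'.mono (by norm_num) (by norm_num))))
    · exact Or.inl (h3 9 5 (k.mono (by norm_num) (by norm_num)) k')
    · exact Or.inr (Or.inl (h3 7 3 (k.mono (by norm_num) (by norm_num)) k'))
    · exact Or.inr (Or.inr (h2 5 2 k (k'.mono (by norm_num) (by norm_num))))
  · obtain ⟨H, X, S, M, _, _, _, _, _, _, _, _, hX, iX, sS, hM, iM, -, -, h1, h2⟩ := imp3 hi hs
    rcases ih _ hN H X (h1 ▸ lt_self_pow₀ Finite.one_lt_card Finite.one_lt_card) iX.cr with k | k | k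
    · exact Or.inl (h2 0 9 5 5 (cl055 iM.cr) k)
    · exact Or.inl (h2 2 7 3 5 (cl235 iM.cr) k)
    · exact (cl_two iM.cr).elim (fun c => Or.inr (Or.inl (h2 2 5 2 3 c k)))
        fun c => Or.inl (h2 4 5 2 5 c k)
  · obtain ⟨K, W, _, _, _, _, _, _, U, A, E, sc, σ, π, h⟩ := exists_prim hi hs
    exact h.lv

theorem odd_all (N : ℕ) : ∀ (G V : Type u) [Group G] [Finite G] [Group.IsSolvable G]
    [AddCommGroup V] [Finite V] [Nontrivial V] [DistribMulAction G V], Nat.card V < N →
    Odd (Nat.card G) → Odd (Nat.card V) → CR G V → Gd G V 1 2 := by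
  induction N using Nat.strong_induction_on with
  | _ N ih =>
  intro G V _ _ _ _ _ _ _ hN hG hV hcr
  have := img_solvable (G := G) (V := V)
  replace hG : Odd (Nat.card (Img G V)) := hG.of_dvd_nat card_img_dvd
  refine Gd.of_img ?_
  rcases tri (G := Img G V) (V := V) with hi | ⟨hi, hs⟩ | ⟨hi, hs⟩
  · obtain ⟨X, Y, _, _, _, _, _, _, hX, hY, cX, cY, h1, h2, -⟩ := red3 hcr.img hi
    have x2 : 2 ≤ Nat.card X := Finite.one_lt_card
    have y2 : 2 ≤ Nat.card Y := Finite.one_lt_card
    exact h2 _ _ (ih _ hN _ X (by rw [h1]; nlinarith) hG (hV.of_dvd_nat ⟨_, h1⟩) cX)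
      ((ih _ hN _ Y (by rw [h1]; nlinarith) hG (hV.of_dvd_nat (Dvd.intro_left _ h1.symm)) cY).mono
        le_rfl one_le_two)
  · obtain ⟨H, X, S, M, _, _, _, _, _, _, _, _, hX, iX, sS, hM, iM, d1, d2, h1, h2⟩ := imp3 hi hs
    exact h2 _ _ _ _ (cl022 iM.cr (hG.of_dvd_nat d1) (hG.of_dvd_nat d2))
      (ih _ hN H X (h1 ▸ lt_self_pow₀ Finite.one_lt_card Finite.one_lt_card)
        (hG.of_dvd_nat H.card_subgroup_dvd_card)
        (hV.of_dvd_nat (h1 ▸ dvd_pow_self _ Nat.card_pos.ne')) iX.cr)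
  · obtain ⟨K, W, _, _, _, _, _, _, U, A, E, sc, σ, π, h⟩ := exists_prim hi hs
    obtain ⟨v, v0, hv⟩ := h.st_odd hG hV
    exact gd_neg hG hV v0 hv

variable {G : Type v} {V : Type u} [Group G] [Finite G] [Group.IsSolvable G] [AddCommGroup V]
  [Finite V] [DistribMulAction G V]

/-- Seress: some vector stabilizer has derived length at most nine -/
theorem st_nine (hcr : CR G V) : ∃ v : V, St G v 9 := by
  rcases subsingleton_or_nontrivial V with hV | hV
  · exact ⟨0, fun _ _ => mem_ker.2 fun _ => Subsingleton.elim _ _⟩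
  have := img_solvable (G := G) (V := V)
  rcases lv_all _ (Img G V) V (Nat.lt_succ_self _) hcr.img with ⟨x, -, h⟩ | ⟨x, -, h⟩ | ⟨x, -, h⟩
  all_goals exact ⟨_, (h 0).of_img.mono (by norm_num)⟩

/-- Espuelas: in the odd case some vector stabilizer is abelian -/
theorem st_one (hcr : CR G V) (hG : Odd (Nat.card G)) (hV : Odd (Nat.card V)) :
    ∃ v : V, St G v 1 := by
  rcases subsingleton_or_nontrivial V with hV | hV
  · exact ⟨0, fun _ _ => mem_ker.2 fun _ => Subsingleton.elim _ _⟩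
  have := img_solvable (G := G) (V := V)
  obtain ⟨x, -, h⟩ := odd_all _ (Img G V) V (Nat.lt_succ_self _)
    (hG.of_dvd_nat (card_img.dvd.trans ord_dvd)) ‹_› hcr.img
  exact ⟨_, (h 0).of_img⟩

end H6.BS
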